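import Cfsg.Agent.Fisch.SL2Prime
import Cfsg.Prelude.Def_Classical

/-! Groups generated by `p`-transvections: the interface and abstract polar spaces. -/

set_option autoImplicit false

namespace CF.Tv

open CF.Fisch
open scoped MatrixGroups

variable {G : Type*} [Group G] {P : Type*}

/-- normal form of a non-commuting pair -/
structure NF {K : Type} [Field K] (π : SL(2, K) →* G) (t : K) (α β : G) : Prop where
  t0 : t ≠ 0
  a : π (upT 1) = α
  b : π (loT t) = β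
  rg : ∀ g, π g ∈ Subgroup.closure {α, β}
  ker : ∀ g, π g = 1 → g = 1 ∨ g = -1

/-- points `P`, collinearity `c`, and the `p`-transvections `W x` with centre `x` -/
structure PG (p : ℕ) [MulAction G P] (c : P → P → Prop) (W : P → Set G) : Prop where
  prime : p.Prime
  five : 5 ≤ p
  ord : ∀ {x α}, α ∈ W x → orderOf α = p
  ne : ∀ x, (W x).Nonempty
  conj : ∀ {x α}, α ∈ W x → ∀ g : G, g * α * g⁻¹ ∈ W (g • x)
  pow : ∀ {x α}, α ∈ W x → ∀ {n : ℕ}, ¬ p ∣ n → α ^ n ∈ W x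
  cm : ∀ {x y α β}, α ∈ W x → β ∈ W y → (c x y ↔ Commute α β)
  ext : ∀ {x x'}, (∀ y, c x y ↔ c x' y) → x = x'
  nf : ∀ {x y α β}, α ∈ W x → β ∈ W y → ¬ c x y →
    ∃ (K : Type) (_ : Field K) (_ : Fintype K) (_ : CharP K p) (π : SL(2, K) →* G) (t : K), NF π t α β
  gen : Subgroup.closure (⋃ x, W x) = ⊤
  tr : ∀ x y : P, ∃ g : G, g • x = y
  ff : ∀ g : G, (∀ x : P, g • x = x) → g = 1
  two : ∃ x y, ¬ c x y

/-- the conclusion -/
def Concl (p : ℕ) (G : Type*) [Group G] : Prop :=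
  ∃ (F : Type) (_ : Field F) (_ : Fintype F), ringChar F = p ∧
    ((∃ m : ℕ, 1 ≤ m ∧ Nonempty (G ≃* Cfsg.PSp m F)) ∨
      (∃ (n q : ℕ), 2 ≤ n ∧ Fintype.card F = q ^ 2 ∧ Nonempty (G ≃* Cfsg.PSU n F q)))

/-- `x` lies in `{a, b}^⊥⊥` -/
def Ln (c : P → P → Prop) (a b x : P) : Prop := ∀ y, c a y → c b y → c x y

/-- thick non-degenerate polar space of rank at least two -/
structure PS (c : P → P → Prop) : Prop where
  refl : ∀ x, c x x
  symm : ∀ {x y}, c x y → c y x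
  ext : ∀ {a b}, (∀ y, c a y → c b y) → a = b
  line : ∀ {a b x}, c a b → Ln c a b x → x ≠ a → Ln c a x b
  proj : ∀ {a b x}, c a b → a ≠ b → ¬ c a x → ∃ r, Ln c a b r ∧ c r x
  opp : ∀ {a b}, c a b → ∃ x, ¬ c a x ∧ ¬ c b x
  rk : ∀ a, ∃ b, c a b ∧ b ≠ a

/-- central collineations -/
def Zc (G : Type*) [Group G] [MulAction G P] (c : P → P → Prop) (a : P) : Subgroup G where
  carrier := {g | ∀ y, c a y → g • y = y}
  one_mem' := fun y _ => one_smul G y
  mul_mem' := fun {g h} hg hh y hy => by rw [mul_smul, hh y hy, hg y hy]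
  inv_mem' := fun {g} hg y hy => by rw [inv_smul_eq_iff, hg y hy]

/-- a system of transvection-like maps of a symplectic space -/
structure TS {k M X : Type*} [Field k] [AddCommGroup M] [Module k M] (f : LinearMap.BilinForm k M)
    (r : X → X → Prop) (t : X → Module.End k M) : Prop where
  alt : ∀ m, f m m = 0
  nd : ∀ m, (∀ m', f m m' = 0) → m = 0
  refl : ∀ x, r x x
  symm : ∀ {x y}, r x y → r y x
  sym : ∀ x m m', f (t x m) m' = f (t x m') m
  an : ∀ x m, f (t x m) m = 0 → t x m = 0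
  ne : ∀ x, t x ≠ 0
  perp : ∀ {x y}, r x y → t x * t y = 0
  opp : ∀ {x y}, ¬ r x y → ∃ l : k, l ≠ 0 ∧ t x * t y * t x = l • t x
  cl : ∀ x y, ∃ (y' : X) (l : k), l ≠ 0 ∧ (1 + t x) * t y * (1 - t x) = l • t y'
  span : ⨆ x, LinearMap.range (t x) = ⊤
  conn : ∀ {x y}, r x y → ∃ w, ¬ r x w ∧ ¬ r y w
  nonempty : Nonempty X

/-- coordinates of the unipotent radical over the field of the long root groups -/
structure QD [MulAction G P] (c : P → P → Prop) (a b : P) {k M : Type*} [Field k] [AddCommGroup M] [Module k M]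
    (f : LinearMap.BilinForm k M) (t : P → Module.End k M) (n : M → k → G) : Prop where
  ab : ¬ c a b
  ts : TS f (fun x y : {y // c a y ∧ c b y} => c x y) fun x => t x
  mul : ∀ m e m' e', n m e * n m' e' = n (m + m') (e + e' + f m m' / 2)
  fa : ∀ m e, n m e • a = a
  sur : ∀ {x}, ¬ c a x → ∃ m e, n m e • b = x
  inj : ∀ {m e}, n m e • b = b → m = 0 ∧ e = 0
  ln : ∀ m e {y}, c a y → Ln c a y (n m e • y)
  fx : ∀ m e {y}, c a y → c b y → (n m e • y = y ↔ t y m = 0)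
  sb : ∀ {y}, c a y → c b y → ∀ m, Ln c b y (n (t y m) 0 • b)
  tb : ∀ {y x}, c a y → c b y → Ln c b y x → x ≠ y → ∃ m, n (t y m) 0 • b = x

/-- coordinates of the unipotent radical over the field of the form -/
structure Co [MulAction G P] (c : P → P → Prop) (a b : P) {F M : Type*} [Field F] [AddCommGroup M] [Module F M]
    {σ : F →+* F} (h : M →ₛₗ[σ] M →ₗ[F] F) (v : P → M) (n : M → F → G) : Prop where
  ab : ¬ c a b
  two : (2 : F) ≠ 0
  inv : ∀ x, σ (σ x) = x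
  skew : ∀ m m', h m' m = -σ (h m m')
  nd : ∀ m, (∀ m', h m m' = 0) → m = 0
  mul : ∀ m {e} m' {e'}, σ e = e → σ e' = e' →
    n m e * n m' e' = n (m + m') (e + e' + (h m m' + σ (h m m')) / 2)
  fa : ∀ m {e}, σ e = e → n m e • a = a
  sur : ∀ {x}, ¬ c a x → ∃ m e, σ e = e ∧ n m e • b = x
  inj : ∀ {m e}, σ e = e → n m e • b = b → m = 0 ∧ e = 0
  ln : ∀ m {e y}, σ e = e → c a y → Ln c a y (n m e • y)
  fx : ∀ m {e y}, σ e = e → c a y → c b y → (n m e • y = y ↔ h m (v y) = 0)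
  v0 : ∀ {y}, c a y → c b y → v y ≠ 0
  cv : ∀ {y y'}, c a y → c b y → c a y' → c b y' → (c y y' ↔ h (v y) (v y') = 0)
  sb : ∀ {y}, c a y → c b y → ∀ l : F, Ln c b y (n (l • v y) 0 • b)
  tb : ∀ {y x}, c a y → c b y → Ln c b y x → x ≠ y → ∃ l : F, n (l • v y) 0 • b = x
  span : Submodule.span F (v '' {y | c a y ∧ c b y}) = ⊤

variable {c : P → P → Prop} {a b d e r x y z : P}

theorem Ln.left : Ln c a b a := fun _ h _ => h
theorem Ln.right : Ln c a b b := fun _ _ h => h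
theorem Ln.symm (h : Ln c a b x) : Ln c b a x := fun y h1 h2 => h y h2 h1
theorem Ln.trans (h : Ln c x y z) (hx : Ln c a b x) (hy : Ln c a b y) : Ln c a b z :=
  fun w h1 h2 => h w (hx w h1 h2) (hy w h1 h2)

namespace PS

variable (S : PS c)
include S

theorem ne (h : ¬ c a b) : a ≠ b := fun e => h (e ▸ S.refl a)

theorem nsymm (h : ¬ c a b) : ¬ c b a := fun e => h (S.symm e)

/-- two points of a line are collinear -/
theorem col (h : c a b) (hx : Ln c a b x) (hy : Ln c a b y) : c x y :=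
  hx y (S.symm (hy a (S.refl a) (S.symm h))) (S.symm (hy b h (S.refl b)))

theorem col_left (h : c a b) (hx : Ln c a b x) : c a x := S.col h .left hx

/-- a line is spanned by any two of its points -/
theorem span (h : c a b) (hx : Ln c a b x) (hy : Ln c a b y) (n : x ≠ y) (hz : Ln c a b z) : Ln c x y z := by
  have k : ∀ {x y}, Ln c a b x → Ln c a b y → x ≠ a → x ≠ y → Ln c x y z := fun {x y} hx hy n1 n2 => by
    have h1 := S.line h hx n1
    have h2 := S.line (S.symm (S.col_left h hx)) (hy.trans .left h1).symm n2.symm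
    exact (hz.trans .left h1).trans h2 .left
  by_cases e : x = a
  · exact (k hy hx (e ▸ n.symm) n.symm).symm
  · exact k hx hy e n

/-- uniqueness of the projection -/
theorem uq (h : c a b) (hx : Ln c a b x) (hy : Ln c a b y) (hz : Ln c a b z) (h1 : c x d) (h2 : c y d)
    (h3 : ¬ c z d) : x = y := by
  by_contra n
  exact h3 (S.span h hx hy n hz d h1 h2)

/-- projection onto a line from a point opposite to one of its points -/
theorem proj' (h : c a b) (n : a ≠ b) (hz : Ln c a b z) (h3 : ¬ c z d) : ∃ r, Ln c a b r ∧ c r d := by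
  by_cases e : c a d
  · exact ⟨a, .left, e⟩
  · exact S.proj h n e

theorem third (h : c a b) (n : a ≠ b) : ∃ r, Ln c a b r ∧ r ≠ a ∧ r ≠ b := by
  obtain ⟨x, h1, h2⟩ := S.opp h
  obtain ⟨r, h3, h4⟩ := S.proj h n h1
  exact ⟨r, h3, fun e => h1 (e ▸ h4), fun e => h2 (e ▸ h4)⟩

theorem exists_sep (n : a ≠ b) : ∃ y, c a y ∧ ¬ c b y := by
  by_contra k
  push Not at k
  exact n (S.ext k)

theorem hyp0 (h : ¬ c a b) (hx : Ln c a b x) (h1 : c a x) : x = a := by
  by_contra n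
  obtain ⟨r, h2, h3⟩ := S.proj h1 (Ne.symm n) h
  have h4 := S.col_left h1 h2
  refine h ((S.ext (a := a) (b := r) fun y hy => ?_) ▸ h3)
  by_cases e : a = y
  · exact e ▸ S.symm h4
  obtain ⟨s, h5, h6⟩ := S.proj hy e h
  have h7 := S.col_left hy h5
  exact S.symm (S.line hy h5 (fun e => h (e ▸ h6)) r h4 (S.symm (h2 s h7 (hx s h7 (S.symm h6)))))

/-- a hyperbolic line is spanned by any two of its points -/
theorem hline (h : ¬ c a b) (hx : Ln c a b x) (n : x ≠ a) : ¬ c a x ∧ Ln c a x b := by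
  have h1 : ¬ c a x := fun e => n (S.hyp0 h hx e)
  refine ⟨h1, fun y h2 h3 => ?_⟩
  have e : a ≠ y := fun e => h1 (e ▸ S.symm h3)
  obtain ⟨s, h5, h6⟩ := S.proj h2 e h
  have h7 := hx s (S.col_left h2 h5) (S.symm h6)
  exact S.symm (S.uq h2 h5 .right .left (S.symm h7) (S.symm h3) h1 ▸ h6)

/-- points of a hyperbolic line are opposite -/
theorem hyp (h : ¬ c a b) (hx : Ln c a b x) (hy : Ln c a b y) (h1 : c x y) : x = y := by
  by_cases e : x = a
  · exact e.trans (S.hyp0 h hy (e ▸ h1)).symm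
  obtain ⟨h2, h3⟩ := S.hline h hx e
  exact (S.hyp0 (S.nsymm h2) (hy.trans .left h3).symm h1).symm

theorem exists_perp (h : ¬ c a b) : ∃ y, c a y ∧ c b y := by
  obtain ⟨y, h1, h2⟩ := S.rk a
  obtain ⟨r, h3, h4⟩ := S.proj h1 h2.symm h
  exact ⟨r, S.col_left h1 h3, S.symm h4⟩

/-- the residue is non-degenerate -/
theorem res_opp (h : ¬ c a b) (h1 : c a x) (h2 : c b x) : ∃ w, c a w ∧ c b w ∧ ¬ c x w := by
  by_contra k
  push Not at k
  exact h (S.symm (S.hyp0 h k h1 ▸ h2))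

theorem res_conn (h : ¬ c a b) (h1 : c a x) (h2 : c b x) (h3 : c a y) (h4 : c b y) (h5 : c x y) :
    ∃ w, c a w ∧ c b w ∧ ¬ c x w ∧ ¬ c y w := by
  obtain ⟨d, d1, d2, d3⟩ := S.res_opp h h1 h2
  obtain ⟨e, e1, e2, e3⟩ := S.res_opp h h3 h4
  by_cases k1 : c y d
  swap; · exact ⟨d, d1, d2, d3, k1⟩
  by_cases k2 : c x e
  swap; · exact ⟨e, e1, e2, k2, e3⟩
  obtain ⟨r, r1, r2⟩ := S.proj k1 (fun e => d3 (e ▸ h5)) e3
  have r3 : ¬ c x r := fun k => e3 (S.uq k1 r1 .left .right (S.symm k) (S.symm h5) (S.nsymm d3) ▸ r2)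
  have r4 := S.col_left k1 r1
  obtain ⟨w, w1, w2, w3⟩ := S.third r2 fun e => r3 (e ▸ k2)
  have ar := r1 a (S.symm h3) (S.symm d1)
  have br := r1 b (S.symm h4) (S.symm d2)
  exact ⟨w, S.symm (w1 a ar (S.symm e1)), S.symm (w1 b br (S.symm e2)),
    fun k => w3 (S.uq r2 w1 .right .left (S.symm k) (S.symm k2) (S.nsymm r3)),
    fun k => w2 (S.uq r2 w1 .left .right (S.symm k) (S.symm r4) (S.nsymm e3))⟩

/-- the points opposite to `a` are connected -/
theorem conn (Δ : P → Prop) (h : ¬ c a b) (h0 : Δ b) (st : ∀ x y, ¬ c a x → ¬ c a y → c x y → Δ x → Δ y)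
    (hx : ¬ c a x) : Δ x := by
  have k : ∀ {b}, ¬ c a b → Δ b → ¬ Ln c b x a → Δ x := fun {b} h h0 n => by
    simp only [Ln, not_forall] at n
    obtain ⟨y, h1, h2, h3⟩ := n
    exact st y x h3 hx (S.symm h2) (st b y h h3 h1 h0)
  by_cases e : Ln c b x a
  swap; · exact k h h0 e
  by_cases e1 : c b x
  · exact st b x h hx e1 h0
  obtain ⟨y, h1, h2⟩ := S.exists_perp h
  have yb : b ≠ y := fun e => h (e ▸ h1)
  obtain ⟨r, h3, h4, h5⟩ := S.third h2 yb
  have h6 : ¬ c a r := fun e => h5 (S.uq h2 h3 .right .left (S.symm e) (S.symm h1) (S.nsymm h))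
  have h7 := S.col_left h2 h3
  refine k h6 (st b r h h6 h7 h0) fun e2 => ?_
  by_cases e3 : c r x
  · exact h6 (e r h7 (S.symm e3))
  have h8 := (S.hline (S.nsymm e3) e2.symm (S.ne hx)).2
  have h9 := (S.hline (S.nsymm e1) e.symm (S.ne hx)).2
  exact h4 (S.hyp (S.nsymm hx) h8 h9 (S.symm h7))

/-- rigidity of central collineations -/
theorem rigid (θ : P ≃ P) (hθ : ∀ x y, c (θ x) (θ y) ↔ c x y) (h1 : ∀ y, c a y → θ y = y) (h : ¬ c a b)
    (h2 : θ b = b) (x : P) : θ x = x := by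
  by_cases hx : c a x
  · exact h1 x hx
  refine S.conn (fun x => θ x = x) h h2 (fun x y hx hy h3 h4 => ?_) hx
  by_cases e : x = y
  · exact e ▸ h4
  obtain ⟨r, h5, h6⟩ := S.proj h3 e (S.nsymm hx)
  have h7 := S.line h3 h5 fun e => hx (e ▸ S.symm h6)
  refine S.hyp hy (fun w k1 k2 => ?_) .right ?_
  · rw [← h1 w k1, hθ]; exact k2
  · obtain ⟨w, rfl⟩ := θ.surjective y
    rw [hθ]
    refine h7 w ?_ ?_
    · rwa [← hθ, h4]
    · rw [← hθ, h1 r (S.symm h6)]; exact S.col h3 h5 .right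

end PS

end CF.Tv
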