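import Cfsg.Agent.Tv.A

/-! `p`-transvections: pairs. -/

set_option autoImplicit false

namespace CF.Tv

open CF.Fisch
open scoped MatrixGroups commutatorElement

variable {G : Type*} [Group G] {P : Type*}

/-- braid relation -/
def Br (α β : G) : Prop := α * β * α = β * α * β

theorem Br.symm {α β : G} (h : Br α β) : Br β α := Eq.symm h

theorem Br.conj {α β : G} (h : Br α β) : α * β * α * (α * β)⁻¹ = β := by rw [h]; group

theorem Br.cj {α β : G} (h : Br α β) (g : G) : Br (g * α * g⁻¹) (g * β * g⁻¹) := by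
  have := congr(g * $h * g⁻¹)
  unfold Br
  simpa [mul_assoc] using this

theorem Br.map {H : Type*} [Group H] {α β : G} (h : Br α β) (f : G →* H) : Br (f α) (f β) := by
  simpa [Br] using congr(f $h)

section SL

variable {K : Type} [Field K] {π : SL(2, K) →* G} {s t : K} {α β : G} {g : SL(2, K)}

/-- diagonal matrix -/
def dg (r : K) (h : r ≠ 0) : SL(2, K) := ⟨!![r, 0; 0, r⁻¹], by simp [Matrix.det_fin_two, h]⟩

theorem dg_coe (r : K) (h : r ≠ 0) : (dg r h : Matrix (Fin 2) (Fin 2) K) = !![r, 0; 0, r⁻¹] := rfl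

theorem inv_coe (g : SL(2, K)) : ((g⁻¹ : SL(2, K)) : Matrix (Fin 2) (Fin 2) K) = !![g 1 1, -g 0 1; -g 1 0, g 0 0] := by
  rw [Matrix.SpecialLinearGroup.SL2_inv_expl]; rfl

theorem dg_up (r : K) (h : r ≠ 0) (s : K) : dg r h * upT s * (dg r h)⁻¹ = upT (r ^ 2 * s) := by
  rw [mul_inv_eq_iff_eq_mul]
  apply sl2_ext <;> simp [sl2_mul_apply, dg_coe, upT_coe] <;> field_simp

theorem dg_lo (r : K) (h : r ≠ 0) (s : K) : dg r h * loT s * (dg r h)⁻¹ = loT (s / r ^ 2) := by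
  rw [mul_inv_eq_iff_eq_mul]
  apply sl2_ext <;> simp [sl2_mul_apply, dg_coe, loT_coe] <;> field_simp

theorem br_up_lo (h : s * t = -1) : Br (upT s) (loT t) := by
  have hs : s ≠ 0 := by rintro rfl; simp at h
  obtain rfl : t = -s⁻¹ := by field_simp; linear_combination h
  apply sl2_ext <;> simp [sl2_mul_apply, upT_coe, loT_coe, hs]

theorem w_sq (h : s * t = -1) : (upT s * loT t * upT s) ^ 2 = -1 := by
  have hs : s ≠ 0 := by rintro rfl; simp at h
  obtain rfl : t = -s⁻¹ := by field_simp; linear_combination h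
  rw [sq]
  apply sl2_ext <;> simp [sl2_mul_apply, upT_coe, loT_coe, hs]

theorem upT_pow (s : K) (n : ℕ) : upT s ^ n = upT (n * s) := by
  induction n with
  | zero => simp [upT_zero]
  | succ n ih => rw [pow_succ, ih, ← upT_add]; congr 1; push_cast; ring

theorem loT_pow (s : K) (n : ℕ) : loT s ^ n = loT (n * s) := by
  induction n with
  | zero => simp [loT_zero]
  | succ n ih => rw [pow_succ, ih, ← loT_add]; congr 1; push_cast; ring

/-- the automorphism interchanging the two unipotent subgroups -/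
def sw0 (t : K) (h : t ≠ 0) (g : SL(2, K)) : SL(2, K) := ⟨!![g 1 1, g 1 0 / t; t * g 0 1, g 0 0], by
    rw [Matrix.det_fin_two]; simp only [Matrix.of_apply, Matrix.cons_val', Matrix.cons_val_zero, Matrix.cons_val_one,
      Matrix.cons_val_fin_one]; field_simp; linear_combination sl2_det g⟩

theorem sw0_coe (h : t ≠ 0) : (sw0 t h g : Matrix (Fin 2) (Fin 2) K) = !![g 1 1, g 1 0 / t; t * g 0 1, g 0 0] := rfl

/-- the automorphism interchanging the two unipotent subgroups -/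
def sw (t : K) (h : t ≠ 0) : SL(2, K) →* SL(2, K) where
  toFun := sw0 t h
  map_one' := by apply sl2_ext <;> simp [sw0_coe]
  map_mul' g g' := by apply sl2_ext <;> simp only [sl2_mul_apply, sw0_coe] <;> simp [sl2_mul_apply] <;> field_simp <;> ring

theorem sw_coe (h : t ≠ 0) : (sw t h g : Matrix (Fin 2) (Fin 2) K) = !![g 1 1, g 1 0 / t; t * g 0 1, g 0 0] := rfl

theorem sw_up (h : t ≠ 0) (s : K) : sw t h (upT s) = loT (t * s) := by
  apply sl2_ext <;> simp [sw_coe, upT_coe, loT_coe]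

theorem sw_lo (h : t ≠ 0) (s : K) : sw t h (loT s) = upT (s / t) := by
  apply sl2_ext <;> simp [sw_coe, upT_coe, loT_coe]

theorem NF.swap (N : NF π t α β) : NF (π.comp (sw t N.t0)) t β α where
  t0 := N.t0
  a := by simp [sw_up, N.b]
  b := by simp [sw_lo, N.t0, N.a]
  rg g := by rw [Set.pair_comm]; exact N.rg _
  ker g e := by
    have h0 := N.t0
    rcases N.ker _ e with h | h <;> [left; right] <;>
    · have h1 := congr($h 0 0)
      have h2 := congr($h 0 1)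
      have h3 := congr($h 1 0)
      have h4 := congr($h 1 1)
      simp [sw_coe, h0] at h1 h2 h3 h4
      apply sl2_ext <;> simp [*]

theorem NF.eq (N : NF π t α β) {g h : SL(2, K)} (e : π g = π h) : g = h ∨ g = -h := by
  rcases N.ker (g * h⁻¹) (by simp [e]) with k | k
  · exact .inl (mul_inv_eq_one.1 k)
  · exact .inr (by rw [mul_inv_eq_iff_eq_mul.1 k]; simp)

theorem NF.comm_up (N : NF π t α β) (h2 : (2 : K) ≠ 0) (hs : s ≠ 0) (h : Commute (π g) (π (upT s))) :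
    g 1 0 = 0 ∧ g 0 0 = g 1 1 := by
  have d := sl2_det g
  rcases N.eq (g := g * upT s) (h := upT s * g) (by simpa using h.eq) with k | k <;>
    have h1 := congr($k 0 0) <;> have h2 := congr($k 0 1) <;> have h3 := congr($k 1 0) <;>
    simp [sl2_mul_apply, upT_coe, hs, Matrix.vecMul, dotProduct, Fin.sum_univ_two] at h1 h2 h3
  · exact ⟨h1, mul_left_cancel₀ hs (by linear_combination h2)⟩
  · have h4 : g 1 0 = 0 := mul_left_cancel₀ ‹(2 : K) ≠ 0› (by linear_combination h3)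
    have h5 : g 0 0 = 0 := mul_left_cancel₀ ‹(2 : K) ≠ 0› (by rw [h4] at h1; linear_combination h1)
    simp [h4, h5] at d

theorem NF.comm_lo (N : NF π t α β) (h2 : (2 : K) ≠ 0) (hs : s ≠ 0) (h : Commute (π g) (π (loT s))) :
    g 0 1 = 0 ∧ g 0 0 = g 1 1 := by
  have d := sl2_det g
  rcases N.eq (g := g * loT s) (h := loT s * g) (by simpa using h.eq) with k | k <;>
    have h1 := congr($k 1 1) <;> have h2 := congr($k 1 0) <;> have h3 := congr($k 0 1) <;>
    simp [sl2_mul_apply, loT_coe, hs, Matrix.vecMul, dotProduct, Fin.sum_univ_two] at h1 h2 h3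
  · exact ⟨h1, mul_left_cancel₀ hs (by linear_combination -h2)⟩
  · have h4 : g 0 1 = 0 := mul_left_cancel₀ ‹(2 : K) ≠ 0› (by linear_combination h3)
    have h5 : g 1 1 = 0 := mul_left_cancel₀ ‹(2 : K) ≠ 0› (by rw [h4] at h1; linear_combination h1)
    simp [h4, h5] at d

theorem NF.mem (N : NF π t α β) {x : G} (h : x ∈ Subgroup.closure {α, β}) : ∃ g, π g = x :=
  (Subgroup.closure_le π.range).2 (by rintro _ (rfl | rfl); exacts [⟨_, N.a⟩, ⟨_, N.b⟩]) h

theorem NF.comm (N : NF π t α β) {x : G} (h1 : Commute x α) (h2 : Commute x β) (g : SL(2, K)) : Commute x (π g) := by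
  refine Subgroup.closure_induction (p := fun y _ => Commute x y) ?_ (Commute.one_right x)
    (fun _ _ _ _ => Commute.mul_right) (fun _ _ => Commute.inv_right) (N.rg g)
  rintro _ (rfl | rfl) <;> assumption

theorem NF.central (N : NF π t α β) (h2 : (2 : K) ≠ 0) (h1 : Commute (π g) α) (h3 : Commute (π g) β) :
    g = 1 ∨ g = -1 := by
  obtain ⟨k1, k2⟩ := N.comm_up h2 one_ne_zero (N.a ▸ h1)
  obtain ⟨k3, -⟩ := N.comm_lo h2 N.t0 (N.b ▸ h3)
  have d := sl2_det g
  rw [k1, ← k2, mul_zero, sub_zero, mul_self_eq_one_iff] at d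
  rcases d with d | d <;> [left; right] <;> apply sl2_ext <;> simp [← k2, k1, k3, d]

theorem NF.lo_norm (N : NF π t α β) (h2 : (2 : K) ≠ 0) (h : Commute (π g * β * (π g)⁻¹) β) : g 0 1 = 0 := by
  have := (N.comm_lo (g := g * loT t * g⁻¹) h2 N.t0 (by simpa [N.b] using h)).1
  simp [sl2_mul_apply, loT_coe, inv_coe, -Matrix.SpecialLinearGroup.coe_inv] at this
  have k : t * g 0 1 ^ 2 = 0 := by linear_combination -this
  simpa [N.t0] using k

theorem NF.t_eq (N : NF π t α β) (h2 : (2 : K) ≠ 0)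
    (h : Commute (β * α * β * (α * β * α)⁻¹ * β * (β * α * β * (α * β * α)⁻¹)⁻¹) β) : t = -1 := by
  have := N.lo_norm (g := loT t * upT 1 * loT t * (upT 1 * loT t * upT 1)⁻¹) h2 (by simpa only [map_mul, map_inv, N.a, N.b])
  simp only [mul_inv_rev, ← upT_neg, ← loT_neg] at this
  simp [sl2_mul_apply, upT_coe, loT_coe] at this
  have k : (t + 1) ^ 2 = 0 := by linear_combination -this
  exact eq_neg_of_add_eq_zero_left (pow_eq_zero_iff two_ne_zero |>.1 k)

theorem NF.br_t (N : NF π t α β) (h2 : (2 : K) ≠ 0) (h : Br α β) : t = -1 :=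
  N.t_eq h2 (by rw [h]; simp)

theorem NF.br (N : NF π (-1) α β) : Br α β := N.a ▸ N.b ▸ (br_up_lo (by simp)).map π

end SL

theorem eq_one_of_pow {p n : ℕ} (hp : p.Prime) {x : G} (h1 : x ^ p = 1) (hn : ¬ p ∣ n) (h2 : x ^ n = 1) : x = 1 := by
  have := pow_gcd_eq_one.2 ⟨h1, h2⟩
  rwa [(hp.coprime_iff_not_dvd.2 hn).gcd_eq_one, pow_one] at this

theorem sq_half {p : ℕ} (o : Odd p) {x : G} (h : x ^ p = 1) : (x ^ 2) ^ ((p + 1) / 2) = x := by
  obtain ⟨k, rfl⟩ := o
  rw [← pow_mul, show 2 * ((2 * k + 1 + 1) / 2) = 2 * k + 1 + 1 by omega, pow_succ, h, one_mul]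

namespace PG

variable [MulAction G P] {p : ℕ} {c : P → P → Prop} {W : P → Set G} (h : PG p c W) {a b d e x y x' y' : P}
  {α β γ δ η g : G}
include h

theorem odd : Odd p := h.prime.odd_of_ne_two (by have := h.five; omega)

theorem nd {n : ℕ} (h0 : 0 < n) (h4 : n ≤ 4) : ¬ p ∣ n := fun e => by
  have := Nat.le_of_dvd h0 e
  have := h.five
  omega

theorem cast_ne {K : Type*} [Field K] [CharP K p] {n : ℕ} (hn : ¬ p ∣ n) : (n : K) ≠ 0 :=
  fun e => hn ((CharP.cast_eq_zero_iff K p n).1 e)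

theorem two_ne (K : Type*) [Field K] [CharP K p] : (2 : K) ≠ 0 := by
  exact_mod_cast h.cast_ne (K := K) (h.nd two_pos (by omega))

theorem three_ne (K : Type*) [Field K] [CharP K p] : (3 : K) ≠ 0 := by
  exact_mod_cast h.cast_ne (K := K) (h.nd three_pos (by omega))

theorem pp (ha : α ∈ W x) : α ^ p = 1 := h.ord ha ▸ pow_orderOf_eq_one α

theorem ne_one (ha : α ∈ W x) : α ≠ 1 := fun e => by
  have := h.ord ha
  rw [e, orderOf_one] at this
  exact h.prime.one_lt.ne this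

theorem inv (ha : α ∈ W x) : α⁻¹ ∈ W x := by
  have h1 := h.prime.two_le
  have : α⁻¹ = α ^ (p - 1) := by
    rw [inv_eq_iff_mul_eq_one, ← pow_succ', Nat.sub_add_cancel (by omega), h.pp ha]
  exact this ▸ h.pow ha (Nat.not_dvd_of_pos_of_lt (by omega) (by omega))

theorem refl (x : P) : c x x := let ⟨_, ha⟩ := h.ne x; (h.cm ha ha).2 (.refl _)

theorem symm (e : c x y) : c y x :=
  let ⟨_, ha⟩ := h.ne x; let ⟨_, hb⟩ := h.ne y; (h.cm hb ha).2 ((h.cm ha hb).1 e).symm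

theorem nsymm (e : ¬ c x y) : ¬ c y x := fun k => e (h.symm k)

theorem com (ha : α ∈ W x) (hb : β ∈ W y) (e : c x y) : Commute α β := (h.cm ha hb).1 e

theorem uniq (ha : α ∈ W x) (hb : α ∈ W y) : x = y :=
  h.ext fun z => let ⟨_, hc⟩ := h.ne z; (h.cm ha hc).trans (h.cm hb hc).symm

theorem aut (g : G) (x y : P) : c (g • x) (g • y) ↔ c x y := by
  obtain ⟨α, ha⟩ := h.ne x
  obtain ⟨β, hb⟩ := h.ne y
  rw [h.cm (h.conj ha g) (h.conj hb g), h.cm ha hb, Commute.conj_iff]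

theorem aut' (g : G) (x y : P) : c (g • x) y ↔ c x (g⁻¹ • y) := by rw [← h.aut g x, smul_inv_smul]

theorem smul_eq (ha : α ∈ W x) (hb : β ∈ W y) (e : g * α * g⁻¹ = β) : g • x = y := h.uniq (e ▸ h.conj ha g) hb

theorem fix (ha : α ∈ W x) (e : Commute g α) : g • x = x := h.smul_eq ha ha (by rw [e.eq]; group)

theorem fixc (ha : α ∈ W x) (e : c x y) : α • y = y := let ⟨_, hb⟩ := h.ne y; h.fix hb (h.com ha hb e)

theorem conj' (ha : α ∈ W x) (e : g • x = x) : g * α * g⁻¹ ∈ W x := e ▸ h.conj ha g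

theorem ln_smul (g : G) (e : Ln c a b x) : Ln c (g • a) (g • b) (g • x) := fun y h1 h2 =>
  (h.aut' g x y).2 (e _ ((h.aut' g a y).1 h1) ((h.aut' g b y).1 h2))

theorem br_smul (ha : α ∈ W x) (hb : β ∈ W y) (e : Br α β) : (α * β) • x = y := h.smul_eq ha hb e.conj

/-- a central factor of a transvection is trivial -/
theorem g5 (hc : γ ∈ W x) (hb : β ∈ W y) (n : ¬ c x y) (h1 : Commute δ γ) (h2 : Commute δ β) (hd : γ * δ ∈ W x') :
    δ = 1 := by
  have n' : ¬ c x' y := fun e => n ((h.cm hc hb).2 (by simpa using (h.com hd hb e).mul_left h2.inv_left))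
  obtain ⟨K, _, _, _, π, t, N⟩ := h.nf hc hb n
  obtain ⟨K', _, _, _, π', t', N'⟩ := h.nf hd hb n'
  have k : ∀ g, ∃ l, ∃ i : ℤ, π' g = π l * δ ^ i := fun g => by
    refine Subgroup.closure_induction (p := fun y _ => ∃ l, ∃ i : ℤ, y = π l * δ ^ i) ?_ ⟨1, 0, by simp⟩ ?_ ?_ (N'.rg g)
    · rintro _ (rfl | rfl)
      exacts [⟨upT 1, 1, by simp [N.a]⟩, ⟨loT t, 0, by simp [N.b]⟩]
    · rintro _ _ _ _ ⟨l, i, rfl⟩ ⟨l', j, rfl⟩
      exact ⟨l * l', i + j, by
        rw [map_mul, zpow_add, mul_assoc, ← mul_assoc (δ ^ i), ((N.comm h1 h2 l').zpow_left i).eq]; group⟩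
    · rintro _ _ ⟨l, i, rfl⟩
      exact ⟨l⁻¹, -i, by rw [mul_inv_rev, ← zpow_neg, ← map_inv, ((N.comm h1 h2 _).zpow_left _).eq]⟩
  have h3 := h.three_ne K'
  obtain ⟨l, i, e1⟩ := k (dg 2 (h.two_ne K'))
  obtain ⟨l', j, e2⟩ := k (upT 3⁻¹)
  have e3 : γ * δ = π (l * l' * l⁻¹ * l'⁻¹) := by
    have e4 : (upT 1 : SL(2, K')) = dg 2 (h.two_ne K') * upT 3⁻¹ * (dg 2 (h.two_ne K'))⁻¹ * (upT 3⁻¹)⁻¹ := by
      rw [dg_up, ← upT_neg, ← upT_add]; congr 1; field_simp; norm_num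
    have c1 := (N.comm h1 h2 l').zpow_left i
    have c2 := ((N.comm h1 h2 l).zpow_left j).inv_right
    rw [← N'.a, e4]
    simp only [map_mul, map_inv, e1, e2]
    calc _ = π l * (δ ^ i * π l') * (δ ^ i)⁻¹ * (δ ^ j * (π l)⁻¹) * (δ ^ j)⁻¹ * (π l')⁻¹ := by group
      _ = _ := by rw [c1.eq, c2.eq]; group
  have e5 : δ = π ((upT 1)⁻¹ * (l * l' * l⁻¹ * l'⁻¹)) := by rw [map_mul, ← e3, map_inv, N.a]; group
  refine eq_one_of_pow h.prime ?_ (h.nd two_pos (by omega)) ?_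
  · have := h.pp hd
    rwa [h1.symm.mul_pow, h.pp hc, one_mul] at this
  · rcases N.central (h.two_ne K) (e5 ▸ h1) (e5 ▸ h2) with e | e <;> rw [e5, e, ← map_pow] <;> simp

variable [Finite P]

theorem ext' (e : ∀ y, c a y → c b y) : a = b := by
  obtain ⟨g, rfl⟩ := h.tr a b
  have k : {y | c a y} = {y | c (g • a) y} := Set.eq_of_subset_of_ncard_le e (by
    refine (Set.ncard_le_ncard_of_injOn (fun y => g⁻¹ • y) (fun y hy => (h.aut' g a y).1 hy)
      (MulAction.injective g⁻¹).injOn))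
  exact h.ext fun y => Set.ext_iff.1 k y

theorem sep (n : a ≠ b) : ∃ y, c a y ∧ ¬ c b y := by
  by_contra k
  push Not at k
  exact n (h.ext' k)

theorem eq_of_mul (ha : α ∈ W x) (hb : β ∈ W y) (e : Commute α β) (hc : α * β ∈ W x') : x = y := by
  by_contra n
  obtain ⟨z, h1, h2⟩ := h.sep n
  obtain ⟨η, he⟩ := h.ne z
  exact h.ne_one ha (h.g5 hb he h2 e (h.com ha he h1) (e.eq ▸ hc))

/-- the unipotent subgroup centralises everything commuting with `α` -/
theorem kl {K : Type} [Field K] [Fintype K] [CharP K p] {π : SL(2, K) →* G} {t : K} (N : NF π t α β) (ha : α ∈ W x)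
    (s : K) (he : η ∈ W y) (e : c x y) : Commute (π (upT s)) η := by
  classical
  have h2 := h.two_ne K
  have h3 := h.three_ne K
  let U : AddSubgroup K :=
    { carrier := {w | ∀ y η, η ∈ W y → c x y → Commute (π (upT w)) η}
      zero_mem' := fun _ _ _ _ => by simp [upT_zero]
      add_mem' := fun hu hv y η h1 h2 => by rw [upT_add, map_mul]; exact (hu y η h1 h2).mul_left (hv y η h1 h2)
      neg_mem' := fun hu y η h1 h2 => by rw [upT_neg, map_inv]; exact (hu y η h1 h2).inv_left }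
  have cu : ∀ s s' : K, Commute (π (upT s)) (π (upT s')) := fun s s' => by
    rw [Commute, SemiconjBy, ← map_mul, ← map_mul, ← upT_add, ← upT_add, add_comm]
  have cj : ∀ (r : K) (hr : r ≠ 0) s, π (dg r hr) * π (upT s) * (π (dg r hr))⁻¹ = π (upT (r ^ 2 * s)) :=
    fun r hr s => by rw [← map_inv, ← map_mul, ← map_mul, dg_up]
  have h1 : π (upT 1) ∈ W x := N.a ▸ ha
  have hU : ∀ {s}, π (upT s) ∈ W x → s ∈ U := fun hs y η h1 h2 => h.com hs h1 h2
  have sqm : ∀ {s y} (r : K) (hr : r ≠ 0), π (upT s) ∈ W y → π (upT (r ^ 2 * s)) ∈ W (π (dg r hr) • y) :=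
    fun r hr hs => cj r hr _ ▸ h.conj hs _
  have nat : ∀ {n : ℕ}, ¬ p ∣ n → π (upT n) ∈ W x := fun hn => by
    simpa [← map_pow, upT_pow] using h.pow h1 hn
  have ad : ∀ {s s' y y' y''}, π (upT s) ∈ W y → π (upT s') ∈ W y' → π (upT (s + s')) ∈ W y'' → y = y' :=
    fun h1 h2 h3 => h.eq_of_mul h1 h2 (cu _ _) (by rwa [← map_mul, ← upT_add])
  suffices ∀ r : K, r ^ 2 ∈ U by
    have := U.sub_mem (this ((s + 1) / 2)) (this ((s - 1) / 2))
    rw [show ((s + 1) / 2) ^ 2 - ((s - 1) / 2) ^ 2 = s by field_simp; ring] at this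
    exact this y η he e
  have h4 : π (upT 4) ∈ W x := by exact_mod_cast nat (h.nd (n := 4) (by omega) le_rfl)
  have h2' : π (upT 2) ∈ W x := by exact_mod_cast nat (h.nd (n := 2) (by omega) (by omega))
  -- multiplication by a square in the class of one preserves `U`
  have st : ∀ r : K, π (upT (r ^ 2)) ∈ W x → ∀ w ∈ U, r ^ 2 * w ∈ U := fun r hr w hw y η h5 h6 => by
    have r0 : r ≠ 0 := by rintro rfl; exact h.ne_one hr (by simp [upT_zero])
    have fx : π (dg r r0) • x = x := h.uniq (sqm r r0 h1) (by simpa using hr)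
    have := hw _ _ (h.conj h5 (π (dg r r0))⁻¹) (by rwa [← h.aut', fx])
    rw [← cj r r0]
    simpa [mul_assoc] using this.conj (π (dg r r0))
  have tr : ∀ r : K, r ≠ 0 → ∀ w ∈ U, (r ^ 2 + (r ^ 2)⁻¹) * w ∈ U := fun r hr w hw => by
    have k : (r - r⁻¹) ^ 2 * w ∈ U := by
      by_cases e1 : r - r⁻¹ = 0
      · simp [e1]
      by_cases e2 : r + r⁻¹ = 0
      · rw [show (r - r⁻¹) ^ 2 * w = (r + r⁻¹) ^ 2 * w - 4 • w by field_simp; ring, e2]
        simpa using U.nsmul_mem hw 4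
      have k1 := sqm _ e1 h1
      have k2 := sqm _ e2 h1
      rw [show (r + r⁻¹) ^ 2 * 1 = (r - r⁻¹) ^ 2 * 1 + 4 by field_simp; ring] at k2
      exact st _ (by simpa [ad k1 h4 k2] using k1) w hw
    rw [show (r ^ 2 + (r ^ 2)⁻¹) * w = (r - r⁻¹) ^ 2 * w + 2 • w by field_simp; ring]
    exact U.add_mem k (U.nsmul_mem hw 2)
  intro r
  by_cases r0 : r = 0
  · simp [r0]
  by_cases hq : IsSquare (2 : K)
  · obtain ⟨q, hq⟩ := hq
    have q0 : q ≠ 0 := by rintro rfl; exact h2 (by simpa using hq)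
    have k1 := tr (q * r⁻¹) (by simp [q0, r0]) 1 (hU h1)
    have k2 := U.nsmul_mem (tr r r0 1 (hU h1)) 2
    have k3 := U.nsmul_mem (U.sub_mem k2 k1) 2
    rw [show 2 • (2 • ((r ^ 2 + (r ^ 2)⁻¹) * 1) - ((q * r⁻¹) ^ 2 + ((q * r⁻¹) ^ 2)⁻¹) * 1) = (3 : ℕ) * r ^ 2 by
      rw [mul_pow, sq q, ← hq]; simp only [nsmul_eq_mul]; push_cast; field_simp; ring] at k3
    obtain ⟨m, hm⟩ : ∃ m : ℕ, (m : K) * (3 : ℕ) = 1 := by
      obtain ⟨m, -, hm⟩ := Nat.exists_mul_mod_eq_one_of_coprime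
        ((h.prime.coprime_iff_not_dvd.2 (h.nd three_pos (by omega))).symm) h.prime.one_lt
      exact ⟨m, by rw [← Nat.cast_mul, mul_comm, CharP.cast_eq_mod K p, hm, Nat.cast_one]⟩
    simpa only [nsmul_eq_mul, ← mul_assoc, hm, one_mul] using U.nsmul_mem k3 m
  have all : ∀ s : K, s ≠ 0 → ∃ y, π (upT s) ∈ W y := fun s hs => by
    by_cases e : IsSquare s
    · obtain ⟨q, rfl⟩ := e
      exact ⟨_, by simpa [sq] using sqm q (fun e => hs (by simp [e])) h1⟩
    · obtain ⟨q, hq⟩ : IsSquare (s * 2) := by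
        have c2 : ringChar K ≠ 2 := by rw [ringChar.eq K p]; have := h.five; omega
        rw [← quadraticChar_one_iff_isSquare (mul_ne_zero hs h2), map_mul, quadraticChar_neg_one_iff_not_isSquare.2 e,
          quadraticChar_neg_one_iff_not_isSquare.2 hq]; simp
      have q0 : q / 2 ≠ 0 := div_ne_zero (fun e => mul_ne_zero hs h2 (by simpa [e] using hq)) h2
      exact ⟨_, by have := sqm _ q0 h2'; rwa [show (q / 2) ^ 2 * 2 = s by field_simp; linear_combination -hq] at this⟩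
  by_cases e1 : r ^ 2 + 1 = 0
  · rw [eq_neg_of_add_eq_zero_left e1]; exact U.neg_mem (hU h1)
  obtain ⟨y1, k1⟩ := all _ (pow_ne_zero 2 r0)
  obtain ⟨y2, k2⟩ := all _ e1
  exact hU (ad k1 h1 k2 ▸ k1)

theorem kl' {K : Type} [Field K] [Fintype K] [CharP K p] {π : SL(2, K) →* G} {t : K} (N : NF π t α β) (ha : α ∈ W x)
    {s : K} (hs : π (upT s) ∈ W y) : y = x :=
  (h.ext' fun z hz => let ⟨_, he⟩ := h.ne z; (h.cm hs he).2 (h.kl N ha s he hz)).symm

theorem up_mem {K : Type} [Field K] [Fintype K] [CharP K p] {π : SL(2, K) →* G} {t : K} (N : NF π t α β)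
    (ha : α ∈ W x) (hb : β ∈ W y) : π (upT (-t⁻¹)) ∈ W x := by
  have t0 := N.t0
  have k := h.conj hb (π (wT t⁻¹))
  rw [← N.b, ← map_inv, ← map_mul, ← map_mul, wT_mul_loT (inv_ne_zero t0), mul_inv_cancel_right,
    show -t⁻¹ ^ 2 * t = -t⁻¹ by field_simp] at k
  exact h.kl' N ha k ▸ k

theorem lo_mem {K : Type} [Field K] [Fintype K] [CharP K p] {π : SL(2, K) →* G} {t : K} (N : NF π t α β)
    (ha : α ∈ W x) (hb : β ∈ W y) : π (loT (-1)) ∈ W y := by
  simpa [sw_up, N.t0] using h.up_mem N.swap hb ha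

/-- braid partners -/
theorem partner (hb : β ∈ W y) (n : ¬ c x y) : ∃ α ∈ W x, Br α β := by
  obtain ⟨α, ha⟩ := h.ne x
  obtain ⟨K, _, _, _, π, t, N⟩ := h.nf ha hb n
  exact ⟨_, h.up_mem N ha hb, N.b ▸ (br_up_lo (by simp [N.t0])).map π⟩

omit [Finite P] in
theorem br_rel (ha : α ∈ W x) (hb : β ∈ W y) (n : ¬ c x y) (e : Br α β) :
    (α ^ 2)⁻¹ * β * α ^ 2 = β ^ ((p + 1) / 2) * α ^ 4 * (β ^ ((p + 1) / 2))⁻¹ := by
  obtain ⟨K, _, _, _, π, t, N⟩ := h.nf ha hb n
  have h2 := h.two_ne K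
  obtain rfl := N.br_t h2 e
  have k : (((p + 1) / 2 : ℕ) : K) = 2⁻¹ := by
    obtain ⟨k, hk⟩ := h.odd
    have : (2 * k + 1 : K) = 0 := by exact_mod_cast hk ▸ CharP.cast_eq_zero K p
    rw [show (p + 1) / 2 = k + 1 by omega]; push_cast; field_simp; linear_combination this
  rw [← N.a, ← N.b]
  simp only [← map_pow, ← map_inv, ← map_mul, upT_pow, loT_pow, k, ← upT_neg, ← loT_neg]
  congr 1
  apply sl2_ext <;> simp [sl2_mul_apply, upT_coe, loT_coe] <;> field_simp <;> norm_num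

omit [Finite P] in
theorem z_sq (ha : α ∈ W x) (hb : β ∈ W y) (n : ¬ c x y) (e : Br α β) : ((α * β * α) ^ 2) ^ 2 = 1 := by
  obtain ⟨K, _, _, _, π, t, N⟩ := h.nf ha hb n
  obtain rfl := N.br_t (h.two_ne K) e
  rw [← N.a, ← N.b]
  simp only [← map_pow, ← map_mul]
  rw [w_sq (by simp)]; simp

end PG

end CF.Tv
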