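import Cfsg.Agent.Tv.B

/-! `p`-transvections: triangles and the polar space. -/

set_option autoImplicit false

namespace CF.Tv

open CF.Fisch
open scoped MatrixGroups commutatorElement

variable {G : Type*} [Group G] {P : Type*}

/-- the central element of a braid pair -/
def zz (α β : G) : G := (α * β * α) ^ 2

theorem Br.zz {α β : G} (h : Br α β) : zz β α = zz α β := by rw [Tv.zz, ← h, Tv.zz]

theorem Br.w_left {α β : G} (h : Br α β) : α * β * α * α * (α * β * α)⁻¹ = β := by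
  conv_rhs => rw [← h.conj]
  group

theorem Br.w_right {α β : G} (h : Br α β) : α * β * α * β * (α * β * α)⁻¹ = α := by
  rw [h]; exact h.symm.w_left

theorem Br.z_left {α β : G} (h : Br α β) : Commute (Tv.zz α β) α := by
  rw [Commute, SemiconjBy, ← mul_inv_eq_iff_eq_mul]
  calc _ = α * β * α * (α * β * α * α * (α * β * α)⁻¹) * (α * β * α)⁻¹ := by rw [Tv.zz, sq]; group
    _ = α := by rw [h.w_left, h.w_right]

theorem Br.z_right {α β : G} (h : Br α β) : Commute (Tv.zz α β) β := h.zz ▸ h.symm.z_left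

theorem comm_zz {α β g : G} (h1 : Commute g α) (h2 : Commute g β) : Commute g (zz α β) :=
  ((h1.mul_right h2).mul_right h1).pow_right 2

theorem zz_conj (α β g : G) : zz (g * α * g⁻¹) (g * β * g⁻¹) = g * zz α β * g⁻¹ := by
  simp only [zz, sq]; group

/-- the Heisenberg group attached to two commuting elements braiding with a third -/
structure Tri (α β u s ρ : G) : Prop where
  br : Br α β
  ua : Commute u α
  sb : Commute s β
  ra : Commute ρ α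
  rb : Commute ρ β
  ru : Commute ρ u
  rs : Commute ρ s
  su : s * u = u * s * ρ ^ 2
  sa : s * α * s⁻¹ = u * ρ * α
  ub : u⁻¹ * β * u = s * ρ * β

theorem tri_comm {α β γ : G} {j : ℕ} (c : Commute α γ) (h1 : Br α β) (h2 : Br γ β)
    (r1 : (α ^ 2)⁻¹ * β * α ^ 2 = β ^ j * α ^ 4 * (β ^ j)⁻¹) (r2 : (γ ^ 2)⁻¹ * β * γ ^ 2 = β ^ j * γ ^ 4 * (β ^ j)⁻¹) :
    (γ * α⁻¹)⁻¹ * β * (γ * α⁻¹) = α * β * γ * (α * β)⁻¹ ∧ Commute β ((γ * α⁻¹)⁻¹ * β * (γ * α⁻¹)) ∧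
      Commute β (((γ * α⁻¹) ^ 2)⁻¹ * β * (γ * α⁻¹) ^ 2) := by
  have e1 : (γ * α⁻¹)⁻¹ * β * (γ * α⁻¹) = α * β * γ * (α * β)⁻¹ := by
    calc _ = α * γ⁻¹ * (β * γ * β) * β⁻¹ * α⁻¹ * (α * β * (β⁻¹ * α⁻¹)) := by group
      _ = _ := by rw [← h2]; group
  refine ⟨e1, ?_, ?_⟩
  · rw [e1]
    nth_rw 1 [← h1.conj]
    exact c.conj _
  · have e2 : ((γ * α⁻¹) ^ 2)⁻¹ * β * (γ * α⁻¹) ^ 2 = (α ^ 2 * β ^ j) * γ ^ 4 * (α ^ 2 * β ^ j)⁻¹ := by
      rw [c.symm.inv_right.mul_pow]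
      calc _ = α ^ 2 * ((γ ^ 2)⁻¹ * β * γ ^ 2) * (α ^ 2)⁻¹ := by group
        _ = _ := by rw [r2]; group
    have e3 : β = (α ^ 2 * β ^ j) * α ^ 4 * (α ^ 2 * β ^ j)⁻¹ := by
      calc _ = α ^ 2 * ((α ^ 2)⁻¹ * β * α ^ 2) * (α ^ 2)⁻¹ := by group
        _ = _ := by rw [r1]; group
    rw [e2]
    nth_rw 1 [e3]
    exact (c.pow_pow 4 4).conj _

namespace Tri

variable {α β u s ρ : G} (T : Tri α β u s ρ)
include T

theorem sus : s * u * s⁻¹ = u * ρ ^ 2 := by rw [T.su, mul_assoc, mul_assoc, (T.rs.pow_left 2).inv_right.eq]; group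

theorem sus' : s⁻¹ * u * s = u * (ρ ^ 2)⁻¹ := by
  calc _ = s⁻¹ * (u * s * ρ ^ 2) * (ρ ^ 2)⁻¹ := by group
    _ = _ := by rw [← T.su]; group

theorem symm : Tri β α s u⁻¹ ρ where
  br := T.br.symm
  ua := T.sb
  sb := T.ua.inv_left
  ra := T.rb
  rb := T.ra
  ru := T.rs
  rs := T.ru.inv_right
  su := by
    calc _ = s * (s⁻¹ * u * s)⁻¹ := by group
      _ = _ := by rw [T.sus', mul_inv_rev, inv_inv, (T.ru.pow_left 2).inv_right.eq, mul_assoc]
  sa := by rw [inv_inv, T.ub]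
  ub := by
    calc _ = (s⁻¹ * (ρ * s))⁻¹ * (s⁻¹ * u * s)⁻¹ * (s⁻¹ * (u * ρ * α) * s) := by group
      _ = ρ * u⁻¹ * α := by rw [← T.sa, T.sus', T.rs.eq]; group
      _ = _ := by rw [T.ru.inv_right.eq]

theorem cpow (i : ℕ) : s ^ i * α * (s ^ i)⁻¹ = u ^ i * ρ ^ (i ^ 2) * α := by
  induction i with
  | zero => simp
  | succ i ih =>
    calc _ = s * (s ^ i * α * (s ^ i)⁻¹) * s⁻¹ := by rw [pow_succ']; group
      _ = (s * u * s⁻¹) ^ i * (s * ρ ^ (i ^ 2) * s⁻¹) * (s * α * s⁻¹) := by rw [ih, conj_pow]; group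
      _ = _ := by
        rw [T.sus, T.sa, ← (T.rs.pow_left _).eq, mul_inv_cancel_right, (T.ru.symm.pow_right 2).mul_pow]
        calc _ = u ^ i * ((ρ ^ 2) ^ i * ρ ^ i ^ 2 * u) * ρ * α := by group
          _ = _ := by rw [(((T.ru.pow_left 2).pow_left i).mul_left (T.ru.pow_left _)).eq]; group

theorem w_u : α * β * α * u * (α * β * α)⁻¹ = s := by
  have e1 : β * u * β⁻¹ = u * s * ρ := by
    calc _ = u * (u⁻¹ * β * u) * β⁻¹ := by group
      _ = _ := by rw [T.ub]; group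
  have e2 : α * s * α⁻¹ = ρ⁻¹ * u⁻¹ * s := by
    calc _ = α * (s * α * s⁻¹)⁻¹ * s := by group
      _ = _ := by rw [T.sa]; group
  calc _ = α * (β * (α * u * α⁻¹) * β⁻¹) * α⁻¹ := by group
    _ = α * (u * s * ρ) * α⁻¹ := by rw [← T.ua.eq, mul_inv_cancel_right, e1]
    _ = (α * u * α⁻¹) * (α * s * α⁻¹) * (α * ρ * α⁻¹) := by group
    _ = u * (ρ⁻¹ * u⁻¹) * (s * ρ) := by rw [← T.ua.eq, ← T.ra.eq, e2]; group
    _ = _ := by rw [T.ru.inv_inv.eq, ← T.rs.eq]; group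

theorem z_u : zz α β * u * (zz α β)⁻¹ = u⁻¹ := by
  have := T.symm.w_u
  rw [← T.br] at this
  calc _ = α * β * α * (α * β * α * u * (α * β * α)⁻¹) * (α * β * α)⁻¹ := by rw [zz, sq]; group
    _ = _ := by rw [T.w_u, this]

theorem z_s : zz α β * s * (zz α β)⁻¹ = s⁻¹ := T.br.zz ▸ T.symm.z_u

theorem z_r : Commute ρ (zz α β) := comm_zz T.ra T.rb

theorem z_g : zz α β * (u * ρ * α) * (zz α β)⁻¹ = u⁻¹ * ρ * α := by
  calc _ = (zz α β * u * (zz α β)⁻¹) * (zz α β * ρ * (zz α β)⁻¹) * (zz α β * α * (zz α β)⁻¹) := by group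
    _ = _ := by rw [T.z_u, ← T.z_r.eq, T.br.z_left.eq]; group

end Tri

namespace PG

variable [MulAction G P] {p : ℕ} {c : P → P → Prop} {W : P → Set G} (h : PG p c W) {a b d e x y x' y' : P}
  {α β γ δ η g u s ρ : G}
include h

theorem br_ne (ha : α ∈ W x) (hb : β ∈ W y) (n : ¬ c x y) (e : Br α β) (k : Commute (α * β * α⁻¹) β) : False := by
  refine n ((h.cm ha hb).2 ?_)
  have : α * β * α⁻¹ = β⁻¹ * α * β⁻¹⁻¹ := by
    calc _ = β⁻¹ * (β * α * β) * α⁻¹ := by group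
      _ = _ := by rw [← e]; group
  convert (this ▸ k).conj β using 1 <;> group

/-- existence of the triangle -/
theorem tri (ha : α ∈ W x) (hc : γ ∈ W x') (hb : β ∈ W y) (e : c x x') (n : ¬ c x y) (n' : ¬ c x' y) (h1 : Br α β)
    (h2 : Br γ β) : ∃ u s ρ, Tri α β u s ρ ∧ γ = u * ρ * α ∧ u ^ p = 1 ∧ s ^ p = 1 ∧ ρ ^ p = 1 ∧
      ∀ g, Commute g α → Commute g β → Commute g γ → Commute g ρ := by
  have cm := h.com ha hc e
  obtain ⟨k1, k2, k3⟩ := tri_comm cm h1 h2 (h.br_rel ha hb n h1) (h.br_rel hc hb n' h2)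
  have r3 := h.br_rel hb ha (h.nsymm n) h1.symm
  obtain ⟨u, hu⟩ : ∃ u, u = γ * α⁻¹ := ⟨_, rfl⟩
  rw [← hu] at k1 k2 k3
  have ua : Commute u α := hu ▸ cm.symm.mul_left (Commute.refl α).inv_left
  have ug : Commute u γ := hu ▸ (Commute.refl γ).mul_left cm.inv_left
  obtain ⟨β₁, hb1⟩ : ∃ β₁, β₁ = u⁻¹ * β * u := ⟨_, rfl⟩
  have cα : u⁻¹ * α * u = α := by rw [ua.inv_left.eq]; group
  have h3 : Br β₁ α := by simpa only [inv_inv, cα, ← hb1] using h1.symm.cj u⁻¹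
  have r4 : (β₁ ^ 2)⁻¹ * α * β₁ ^ 2 = α ^ ((p + 1) / 2) * β₁ ^ 4 * (α ^ ((p + 1) / 2))⁻¹ := by
    have := congr((MulAut.conj u).symm $r3)
    simpa only [map_mul, map_inv, map_pow, MulAut.conj_symm_apply, cα, ← hb1] using this
  rw [← hb1] at k1 k2
  obtain ⟨-, k5, k6⟩ := tri_comm k2 h1.symm h3 r3 r4
  obtain ⟨s, hs⟩ : ∃ s, s = β₁ * β⁻¹ := ⟨_, rfl⟩
  rw [← hs] at k5 k6
  have sb : Commute s β := hs ▸ k2.symm.mul_left (Commute.refl β).inv_left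
  have sb1 : Commute s β₁ := hs ▸ (Commute.refl β₁).mul_left k2.inv_left
  have sa : s * α * s⁻¹ = γ := by
    calc _ = β⁻¹ * α⁻¹ * (α * β₁ * α) * (β₁⁻¹ * β) := by rw [hs, k2.symm.inv_right.eq]; group
      _ = (α * β)⁻¹ * β₁ * (α * β) := by rw [← h3]; group
      _ = _ := by rw [k1]; group
  obtain ⟨ζ, hζ⟩ : ∃ ζ, ζ = u⁻¹ * s * u * s⁻¹ := ⟨_, rfl⟩
  have z1 : ζ = (u ^ 2)⁻¹ * β * u ^ 2 * β₁⁻¹ * s⁻¹ := by rw [hζ, hs, hb1, sq]; group
  have z2 : ζ = u⁻¹ * (s ^ 2 * α * (s ^ 2)⁻¹) * γ⁻¹ := by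
    rw [hζ, sq]; nth_rw 2 [hu]; rw [← sa]; group
  have k7 : Commute β₁ ((u ^ 2)⁻¹ * β * u ^ 2) := by convert k2.conj u⁻¹ using 1 <;> simp only [hb1, sq] <;> group
  have k8 : Commute α (s ^ 2 * α * (s ^ 2)⁻¹) := by convert (k6.conj (s ^ 2)).symm using 1; group
  have k9 : Commute γ (s ^ 2 * α * (s ^ 2)⁻¹) := by convert cm.conj s using 1 <;> simp only [← sa, sq] <;> group
  have zb : Commute ζ β := z1 ▸ (k3.symm.mul_left k2.symm.inv_left).mul_left sb.inv_left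
  have zb1 : Commute ζ β₁ := z1 ▸ (k7.symm.mul_left (Commute.refl _).inv_left).mul_left sb1.inv_left
  have za : Commute ζ α := z2 ▸ (ua.inv_left.mul_left k8.symm).mul_left cm.symm.inv_left
  have zg : Commute ζ γ := z2 ▸ (ug.inv_left.mul_left k9.symm).mul_left (Commute.refl _).inv_left
  have zu : Commute ζ u := hu ▸ zg.mul_right za.inv_right
  have zs : Commute ζ s := hs ▸ zb1.mul_right zb.inv_right
  have up : u ^ p = 1 := by rw [hu, cm.symm.inv_right.mul_pow, inv_pow, h.pp ha, h.pp hc]; simp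
  have sp : s ^ p = 1 := by
    rw [hs, k2.symm.inv_right.mul_pow, inv_pow, h.pp hb, hb1, ← inv_inv u, inv_inv u⁻¹, conj_pow, h.pp hb]; simp
  have zp : ζ ^ p = 1 := by
    have : s * u * s⁻¹ = u * ζ := by rw [hζ]; group
    have := congr($this ^ p)
    rwa [conj_pow, zu.symm.mul_pow, up, mul_one, mul_inv_cancel, one_mul, eq_comm] at this
  obtain ⟨ρ, hρ⟩ : ∃ ρ, ρ = ζ ^ ((p + 1) / 2) := ⟨_, rfl⟩
  have r2 : ρ ^ 2 = ζ := by rw [hρ, ← pow_mul, mul_comm, pow_mul, sq_half h.odd zp]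
  have rp : ρ ^ p = 1 := by rw [hρ, ← pow_mul, mul_comm, pow_mul, zp, one_pow]
  have ra : Commute ρ α := hρ ▸ za.pow_left _
  have rb : Commute ρ β := hρ ▸ zb.pow_left _
  have ru : Commute ρ u := hρ ▸ zu.pow_left _
  have rs : Commute ρ s := hρ ▸ zs.pow_left _
  refine ⟨u * ρ⁻¹, s * ρ⁻¹, ρ, ⟨h1, ua.mul_left ra.inv_left, sb.mul_left rb.inv_left, ra, rb,
    ru.mul_right (Commute.refl _).inv_right, rs.mul_right (Commute.refl _).inv_right, ?_, ?_, ?_⟩, by rw [hu]; group,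
    by rw [ru.symm.inv_right.mul_pow, up, inv_pow, rp]; simp, by rw [rs.symm.inv_right.mul_pow, sp, inv_pow, rp]; simp,
    rp, fun g g1 g2 g3 => ?_⟩
  · calc _ = s * (ρ⁻¹ * u) * ρ⁻¹ := by group
      _ = u * (u⁻¹ * s * u * s⁻¹) * s * ρ⁻¹ * ρ⁻¹ := by rw [ru.inv_left.eq]; group
      _ = u * (ρ⁻¹ * s) * ρ⁻¹ * ρ ^ 2 := by rw [← hζ, ← r2, mul_assoc u, (rs.pow_left 2).eq, rs.inv_left.eq]; group
      _ = _ := by group
  · calc _ = s * (ρ⁻¹ * α) * ρ * s⁻¹ := by group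
      _ = _ := by rw [ra.inv_left.eq, hu, ← sa]; group
  · calc _ = ρ * (u⁻¹ * β * u) * ρ⁻¹ := by group
      _ = _ := by rw [← hb1, (hρ ▸ zb1.pow_left _ : Commute ρ β₁).eq, hs]; group
  · have gu : Commute g u := hu ▸ g3.mul_right g1.inv_right
    have gs : Commute g s := hs ▸ hb1 ▸ ((gu.inv_right.mul_right g2).mul_right gu).mul_right g2.inv_right
    exact hρ ▸ hζ ▸ (((gu.inv_right.mul_right gs).mul_right gu).mul_right gs.inv_right).pow_right _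

theorem tri_cent (T : Tri α β u s ρ) (ha : α ∈ W x) (up : u ^ p = 1) (rp : ρ ^ p = 1) (n : u * ρ ≠ 1) (he : η ∈ W e)
    (h1 : Commute η α) (h2 : Commute η (u * ρ * α)) : Commute η u ∧ Commute η ρ := by
  have h3 : Commute η (u * ρ) := by simpa using h2.mul_right h1.inv_right
  have m1 : u⁻¹ * ρ * α ∈ W (s⁻¹ • x) := by have := h.conj ha s⁻¹; rwa [inv_inv, T.symm.ub] at this
  have m2 := h.conj ha (s ^ 2)
  have cu : Commute (u * ρ) u := (Commute.refl u).mul_left T.ru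
  have cr : Commute (u * ρ) ρ := T.ru.symm.mul_left (Commute.refl _)
  have h4 : Commute η (u⁻¹ * ρ * α) := by
    by_contra k
    refine n (eq_one_of_pow h.prime (by rw [T.ru.symm.mul_pow, up, rp, one_mul]) (h.nd three_pos (by omega)) ?_)
    refine h.g5 m1 he (fun c => k (h.com m1 he c).symm)
      (((cu.inv_right.mul_right cr).mul_right (T.ua.mul_left T.ra)).pow_left 3) (h3.symm.pow_left 3) (x' := s ^ 2 • x) ?_
    convert m2 using 1
    rw [T.cpow, mul_assoc, ← ((T.ua.mul_left T.ra).pow_left 3).eq, T.ru.symm.mul_pow]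
    calc _ = u⁻¹ * (ρ * u ^ 3) * ρ ^ 3 * α := by group
      _ = _ := by rw [(T.ru.pow_right 3).eq]; group
  have h5 : Commute η (u ^ 2) := by
    have := h3.mul_right (h4.mul_right h1.inv_right).inv_right
    simpa [sq, mul_assoc] using this
  have h6 : Commute η u := sq_half h.odd up ▸ h5.pow_right _
  exact ⟨h6, by simpa using h6.inv_right.mul_right h3⟩

theorem tri_mem (T : Tri α β u s ρ) (ha : α ∈ W x) (up : u ^ p = 1) (rp : ρ ^ p = 1) {n : ℕ} (hn : ¬ p ∣ n) :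
    ∃ y, u ^ n * ρ * α ^ (n ^ 2) ∈ W y := by
  obtain ⟨i, -, hi⟩ := Nat.exists_mul_mod_eq_one_of_coprime (h.prime.coprime_iff_not_dvd.2 hn).symm h.prime.one_lt
  have k := h.pow (h.conj ha (s ^ i)) (n := n ^ 2) fun e => hn (h.prime.dvd_of_dvd_pow e)
  have e : n * i ≡ 1 [MOD p] := by rw [Nat.ModEq, hi, Nat.mod_eq_of_lt h.prime.one_lt]
  rw [T.cpow, ((T.ua.pow_left _).mul_left (T.ra.pow_left _)).mul_pow, (T.ru.symm.pow_pow _ _).mul_pow, ← pow_mul, ← pow_mul,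
    pow_eq_pow_of_modEq (n := p) (b := n) (by simpa [sq, mul_comm, mul_assoc, mul_left_comm] using e.mul_left n) up,
    pow_eq_pow_of_modEq (n := p) (b := 1) (by simpa [mul_pow, mul_comm] using e.pow 2) rp, pow_one] at k
  exact ⟨_, k⟩

end PG

/-- a submonoid of a finite group -/
def sgFin [Finite G] (M : Submonoid G) : Subgroup G :=
  { M with
    inv_mem' := fun {g} hg => by
      have : g⁻¹ = g ^ (orderOf g - 1) := by
        rw [inv_eq_iff_mul_eq_one, ← pow_succ', Nat.sub_add_cancel (orderOf_pos g), pow_orderOf_eq_one]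
      exact this ▸ M.pow_mem hg _ }

/-- the stabiliser of all lines through `a` -/
def Ka (G : Type*) [Group G] [Finite G] [MulAction G P] (c : P → P → Prop) (a : P) : Subgroup G :=
  sgFin
    { carrier := {g | (∀ x y, c (g • x) (g • y) ↔ c x y) ∧ g • a = a ∧ ∀ y, c a y → Ln c a y (g • y)}
      one_mem' := ⟨by simp, one_smul _ _, fun y _ => by rw [one_smul]; exact .right⟩
      mul_mem' := fun {g h} hg hh => ⟨fun x y => by rw [mul_smul, mul_smul, hg.1, hh.1], by rw [mul_smul, hh.2.1, hg.2.1],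
        fun y hy => by
          rw [mul_smul]
          exact (hg.2.2 _ (by rwa [← hh.2.1, hh.1])).trans .left (hh.2.2 y hy)⟩ }

namespace PG

variable [Finite G] [Finite P] [MulAction G P] {p : ℕ} {c : P → P → Prop} {W : P → Set G} (h : PG p c W)
  {a b d e x y x' y' : P} {α β γ δ η g k n u s ρ : G}
include h

omit [Finite P] in
theorem mem_ka : g ∈ Ka G c a ↔ g • a = a ∧ ∀ y, c a y → Ln c a y (g • y) :=
  ⟨fun e => e.2, fun e => ⟨h.aut g, e⟩⟩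

omit [Finite P] in
theorem ka_conj (hk : k ∈ Ka G c a) (e : g • a = a) : g * k * g⁻¹ ∈ Ka G c a := by
  have e' : g⁻¹ • a = a := inv_smul_eq_iff.2 e.symm
  refine h.mem_ka.2 ⟨by rw [mul_smul, mul_smul, e', hk.2.1, e], fun y hy => ?_⟩
  simpa [e, mul_smul] using h.ln_smul g (hk.2.2 (g⁻¹ • y) (by rwa [← h.aut', e]))

omit [Finite P] in
theorem ka_self (ha : α ∈ W a) : α ∈ Ka G c a :=
  h.mem_ka.2 ⟨h.fixc ha (h.refl a), fun y hy => by rw [h.fixc ha hy]; exact .right⟩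

theorem ka_z (ha : α ∈ W a) (hb : β ∈ W b) (n : ¬ c a b) (e : Br α β) : zz α β ∈ Ka G c a := by
  refine h.mem_ka.2 ⟨h.fix ha e.z_left, fun y hy => ?_⟩
  by_cases k : c y b
  · obtain ⟨ξ, hx⟩ := h.ne y
    rw [h.fix hx (comm_zz (h.com hx ha (h.symm hy)) (h.com hx hb k)).symm]; exact .right
  obtain ⟨ξ, hx, k1⟩ := h.partner hb k
  obtain ⟨u, s, ρ, T, rfl, up, -, rp, -⟩ := h.tri ha hx hb hy n k e k1
  have k2 := T.z_g ▸ h.conj hx (zz α β)
  by_cases k3 : u * ρ = 1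
  · rw [k3, one_mul] at hx
    rw [← h.uniq ha hx, h.fix ha e.z_left]; exact .left
  intro w w1 w2
  obtain ⟨η, he⟩ := h.ne w
  have w3 := (h.com ha he w1).symm
  obtain ⟨w4, w5⟩ := h.tri_cent T ha up rp k3 he w3 (h.com hx he w2).symm
  exact (h.cm k2 he).2 ((w4.inv_right.mul_right w5).mul_right w3).symm

omit [Finite P] in
theorem br_ka (hc : γ ∈ W x) (he : η ∈ W e) (ax : c a x) (ae : c a e) (m : ¬ c x e) (b : Br γ η) (hn : n ∈ Ka G c a)
    (hd : n * γ ∈ W y) : ¬ c y e ∧ Br (n * γ) η := by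
  have fe := h.fixc he (h.symm ae)
  have fx := h.fixc hc (h.symm ax)
  have key : ∀ r ∈ Ka G c a, Commute (r * η * r⁻¹) η := fun r hr => h.com (h.conj he r) he (hr.2.2 e ae e ae (h.refl e))
  have m' : ¬ c y e := fun k => h.br_ne hc he m b (by
    have := key _ (inv_mem hn)
    convert this using 1
    calc _ = n⁻¹ * (n * γ * η) * γ⁻¹ := by group
      _ = _ := by rw [(h.com hd he k).eq]; group)
  refine ⟨m', ?_⟩
  obtain ⟨K, _, _, _, π, t, N⟩ := h.nf hd he m'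
  obtain rfl := N.t_eq (h.two_ne K) (key _ (by
    have := mul_mem (mul_mem (h.ka_conj hn fe) (h.ka_conj (inv_mem hn) (g := η * γ * η * γ⁻¹)
      (by rw [mul_smul, mul_smul, mul_smul, inv_smul_eq_iff.2 fx.symm, fe, fx, fe]))) (inv_mem hn)
    convert this using 1
    calc _ = η * n * γ * η * γ⁻¹ * n⁻¹ * γ * (γ * η * γ)⁻¹ * n⁻¹ := by group
      _ = _ := by rw [b]; group))
  exact N.br

theorem tri_rho (T : Tri α β u s ρ) (ha : α ∈ W a) (hb : β ∈ W b) (n : ¬ c a b) (hc : u * ρ * α ∈ W x) (ne : a ≠ x)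
    (up : u ^ p = 1) (rp : ρ ^ p = 1) : ∃ r, ρ ∈ W r := by
  obtain ⟨γ, hγ⟩ : ∃ γ, γ = u * ρ * α := ⟨_, rfl⟩
  have ga : Commute γ α := hγ ▸ (T.ua.mul_left T.ra).mul_left (Commute.refl _)
  have gu : Commute γ u := hγ ▸ ((Commute.refl _).mul_left T.ru).mul_left T.ua.symm
  rw [← hγ] at hc
  have ax := (h.cm ha hc).2 ga.symm
  obtain ⟨e, ae, xe⟩ := h.sep ne
  obtain ⟨η, he, b⟩ := h.partner hc (h.nsymm xe)
  have ea := h.com he ha (h.symm ae)
  have uk : u ∈ Ka G c a := by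
    have k := mul_mem (h.ka_conj (h.ka_z ha hb n T.br) (h.fix ha ga)) (inv_mem (h.ka_z ha hb n T.br))
    have : γ * zz α β * γ⁻¹ * (zz α β)⁻¹ = u ^ 2 := by
      calc _ = γ * (zz α β * (u * ρ * α) * (zz α β)⁻¹)⁻¹ := by rw [← hγ]; group
        _ = _ := by rw [T.z_g, hγ, sq]; group
    exact sq_half h.odd up ▸ pow_mem (this ▸ k) _
  have ak := h.ka_self ha
  obtain ⟨X, hX⟩ : ∃ X, X = u * α ^ 3 := ⟨_, rfl⟩
  have Xa : Commute X α := hX ▸ T.ua.mul_left ((Commute.refl _).pow_left 3)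
  obtain ⟨y2, m2⟩ := h.tri_mem T ha up rp (h.nd two_pos (by omega))
  obtain ⟨y3, m3⟩ := h.tri_mem T ha up rp (h.nd three_pos (by omega))
  have m1 : u⁻¹ * ρ * α ∈ W (s⁻¹ • a) := by have := h.conj ha s⁻¹; rwa [inv_inv, T.symm.ub] at this
  have ua := T.ua
  have ra := T.ra
  have ru := T.ru
  have e2 : u ^ 2 * ρ * α ^ 2 ^ 2 = X * γ := by
    rw [hX, hγ, mul_assoc u (α ^ 3), ← (((ua.mul_left ra).mul_left (Commute.refl _)).pow_right 3).eq, sq u]; group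
  have e1 : u⁻¹ * ρ * α = (u ^ 2)⁻¹ * γ := by rw [hγ, sq]; group
  have e3 : u ^ 3 * ρ * α ^ 3 ^ 2 = X ^ 2 * γ * α ^ 2 := by
    rw [hX, (ua.pow_right 3).mul_pow, mul_assoc (u ^ 2), ← ((ga.pow_right 3).pow_right 2).eq, hγ]; group
  rw [e2] at m2
  rw [e1] at m1
  rw [e3] at m3
  obtain ⟨n2, b2⟩ := h.br_ka hc he ax ae xe b.symm (hX ▸ mul_mem uk (pow_mem ak 3)) m2
  obtain ⟨n1, -⟩ := h.br_ka hc he ax ae xe b.symm (inv_mem (pow_mem uk 2)) m1
  have Xg : Commute X γ := hX ▸ gu.symm.mul_left (ga.symm.pow_left 3)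
  obtain ⟨u', s', ρ', T', e4, -, -, rp', k⟩ := h.tri hc m2 he ((h.cm hc m2).2 (Xg.symm.mul_right (Commute.refl _))) xe n2
    b.symm b2
  have e5 : X = u' * ρ' := mul_right_cancel e4
  have ar := k α ga.symm ea.symm (Xa.symm.mul_right ga.symm)
  have ur : Commute u ρ' := by
    have : u = u' * ρ' * (α ^ 3)⁻¹ := by rw [← e5, hX]; group
    exact this ▸ (T'.ru.symm.mul_left (Commute.refl _)).mul_left (ar.pow_left 3).inv_left
  obtain ⟨z, hz⟩ : ∃ z, z = zz γ η := ⟨_, rfl⟩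
  have za : Commute z α := hz ▸ (comm_zz ga.symm ea.symm).symm
  have zg : Commute z γ := hz ▸ T'.br.z_left
  have zX : z * X * z⁻¹ = X⁻¹ * ρ' ^ 2 := by
    calc _ = (z * u' * z⁻¹) * (z * ρ' * z⁻¹) := by rw [e5]; group
      _ = ρ'⁻¹ * (ρ' * u'⁻¹) * ρ' := by rw [hz, T'.z_u, ← T'.z_r.eq]; group
      _ = _ := by rw [T'.ru.inv_right.eq, e5, sq]; group
  have Xr : Commute X ρ' := e5 ▸ T'.ru.symm.mul_left (Commute.refl _)
  have e6 : z * (X ^ 2 * γ * α ^ 2) * z⁻¹ = (u ^ 2)⁻¹ * γ * (ρ' ^ 2 * (α ^ 2)⁻¹) ^ 2 := by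
    calc _ = (z * X * z⁻¹) ^ 2 * (z * γ * z⁻¹) * (z * α * z⁻¹) ^ 2 := by simp only [sq]; group
      _ = (X ^ 2)⁻¹ * ((ρ' ^ 2) ^ 2 * γ) * α ^ 2 := by
        rw [zX, zg.eq, za.eq, (Xr.inv_left.pow_right 2).mul_pow]; group
      _ = (u ^ 2)⁻¹ * (((α ^ 3) ^ 2)⁻¹ * γ) * (ρ' ^ 2) ^ 2 * α ^ 2 := by
        rw [((T'.ra.pow_left 2).pow_left 2).eq, hX, (ua.pow_right 3).mul_pow, ((ua.pow_right 3).pow_pow 2 2).eq]; group
      _ = (u ^ 2)⁻¹ * γ * (((α ^ 3) ^ 2)⁻¹ * (ρ' ^ 2) ^ 2) * α ^ 2 := by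
        rw [← ((ga.pow_right 3).pow_right 2).inv_right.eq]; group
      _ = _ := by
        rw [(((ar.pow_pow 3 2).pow_pow 2 2).inv_left).eq, (ar.pow_pow 2 2).symm.inv_right.mul_pow]; group
  have e7 := h.g5 m1 he n1 (δ := (ρ' ^ 2 * (α ^ 2)⁻¹) ^ 2)
    (((((ur.symm.pow_right 2).inv_right.mul_right T'.ra).pow_left 2).mul_left
      (((ua.symm.pow_right 2).inv_right.mul_right ga.symm).pow_left 2).inv_left).pow_left 2)
    (((T'.rb.pow_left 2).mul_left (ea.symm.pow_left 2).inv_left).pow_left 2) (e6 ▸ h.conj m3 z)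
  have e8 : ρ' ^ 2 = α ^ 2 := mul_inv_eq_one.1 (eq_one_of_pow h.prime (by
    rw [(ar.pow_pow 2 2).symm.inv_right.mul_pow, inv_pow, ← pow_mul, ← pow_mul, mul_comm, pow_mul, pow_mul, rp', h.pp ha]
    simp) (h.nd two_pos (by omega)) e7)
  refine ⟨z • y2, ?_⟩
  convert h.conj m2 z using 1
  calc _ = (α ^ 3)⁻¹ * ρ * α ^ 3 := by rw [mul_assoc, (ra.pow_right 3).eq]; group
    _ = X⁻¹ * (γ * α ^ 2) := by rw [hX, hγ]; group
    _ = (z * X * z⁻¹) * (z * γ * z⁻¹) := by rw [zX, e8, zg.eq, (ga.pow_right 2).eq]; group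
    _ = _ := by group

/-- the triangle in the polar space -/
theorem tri' (ha : α ∈ W a) (hc : γ ∈ W x) (hb : β ∈ W b) (e : c a x) (ne : a ≠ x) (n : ¬ c a b) (n' : ¬ c x b)
    (h1 : Br α β) (h2 : Br γ β) : ∃ u s ρ r, Tri α β u s ρ ∧ γ = u * ρ * α ∧ u ^ p = 1 ∧ s ^ p = 1 ∧ ρ ∈ W r ∧
      Ln c a x r ∧ c r b := by
  obtain ⟨u, s, ρ, T, rfl, up, sp, rp, -⟩ := h.tri ha hc hb e n n' h1 h2
  obtain ⟨r, hr⟩ := h.tri_rho T ha hb n hc ne up rp
  refine ⟨u, s, ρ, r, T, rfl, up, sp, hr, fun w w1 w2 => ?_, (h.cm hr hb).2 T.rb⟩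
  obtain ⟨η, he⟩ := h.ne w
  exact (h.cm hr he).2 (h.tri_cent T ha up rp (fun k => ne (h.uniq ha (by simpa [k] using hc))) he (h.com ha he w1).symm
    (h.com hc he w2).symm).2.symm

omit [Finite G] in
theorem move (n : ¬ c x y) : ∃ g : G, g • x = y ∧ ∀ a, c a x → c a y → g • a = a := by
  obtain ⟨η, he⟩ := h.ne y
  obtain ⟨γ, hc, b⟩ := h.partner he n
  exact ⟨_, h.br_smul hc he b, fun a h1 h2 => by rw [mul_smul, h.fixc he (h.symm h2), h.fixc hc (h.symm h1)]⟩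

omit [Finite G] in
theorem exists_opp (a : P) : ∃ y, ¬ c a y := by
  obtain ⟨x, y, n⟩ := h.two
  obtain ⟨g, rfl⟩ := h.tr x a
  exact ⟨g • y, by rwa [h.aut]⟩

omit [Finite G] in
theorem opp2 (a b : P) : ¬ c a b ∨ ∃ x, ¬ c a x ∧ ¬ c b x := by
  let Δ : P → Prop := fun b => ¬ c a b ∨ ∃ x, ¬ c a x ∧ ¬ c b x
  have st : ∀ {x y}, Δ x → ¬ c x y → Δ y := fun {x y} hx n => by
    by_cases k : c a x
    swap; · exact .inr ⟨x, k, h.nsymm n⟩
    obtain ⟨w, w1, w2⟩ := hx.resolve_left (not_not.2 k)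
    by_cases k1 : c y w
    swap; · exact .inr ⟨w, w1, k1⟩
    obtain ⟨η, he⟩ := h.ne w
    obtain ⟨ξ, hx, b⟩ := h.partner he w2
    refine .inr ⟨ξ • w, by rwa [← h.fixc hx (h.symm k), h.aut], fun k2 => n ?_⟩
    obtain ⟨θ, ht⟩ := h.ne y
    have k3 := h.com ht he k1
    have k4 := h.com ht (h.conj he ξ) k2
    have : ξ = η * (ξ * η * ξ⁻¹) * η⁻¹ := by
      calc _ = (ξ * η * ξ) * ξ⁻¹ * η⁻¹ := by group
        _ = _ := by rw [b]; group
    exact (h.cm hx ht).2 (by rw [this]; exact ((k3.mul_right k4).mul_right k3.inv_right).symm)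
  have all : ∀ g : G, ∀ x, Δ x → Δ (g • x) := fun g => by
    refine Subgroup.closure_induction_left (p := fun g _ => ∀ x, Δ x → Δ (g • x)) (by simp) ?_ ?_
      (h.gen ▸ Subgroup.mem_top g : g ∈ Subgroup.closure (⋃ x, W x))
    all_goals
      intro ξ hξ g _ ih x hx
      obtain ⟨y, hy⟩ := Set.mem_iUnion.1 hξ
    on_goal 2 => replace hy := h.inv hy; revert hy; generalize ξ⁻¹ = ξ; intro hy
    all_goals
      rw [mul_smul]
      by_cases k : c y (g • x)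
      · rw [h.fixc hy k]; exact ih x hx
      · exact st (st (ih x hx) (h.nsymm k)) (by rwa [← h.fixc hy (h.refl y), h.aut])
  obtain ⟨g, rfl⟩ := h.tr a b
  exact all g a (.inr (let ⟨y, hy⟩ := h.exists_opp a; ⟨y, hy, hy⟩))

/-- the polar space -/
theorem ps (h2 : ∃ x y, c x y ∧ x ≠ y) : PS c where
  refl := h.refl
  symm := h.symm
  ext := h.ext'
  line := fun {a b x} _ hx n => by
    obtain ⟨e, ae, xe⟩ := h.sep n.symm
    have be : ¬ c b e := fun k => xe (hx e ae k)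
    obtain ⟨g, g1, g2⟩ := h.move be
    obtain ⟨g', g3, g4⟩ := h.move xe
    have e1 := g2 a ‹_› ae
    have e2 := g4 a (h.symm (hx a (h.refl a) (h.symm ‹_›))) ae
    have k : {y | c a y ∧ c b y} = {y | c a y ∧ c x y} := Set.eq_of_subset_of_ncard_le
      (fun y hy => ⟨hy.1, hx y hy.1 hy.2⟩) (Set.ncard_le_ncard_of_injOn (fun y => g⁻¹ • g' • y)
        (fun y hy => ⟨by rw [← h.aut', e1, ← e2, h.aut]; exact hy.1, by rw [← h.aut', g1, ← g3, h.aut]; exact hy.2⟩)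
        ((MulAction.injective _).comp (MulAction.injective _)).injOn)
    exact fun y h1 h2 => ((Set.ext_iff.1 k y).2 ⟨h1, h2⟩).2
  proj := fun {a b x} e ne n => by
    by_cases k : c b x
    · exact ⟨b, .right, k⟩
    obtain ⟨β, hb⟩ := h.ne x
    obtain ⟨α, ha, h1⟩ := h.partner hb n
    obtain ⟨γ, hc, h2⟩ := h.partner hb k
    obtain ⟨-, -, -, r, -, -, -, -, -, k⟩ := h.tri' ha hc hb e ne n k h1 h2
    exact ⟨r, k⟩
  opp := fun e => (h.opp2 _ _).resolve_left (not_not.2 e)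
  rk a := by
    obtain ⟨x, y, e, n⟩ := h2
    obtain ⟨g, rfl⟩ := h.tr x a
    exact ⟨g • y, by rwa [h.aut], fun k => n (MulAction.injective g k).symm⟩

end PG

end CF.Tv
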