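import Cfsg.Agent.Tv.B2

/-! `p`-transvections: root elations. -/

set_option autoImplicit false
set_option linter.unusedSectionVars false

namespace CF.Tv

open CF.Fisch
open scoped MatrixGroups commutatorElement

variable {G : Type*} [Group G] [Finite G] {P : Type*} [MulAction G P]

/-- root elations -/
def Rt (G : Type*) [Group G] [Finite G] [MulAction G P] (c : P → P → Prop) (a y : P) : Subgroup G where
  carrier := {g | g ∈ Ka G c a ∧ g ∈ Ka G c y ∧ ∀ x, Ln c a y x → g • x = x}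
  one_mem' := ⟨one_mem _, one_mem _, fun x _ => one_smul G x⟩
  mul_mem' := fun g k => ⟨mul_mem g.1 k.1, mul_mem g.2.1 k.2.1, fun x e => by rw [mul_smul, k.2.2 x e, g.2.2 x e]⟩
  inv_mem' := fun g => ⟨inv_mem g.1, inv_mem g.2.1, fun x e => by rw [inv_smul_eq_iff, g.2.2 x e]⟩

/-- the involution attached to two opposite points -/
structure Zi (c : P → P → Prop) (W : P → Set G) (a b : P) (z : G) : Prop where
  n : ¬ c a b
  sq : z * z = 1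
  ka : z ∈ Ka G c a
  kb : z ∈ Ka G c b
  wa : ∀ α ∈ W a, Commute z α
  wb : ∀ α ∈ W b, Commute z α
  ia : ∀ {y g}, c a y → c b y → g ∈ Rt G c a y → z * g * z⁻¹ = g⁻¹
  ib : ∀ {y g}, c a y → c b y → g ∈ Rt G c b y → z * g * z⁻¹ = g⁻¹

variable {p : ℕ} {c : P → P → Prop} {W : P → Set G} {a b b' d r w x y x' y' : P} {α α' β γ δ ξ ζ g g' k u s ρ z z' : G}

theorem Rt.symm (e : g ∈ Rt G c a y) : g ∈ Rt G c y a := ⟨e.2.1, e.1, fun x l => e.2.2 x l.symm⟩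
theorem Zi.symm (Z : Zi c W a b z) (S : PS c) : Zi c W b a z :=
  ⟨S.nsymm Z.n, Z.sq, Z.kb, Z.ka, Z.wb, Z.wa, fun e f => Z.ib f e, fun e f => Z.ia f e⟩
theorem Ka.fx (e : g ∈ Ka G c a) : g • a = a := e.2.1
theorem Ka.ln (e : g ∈ Ka G c a) (l : c a y) : Ln c a y (g • y) := e.2.2 y l
theorem inv_fx (e : g • a = a) : g⁻¹ • a = a := inv_smul_eq_iff.2 e.symm
theorem cj_fx (e : g • (k⁻¹ • a) = k⁻¹ • a) : (k * g * k⁻¹) • a = a := by rw [mul_smul, mul_smul, e, smul_inv_smul]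
theorem cm_one : ⁅g, k⁆ = 1 ↔ Commute g k := commutatorElement_eq_one_iff_commute

namespace PG

variable [Finite P] (h : PG p c W) (S : PS c)
include h

theorem ln_inv (e : Ln c (k • a) (k • b) x) : Ln c a b (k⁻¹ • x) := by simpa using h.ln_smul k⁻¹ e
theorem ln_fx (e1 : k • a = a) (e2 : k • b = b) (e : Ln c a b x) : Ln c a b (k • x) := by simpa [e1, e2] using h.ln_smul k e
theorem ka_cj (e : g ∈ Ka G c a) (k : G) : k * g * k⁻¹ ∈ Ka G c (k • a) :=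
  h.mem_ka.2 ⟨cj_fx (by rw [inv_smul_smul, Ka.fx e]), fun y hy => by
    simpa [mul_smul] using h.ln_smul k (Ka.ln e (y := k⁻¹ • y) (by rwa [← h.aut']))⟩
theorem rt_cj (e : g ∈ Rt G c a y) (k : G) : k * g * k⁻¹ ∈ Rt G c (k • a) (k • y) :=
  ⟨h.ka_cj e.1 k, h.ka_cj e.2.1 k, fun x l => cj_fx (e.2.2 _ (h.ln_inv l))⟩
theorem rt_cj' (e : g ∈ Rt G c a y) (e1 : k • a = b) (e2 : k • y = x) : k * g * k⁻¹ ∈ Rt G c b x := e1 ▸ e2 ▸ h.rt_cj e k
theorem zc_cj (e : g ∈ Zc G c a) (e1 : k • a = b) : k * g * k⁻¹ ∈ Zc G c b := fun y hy => cj_fx (e _ (by rwa [← h.aut', e1]))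
theorem w_zc (e : α ∈ W x) : α ∈ Zc G c x := fun _ => h.fixc e
theorem zc_ln (e : g ∈ Zc G c x) (y : P) : Ln c x y (g • y) := fun w h1 h2 => by rwa [← e w h1, h.aut]
theorem zc_ka' (e : g ∈ Zc G c a) : g ∈ Ka G c a := h.mem_ka.2 ⟨e a (h.refl a), fun y _ => h.zc_ln e y⟩
theorem zi_cj (Z : Zi c W a b z) (k : G) : Zi c W (k • a) (k • b) (k * z * k⁻¹) := by
  have w : ∀ {a}, (∀ α ∈ W a, Commute z α) → ∀ α ∈ W (k • a), Commute (k * z * k⁻¹) α := fun e α m => by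
    convert (e (k⁻¹ * α * k) (by simpa using h.conj m k⁻¹)).conj k using 1; group
  have i : ∀ {x y g}, (∀ g ∈ Rt G c x (k⁻¹ • y), z * g * z⁻¹ = g⁻¹) → g ∈ Rt G c (k • x) y → k * z * k⁻¹ * g * (k * z * k⁻¹)⁻¹ = g⁻¹ :=
    fun e m => by simpa [mul_assoc] using congr(k * $(e _ (h.rt_cj' m (k := k⁻¹) (inv_smul_smul ..) rfl)) * k⁻¹)
  exact ⟨by rw [h.aut]; exact Z.n, by simp [Z.sq], h.ka_cj Z.ka k, h.ka_cj Z.kb k, w Z.wa, w Z.wb,
    fun e f => i fun _ => Z.ia ((h.aut' ..).1 e) ((h.aut' ..).1 f), fun e f => i fun _ => Z.ib ((h.aut' ..).1 e) ((h.aut' ..).1 f)⟩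

include S

theorem zc_semi (e : g ∈ Zc G c a) (n : ¬ c a x) (f : g • x = x) : g = 1 :=
  h.ff g (S.rigid (MulAction.toPerm g) (h.aut g) e n f)
theorem zc_opp (e : g ∈ Zc G c a) (n : ¬ c a x) (g1 : g ≠ 1) : ¬ c x (g • x) := fun f =>
  g1 (h.zc_semi S e n (S.hyp n .right (h.zc_ln e x) f).symm)
theorem zc_inf (l : c x y) (n : x ≠ y) (e : g ∈ Zc G c x) (e' : g ∈ Zc G c y) : g = 1 :=
  let ⟨w, a, b⟩ := S.exists_sep n.symm; h.zc_semi S e b (e' w a)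
theorem zc_comm (l : c x y) (n : x ≠ y) (e : g ∈ Zc G c x) (e' : k ∈ Zc G c y) : Commute g k :=
  cm_one.1 (h.zc_inf S l n (by simpa [commutatorElement_def, mul_assoc] using mul_mem e (h.zc_cj (inv_mem e) (e' x (S.symm l))))
    (mul_mem (h.zc_cj e' (e y l)) (inv_mem e')))
theorem ka_fix (e : g ∈ Ka G c a) (n : ¬ c a b) (f : g • b = b) (h1 : c a y) (h2 : c b y) : g • y = y :=
  S.uq h1 (Ka.ln e h1) .right .left (by rw [← f, h.aut]; exact S.symm h2) (S.symm h2) n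
theorem zc_ka (l : c a y) (n : a ≠ y) (e : g ∈ Zc G c y) (e' : g ∈ Ka G c a) : g = 1 := by
  obtain ⟨b, h1, h2⟩ := S.exists_sep n.symm
  obtain ⟨w, h3, h4, h5⟩ := S.res_opp h2 l (S.symm h1)
  exact h.zc_semi S e h5 (h.ka_fix S e' h2 (e b h1) h3 h4)

/-- three root groups on a line -/
theorem tt (l : c a y) (n : a ≠ y) (lx : Ln c a y x) (n1 : x ≠ a) (n2 : x ≠ y) (e : ζ ∈ Zc G c a) (e' : γ ∈ Zc G c y)
    (m : ζ * γ ∈ Zc G c x) : γ = 1 := by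
  obtain ⟨w, h1, h2⟩ := S.exists_sep n1
  have h3 : ¬ c y w := fun f => n2 (S.uq l lx .right .left h1 f h2)
  by_contra g1
  have h4 : γ • w = ζ⁻¹ • w := eq_inv_smul_iff.2 (by rw [← mul_smul, m w h1])
  have h5 := h.zc_opp S e' h3 g1
  have h6 := S.ne h5
  exact n (S.hyp h5 (S.hline (S.nsymm h2) (h4 ▸ (h.zc_ln (inv_mem e) w).symm) h6.symm).2
    (S.hline (S.nsymm h3) (h.zc_ln e' w).symm h6.symm).2 l)

theorem opp3 (n : ¬ c a b) (h1 : c a x) (h2 : c b x) (h3 : c a y) (h4 : c b y) : ∃ w, c a w ∧ c b w ∧ ¬ c x w ∧ ¬ c y w := by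
  by_cases e : c x y
  · exact S.res_conn n h1 h2 h3 h4 e
  obtain ⟨γ, hc⟩ := h.ne x
  exact ⟨γ • y, by rwa [← h.fixc hc (S.symm h1), h.aut], by rwa [← h.fixc hc (S.symm h2), h.aut],
    by rwa [← h.fixc hc (S.refl x), h.aut], h.zc_opp S (h.w_zc hc) e (h.ne_one hc)⟩

theorem transfer (n : ¬ c a b) (h1 : c a y) (h2 : c b y) (h3 : c a w) (h4 : c b w) (o : ¬ c y w) (f1 : g • b = b) (f2 : g • w = w)
    (f : ∀ x, Ln c a y x → g • x = x) (x : P) (l : Ln c b w x) : g • x = x := by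
  by_cases e : x = w
  · rwa [e]
  have n1 : ¬ c a x := fun k => e (S.uq h4 l .right .left (S.symm k) (S.symm h3) (S.nsymm n))
  obtain ⟨r, r1, r2⟩ := S.proj h1 (fun e => n (e ▸ S.symm h2)) n1
  have r3 : c (g • x) r := by rw [← f r r1, h.aut]; exact S.symm r2
  by_cases e' : r = y
  · exact S.uq h4 (h.ln_fx f1 f2 l) l .right r3 (S.symm r2) (e' ▸ S.nsymm o)
  · exact S.uq h4 (h.ln_fx f1 f2 l) l .left r3 (S.symm r2) fun k => e' (S.uq h1 r1 .right .left (S.symm k) (S.symm h2) n)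

theorem ka_semi (e : g ∈ Ka G c a) (f : ∀ x, Ln c a y x → g • x = x) (n : ¬ c a b) (h1 : c a y) (h2 : c b y) (f1 : g • b = b) : g = 1 := by
  refine h.zc_semi S (fun x l => ?_) n f1
  by_cases e1 : a = x
  · exact e1 ▸ Ka.fx e
  obtain ⟨w, w1, w2⟩ := S.proj l e1 n
  have w3 := S.col_left l w1
  obtain ⟨v, v1, v2, v3, v4⟩ := h.opp3 S n h1 h2 w3 (S.symm w2)
  exact h.transfer S (S.nsymm n) v2 v1 (S.symm w2) w3 (S.nsymm v4) (Ka.fx e) (h.ka_fix S e n f1 w3 (S.symm w2))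
    (h.transfer S n h1 h2 v1 v2 v3 f1 (h.ka_fix S e n f1 v1 v2) f) x (S.line l w1 fun k => n (k ▸ w2))

theorem rt_semi (e : g ∈ Rt G c a y) (n : ¬ c a b) (h1 : c a y) (h2 : c b y) (f1 : g • b = b) : g = 1 :=
  h.ka_semi S e.1 e.2.2 n h1 h2 f1
theorem rt_zc (e : g ∈ Rt G c a y) (l : c a y) (n : a ≠ y) (e' : g ∈ Zc G c a) : g = 1 := h.zc_ka S (S.symm l) n.symm e' e.2.1

theorem z_w (ha : α ∈ W a) (ha' : α' ∈ W a) (hb : β ∈ W b) (n : ¬ c a b) (e : Br α β) : Commute (zz α β) α' := by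
  obtain ⟨K, _, _, _, π, t, N⟩ := h.nf ha' hb n
  have t1 : -t⁻¹ * t = -1 := by simp [N.t0]
  have m := h.up_mem N ha' hb
  have o : ¬ c a (β • a) := h.zc_opp S (h.w_zc hb) (S.nsymm n) (h.ne_one hb)
  have := h.zc_semi S (mul_mem (inv_mem (h.w_zc ha)) (h.w_zc m)) o (by
    rw [mul_smul, inv_smul_eq_iff, ← mul_smul, ← mul_smul, h.br_smul ha hb e, h.br_smul m hb (N.b ▸ (br_up_lo t1).map π)])
  rw [inv_mul_eq_one.1 this, ← N.b, ← N.a, zz, ← map_mul, ← map_mul, ← map_pow, w_sq t1]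
  exact (Commute.neg_one_left _).map π

omit S in
theorem tri_ka (T : Tri α β u s ρ) (ha : α ∈ W a) (hb : β ∈ W b) (n : ¬ c a b) (f : (u * ρ * α) • a = a) (up : u ^ p = 1) :
    u ∈ Ka G c a := by
  have k := mul_mem (h.ka_conj (h.ka_z ha hb n T.br) f) (inv_mem (h.ka_z ha hb n T.br))
  have : u * ρ * α * zz α β * (u * ρ * α)⁻¹ * (zz α β)⁻¹ = u ^ 2 := by
    calc _ = u * ρ * α * (zz α β * (u * ρ * α) * (zz α β)⁻¹)⁻¹ := by group
      _ = _ := by rw [T.z_g, sq]; group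
  exact sq_half h.odd up ▸ pow_mem (this ▸ k) _

theorem tri_rt (T : Tri α β u s ρ) (ha : α ∈ W a) (hb : β ∈ W b) (n : ¬ c a b) (hc : u * ρ * α ∈ W x) (hr : ρ ∈ W y) (l : c a x)
    (ne : a ≠ x) (n' : ¬ c x b) (ly : Ln c a x y) (up : u ^ p = 1) : u ∈ Rt G c a y := by
  have ay := S.col_left l ly
  have yb := (h.cm hr hb).2 T.rb
  have lx := S.line l ly fun e => n (e ▸ yb)
  obtain ⟨w, w1, w2, w3⟩ := S.res_opp n ay (S.symm yb)
  have xw : ¬ c x w := fun k => ne (S.uq ay .left lx .right w1 k w3)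
  have yx := S.col ay .right lx
  obtain ⟨δ, hd, b1⟩ := h.partner hc (S.nsymm xw)
  obtain ⟨ρ', hr', b2⟩ := h.partner hd w3
  obtain ⟨u', s', α', r, T', e, up', -, ha', r1, r2⟩ := h.tri' hr' hc hd yx (fun e => n' (e ▸ yb)) w3 xw b2 b1.symm
  obtain rfl := S.uq ay .left (r1.trans .right lx) .right w1 r2 w3
  have k := h.tri_ka T' hr' hd w3 (e ▸ h.fixc hc (S.symm yx)) up'
  have zr := comm_zz (h.com hr' ha (S.symm ay)) (h.com hr' hb yb)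
  have : u' * (zz α β * u'⁻¹ * (zz α β)⁻¹) = u ^ 2 := by
    calc _ = u' * α' * ρ' * (zz α β * ρ' * (zz α β)⁻¹)⁻¹ * (zz α β * α' * (zz α β)⁻¹)⁻¹ * (zz α β * u'⁻¹ * (zz α β)⁻¹) := by
          rw [← zr.eq, (h.z_w S ha ha' hb n T.br).eq]; group
      _ = u' * α' * ρ' * (zz α β * (u' * α' * ρ') * (zz α β)⁻¹)⁻¹ := by group
      _ = _ := by rw [← e, T.z_g, sq]; group
  refine ⟨h.tri_ka T ha hb n (h.fixc hc (S.symm l)) up, sq_half h.odd up ▸ pow_mem (this ▸ mul_mem k (h.ka_conj (inv_mem k) (h.fix hr' zr.symm))) _,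
    fun v lv => ?_⟩
  have := h.fixc hc (S.col ay lx lv)
  rwa [mul_smul, mul_smul, h.fixc ha (S.col_left ay lv), h.fixc hr (S.col ay .right lv)] at this

theorem rt_ex (ha : α ∈ W a) (hb : β ∈ W b) (n : ¬ c a b) (e : Br α β) (h1 : c a y) (h2 : c b y) (l : Ln c b y b') (ne : b' ≠ y) :
    ∃ g ∈ Rt G c a y, g • b = b' ∧ zz α β * g * (zz α β)⁻¹ = g⁻¹ ∧ g ^ p = 1 ∧
      ∀ N : Subgroup G, (∀ x, Ln c a y x → ∀ ξ ∈ W x, ξ ∈ N) → g ∈ N := by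
  by_cases e0 : b = b'
  · exact ⟨1, one_mem _, by simpa, by simp, one_pow _, fun N _ => one_mem N⟩
  have n' : ¬ c b' a := fun k => ne (S.uq h2 l .right .left k (S.symm h1) (S.nsymm n))
  have bb := S.col_left h2 l
  obtain ⟨β', hb', e'⟩ := h.partner ha n'
  obtain ⟨u, s, ρ, r, T, rfl, up, sp, hr, r1, r2⟩ := h.tri' hb hb' ha bb e0 (S.nsymm n) n' e.symm e'
  obtain rfl := S.uq h2 .right (r1.trans .left l) .left (S.symm h1) r2 (S.nsymm n)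
  have m := h.tri_rt S T hb ha (S.nsymm n) hb' hr bb e0 n' r1 up
  refine ⟨s, T.w_u ▸ h.rt_cj' m (h.smul_eq hb ha e.symm.w_left) (by
    rw [mul_smul, mul_smul, h.fixc hb h2, h.fixc ha h1, h.fixc hb h2]), h.smul_eq hb hb' T.sa, e.zz ▸ T.z_s, sp, fun N k => ?_⟩
  have := mul_mem (mul_mem (k _ (Ka.ln (inv_mem m.2.1) (S.symm h1)).symm _ (h.conj ha u⁻¹)) (inv_mem (k _ .left _ ha))) (inv_mem (k _ .right _ hr))
  simpa [T.ub] using this

theorem rt_all (ha : α ∈ W a) (hb : β ∈ W b) (n : ¬ c a b) (e : Br α β) (h1 : c a y) (h2 : c b y) (m : g ∈ Rt G c a y) :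
    zz α β * g * (zz α β)⁻¹ = g⁻¹ ∧ g ^ p = 1 ∧ ∀ N : Subgroup G, (∀ x, Ln c a y x → ∀ ξ ∈ W x, ξ ∈ N) → g ∈ N := by
  obtain ⟨g', m', e1, e2⟩ := h.rt_ex S ha hb n e h1 h2 (Ka.ln m.2.1 (S.symm h2)).symm fun k =>
    n ((MulAction.injective g (k.trans (Ka.fx m.2.1).symm)) ▸ h1)
  rwa [← inv_mul_eq_one.1 (h.rt_semi S (mul_mem (inv_mem m') m) n h1 h2 (by rw [mul_smul, ← e1, inv_smul_smul]))]

theorem br_ex (n : ¬ c a b) : ∃ α ∈ W a, ∃ β ∈ W b, Br α β := let ⟨β, hb⟩ := h.ne b; let ⟨α, ha, e⟩ := h.partner hb n; ⟨α, ha, β, hb, e⟩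

theorem rt_tr (n : ¬ c a b) (h1 : c a y) (h2 : c b y) (l : Ln c b y b') (ne : b' ≠ y) : ∃ g ∈ Rt G c a y, g • b = b' :=
  let ⟨_, ha, _, hb, e⟩ := h.br_ex S n; let ⟨g, m, f, _⟩ := h.rt_ex S ha hb n e h1 h2 l ne; ⟨g, m, f⟩

theorem rt_pow (l : c a y) (ne : a ≠ y) (m : g ∈ Rt G c a y) :
    g ^ p = 1 ∧ ∀ N : Subgroup G, (∀ x, Ln c a y x → ∀ ξ ∈ W x, ξ ∈ N) → g ∈ N :=
  let ⟨_, h1, h2⟩ := S.exists_sep ne.symm; let ⟨_, ha, _, hb, e⟩ := h.br_ex S h2; (h.rt_all S ha hb h2 e l (S.symm h1) m).2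

theorem zi_ex (n : ¬ c a b) : ∃ z, Zi c W a b z :=
  let ⟨α, ha, β, hb, e⟩ := h.br_ex S n
  ⟨zz α β, n, (sq _).symm.trans (h.z_sq ha hb n e), h.ka_z ha hb n e, e.zz ▸ h.ka_z hb ha (S.nsymm n) e.symm,
    fun _ m => h.z_w S ha m hb n e, fun _ m => e.zz ▸ h.z_w S hb m ha (S.nsymm n) e.symm, fun h1 h2 m => (h.rt_all S ha hb n e h1 h2 m).1,
    fun h1 h2 m => e.zz ▸ (h.rt_all S hb ha (S.nsymm n) e.symm h2 h1 m).1⟩

theorem zi_uq (Z : Zi c W a b z) (Z' : Zi c W a b z') : z = z' := by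
  have n := Z.n
  have ka := mul_mem (inv_mem Z.ka) Z'.ka
  have kb := mul_mem (inv_mem Z.kb) Z'.kb
  refine inv_mul_eq_one.1 (h.zc_semi S (fun x l => ?_) (S.nsymm n) (Ka.fx ka))
  by_cases e : b = x
  · exact e ▸ Ka.fx kb
  obtain ⟨y, y1, y2⟩ := S.proj l e (S.nsymm n)
  have y3 := S.col_left l y1
  by_cases e' : x = y
  · exact h.ka_fix S ka n (Ka.fx kb) (e' ▸ S.symm y2) l
  obtain ⟨g, m, rfl⟩ := h.rt_tr S n (S.symm y2) y3 (S.line l y1 fun k => n (k ▸ S.symm y2)) e'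
  rw [← mul_smul, show z⁻¹ * z' * g = g * (z⁻¹ * z') by
    calc _ = z⁻¹ * (z' * g * z'⁻¹) * z' := by group
      _ = _ := by rw [Z'.ia (S.symm y2) y3 m, ← Z.ia (S.symm y2) y3 m]; group, mul_smul, Ka.fx kb]

theorem zi_comm (Z : Zi c W a b z) (e1 : k • a = a) (e2 : k • b = b) : Commute k z :=
  mul_inv_eq_iff_eq_mul.1 (h.zi_uq S (by simpa [e1, e2] using h.zi_cj Z k) Z)

theorem zi_fix (Z : Zi c W a b z) (h1 : c a y) (h2 : c b y) (l : Ln c a y x) (ne : x ≠ y) (f : z • x = x) : x = a := by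
  obtain ⟨g, m, rfl⟩ := h.rt_tr S (S.nsymm Z.n) h2 h1 l ne
  have : (g * g) • a = a := by
    rw [mul_smul, ← f, ← mul_smul z, eq_mul_inv_iff_mul_eq.1 (Z.ib h1 h2 m).symm |>.symm, mul_smul, Ka.fx Z.ka, smul_inv_smul]
  rw [eq_one_of_pow h.prime (h.rt_pow S h2 (fun e => Z.n (e ▸ h1)) m).1 (h.nd two_pos (by omega))
    ((sq g).trans (h.rt_semi S (mul_mem m m) (S.nsymm Z.n) h2 h1 this)), one_smul]

theorem rc (Z : Zi c W a b z) (h1 : c a y) (h2 : c b y) (l : Ln c a y x) (e : ξ ∈ Zc G c x)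
    (cz : ∀ v : G, v • a = x → Commute z (v⁻¹ * ξ * v)) : ⁅ξ, z⁆ ∈ Rt G c a y := by
  have xa := S.col h1 l .left
  by_cases e1 : x = y
  · rw [cm_one.2 (h.zi_comm S Z (e a xa) (e b (e1 ▸ S.symm h2)))]; exact one_mem _
  obtain ⟨v, m, f⟩ := h.rt_tr S (S.nsymm Z.n) h2 h1 l e1
  have zy := h.ka_fix S Z.ka Z.n (Ka.fx Z.kb) h1 h2
  have k := mul_mem m.2.1 (h.ka_conj (inv_mem m.2.1) (h.zc_cj e (k := v⁻¹) (inv_smul_eq_iff.2 f.symm) y h1))
  refine ⟨mul_mem (h.ka_conj Z.ka (e a xa)) (inv_mem Z.ka), ?_, fun w lw => ?_⟩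
  · convert mul_mem k (h.ka_conj (inv_mem k) zy) using 1
    calc _ = ξ * (v⁻¹ * ξ * v)⁻¹ * ((v⁻¹ * ξ * v) * z) * ξ⁻¹ * z⁻¹ := by rw [commutatorElement_def]; group
      _ = _ := by rw [← (cz v f).eq]; group
  · rw [commutatorElement_def, mul_smul, mul_smul, mul_smul, inv_mem e _ (S.col h1 l (h.ln_fx (inv_fx (Ka.fx Z.ka)) (inv_fx zy) lw)),
      smul_inv_smul, e _ (S.col h1 l lw)]

end PG

/-- the elements whose commutators with all involutions are root elations -/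
def Nl {p : ℕ} {W : P → Set G} (h : PG p c W) (a y : P) : Subgroup G where
  carrier := {g | (∀ x, Ln c a y x → g • x = x) ∧ ∀ b z r, Zi c W a b z → Ln c a y r → c b r → ⁅g, z⁆ ∈ Rt G c a r}
  one_mem' := ⟨fun x _ => one_smul G x, fun _ _ _ _ _ _ => by simp⟩
  mul_mem' := fun {g k} e f => ⟨fun x l => by rw [mul_smul, f.1 x l, e.1 x l], fun b z r Z l m => by
    have : Finite P := .of_surjective (fun g : G => g • a) (h.tr a)
    simpa [commutatorElement_def, mul_assoc] using mul_mem (h.rt_cj' (f.2 b z r Z l m) (e.1 a .left) (e.1 r l)) (e.2 b z r Z l m)⟩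
  inv_mem' := fun {g} e => ⟨fun x l => inv_fx (e.1 x l), fun b z r Z l m => by
    have : Finite P := .of_surjective (fun g : G => g • a) (h.tr a)
    simpa [commutatorElement_def, mul_assoc] using h.rt_cj' (inv_mem (e.2 b z r Z l m)) (inv_fx (e.1 a .left)) (inv_fx (e.1 r l))⟩

namespace PG

variable [Finite P] (h : PG p c W) (S : PS c)
include h S

theorem rt_nl (l : c a y) (ne : a ≠ y) (m : g ∈ Rt G c a y) : g ∈ Nl h a y :=
  (h.rt_pow S l ne m).2 _ fun x lx ξ e => ⟨fun v lv => h.fixc e (S.col l lx lv), fun b z r Z lr br =>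
    h.rc S Z (S.col_left l lr) br (S.span l .left lr (fun k => Z.n (k ▸ S.symm br)) lx) (h.w_zc e) fun v f =>
      Z.wa _ (by simpa [← f] using h.conj e v⁻¹)⟩

theorem nl_cj (l : c a y) (m : g ∈ Nl h a y) (e : k ∈ Ka G c a) : k * g * k⁻¹ ∈ Nl h a y := by
  have f : ∀ {x}, Ln c a y x → Ln c a y (k⁻¹ • x) := fun lx => (Ka.ln (inv_mem e) (S.col_left l lx)).trans .left lx
  refine ⟨fun x lx => cj_fx (m.1 _ (f lx)), fun b z r Z lr br => ?_⟩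
  have := h.rt_cj' (m.2 (k⁻¹ • b) _ _ (by simpa [inv_fx (Ka.fx e)] using h.zi_cj Z k⁻¹) (f lr) (by rwa [h.aut])) (Ka.fx e) (smul_inv_smul ..)
  simpa [commutatorElement_def, mul_assoc] using this

theorem rt_cm (n : ¬ c a b) (h1 : c a y) (h2 : c b y) (h3 : c a y') (h4 : c b y') (m : g ∈ Rt G c a y) (m' : g' ∈ Rt G c a y') :
    ⁅g, g'⁆ ∈ Zc G c a := by
  by_cases e : y = y'
  · obtain ⟨z, Z⟩ := h.zi_ex S n
    subst e
    have := Z.ia h1 h2 (mul_mem m m')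
    rw [← conj_mul, Z.ia h1 h2 m, Z.ia h1 h2 m', ← mul_inv_rev, inv_inj] at this
    rw [cm_one.2 this.symm]; exact one_mem _
  have n1 : a ≠ y := fun k => n (k ▸ S.symm h2)
  have n2 : a ≠ y' := fun k => n (k ▸ S.symm h4)
  have k1 : ⁅g, g'⁆ ∈ Nl h a y := by
    simpa [commutatorElement_def, mul_assoc] using mul_mem (h.rt_nl S h1 n1 m) (h.nl_cj S h1 (inv_mem (h.rt_nl S h1 n1 m)) m'.1)
  have k2 : ⁅g, g'⁆ ∈ Nl h a y' := mul_mem (h.nl_cj S h3 (h.rt_nl S h3 n2 m') m.1) (inv_mem (h.rt_nl S h3 n2 m'))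
  have k3 : ⁅g, g'⁆ ∈ Ka G c a := mul_mem (mul_mem (mul_mem m.1 m'.1) (inv_mem m.1)) (inv_mem m'.1)
  generalize ⁅g, g'⁆ = w at k1 k2 k3
  intro x l
  by_cases e1 : a = x
  · exact e1 ▸ Ka.fx k3
  obtain ⟨d, d1, d2⟩ := S.exists_sep (Ne.symm e1)
  obtain ⟨z, Z⟩ := h.zi_ex S d2
  obtain ⟨r, r1, r2⟩ := S.proj h1 n1 d2
  obtain ⟨r', r3, r4⟩ := S.proj h3 n2 d2
  have m1 := k1.2 d z r Z r1 (S.symm r2)
  have m2 := k2.2 d z r' Z r3 (S.symm r4)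
  have c1 := h.rt_semi S m1 d2 (S.col_left h1 r1) (S.symm r2) (by
    by_contra f
    have l1 := S.line (S.symm r2) (Ka.ln m1.2.1 r2).symm f
    have l2 := S.line (S.symm r4) (Ka.ln m2.2.1 r4).symm f
    have dd := S.col_left (S.symm r2) (Ka.ln m1.2.1 r2).symm
    obtain rfl := S.uq dd l1 l2 .left (S.symm (S.col_left h1 r1)) (S.symm (S.col_left h3 r3)) (S.nsymm d2)
    have ar : r ≠ a := fun k => d2 (k ▸ r2)
    exact e (S.uq (S.col_left h1 r1) (S.line h1 r1 ar) (S.line h3 r3 ar) .left (S.symm h2) (S.symm h4) n))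
  by_contra f
  exact e1 (MulAction.injective w ((Ka.fx k3).trans (h.zi_fix S Z l (S.symm d1) (Ka.ln k3 l) f (by
    rw [← mul_smul, ← (cm_one.1 c1).eq, mul_smul, h.ka_fix S Z.ka d2 (Ka.fx Z.kb) l (S.symm d1)])).symm))

end PG

end CF.Tv
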