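import Cfsg.Agent.Tv.C1

/-! `p`-transvections: the unipotent radical of a point stabiliser. -/

set_option autoImplicit false
set_option linter.unusedSectionVars false

namespace CF.Tv

open CF.Fisch
open scoped MatrixGroups commutatorElement

universe u
variable {G : Type u} [Group G] [Finite G] {P : Type*} [MulAction G P]

/-- the unipotent radical -/
def Qg (G : Type*) [Group G] [Finite G] [MulAction G P] (c : P → P → Prop) (a : P) : Subgroup G :=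
  Subgroup.closure {g | ∃ y, c a y ∧ a ≠ y ∧ g ∈ Rt G c a y}

/-- the quotient of the unipotent radical by the root group -/
structure Fr (c : P → P → Prop) (a : P) {M : Type*} [AddCommGroup M] (π : G → M) (A : G → Module.End ℤ M) : Prop where
  add : ∀ {u v}, u ∈ Qg G c a → v ∈ Qg G c a → π (u * v) = π u + π v
  ker : ∀ {u}, u ∈ Qg G c a → (π u = 0 ↔ u ∈ Zc G c a)
  sur : ∀ m, ∃ u ∈ Qg G c a, π u = m
  act : ∀ {k u}, k • a = a → u ∈ Qg G c a → A k (π u) = π (k * u * k⁻¹)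

variable {p : ℕ} {c : P → P → Prop} {W : P → Set G} {a b b' d r w x y x' y' : P} {α α' β γ δ ξ ζ g g' k k' u u' v v' s ρ z z' : G}
  {M : Type*} [AddCommGroup M] {π : G → M} {A : G → Module.End ℤ M}

theorem rt_q (l : c a y) (ne : a ≠ y) (m : g ∈ Rt G c a y) : g ∈ Qg G c a := Subgroup.subset_closure ⟨y, l, ne, m⟩
theorem q_le {N : Subgroup G} (e : ∀ y g, c a y → a ≠ y → g ∈ Rt G c a y → g ∈ N) : Qg G c a ≤ N :=
  (Subgroup.closure_le N).2 (by rintro g ⟨y, l, n, m⟩; exact e y g l n m)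
theorem q_ka (m : g ∈ Qg G c a) : g ∈ Ka G c a := q_le (fun _ _ _ _ e => e.1) m
theorem q_fx (m : g ∈ Qg G c a) : g • a = a := Ka.fx (q_ka m)
theorem cm_l (g k v : G) : ⁅g * k, v⁆ = g * ⁅k, v⁆ * g⁻¹ * ⁅g, v⁆ := by simp only [commutatorElement_def]; group
theorem cm_r (v g k : G) : ⁅v, g * k⁆ = ⁅v, g⁆ * (g * ⁅v, k⁆ * g⁻¹) := by simp only [commutatorElement_def]; group
theorem cm_cj (k g v : G) : k * ⁅g, v⁆ * k⁻¹ = ⁅k * g * k⁻¹, k * v * k⁻¹⁆ := by simp only [commutatorElement_def]; group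
theorem cj_eq (e : Commute k g) : k * g * k⁻¹ = g := by rw [e.eq, mul_inv_cancel_right]

namespace PG

variable [Finite P] (h : PG p c W) (S : PS c)
include h

theorem q_cj (m : g ∈ Qg G c a) (e : k • a = b) : k * g * k⁻¹ ∈ Qg G c b :=
  q_le (N := (Qg G c b).comap (MulAut.conj k).toMonoidHom) (fun y _ l n m =>
    rt_q (y := k • y) (by rwa [← e, h.aut]) (fun f => n (MulAction.injective k (e.trans f))) (h.rt_cj' m e rfl)) m
theorem q_cm' (e : k • a = a) (m : u ∈ Qg G c a) : ⁅k, u⁆ ∈ Qg G c a := mul_mem (h.q_cj m e) (inv_mem m)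

include S

theorem rt_q' (n : ¬ c a b) (h1 : c a y) (h2 : c b y) (m : g ∈ Rt G c a y) : g ∈ Qg G c a := rt_q h1 (fun e => n (e ▸ S.symm h2)) m

theorem q_tr (n : ¬ c a b) (N : Subgroup G) (hN : ∀ y g, c a y → c b y → g ∈ Rt G c a y → g ∈ N) :
    (∀ x, ¬ c a x → ∃ g ∈ N, g • a = a ∧ g • b = x) ∧ Qg G c a ≤ N := by
  have st : ∀ {x r g'}, (∃ g ∈ N, g • a = a ∧ g • b = x) → c a r → c x r → g' ∈ Rt G c a r → g' ∈ N := by
    rintro _ r g' ⟨g, m, e, rfl⟩ h1 h2 m'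
    simpa [mul_assoc] using mul_mem (mul_mem m (hN (g⁻¹ • r) _ (by rwa [← h.aut', e]) (by rwa [← h.aut'])
      (h.rt_cj' m' (inv_fx e) rfl))) (inv_mem m)
  have tr : ∀ x, ¬ c a x → ∃ g ∈ N, g • a = a ∧ g • b = x := fun x hx => by
    refine S.conn (fun x => ∃ g ∈ N, g • a = a ∧ g • b = x) n ⟨1, one_mem _, by simp⟩ (fun x y hx hy l e => ?_) hx
    by_cases e1 : x = y
    · exact e1 ▸ e
    obtain ⟨r, r1, r2⟩ := S.proj l e1 (S.nsymm hx)
    have r3 := S.col_left l r1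
    obtain ⟨g', m', f⟩ := h.rt_tr S hx (S.symm r2) r3 (S.line l r1 fun k => hx (k ▸ S.symm r2)) fun k => hy (k ▸ S.symm r2)
    have := st e (S.symm r2) r3 m'
    obtain ⟨g, m, e, rfl⟩ := e
    exact ⟨g' * g, mul_mem this m, by rw [mul_smul, e, Ka.fx m'.1], by rw [mul_smul, f]⟩
  exact ⟨tr, q_le fun y g l ne m => let ⟨x, h1, h2⟩ := S.exists_sep ne.symm; st (tr x h2) l (S.symm h1) m⟩

theorem q_tr' (n : ¬ c a b) (hx : ¬ c a x) : ∃ g ∈ Qg G c a, g • b = x :=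
  let ⟨g, m, _, e⟩ := (h.q_tr S n _ fun _ _ => h.rt_q' S n).1 x hx; ⟨g, m, e⟩

theorem zq (e : ζ ∈ Zc G c a) (m : u ∈ Qg G c a) : Commute ζ u := by
  refine (Subgroup.mem_centralizer_singleton_iff.1 (q_le (fun y g l ne m => ?_) m)).symm
  obtain ⟨w, h1, h2⟩ := S.exists_sep ne
  have := h.rt_semi S (Rt.symm (mul_mem (inv_mem m) (h.rt_cj' m (e a (S.refl a)) (e y l)))) h2 (S.symm l) (S.symm h1) (by
    rw [mul_smul, mul_smul, mul_smul, inv_mem e w h1, e _ (S.col_left h1 (Ka.ln m.1 h1)), inv_smul_smul])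
  exact Subgroup.mem_centralizer_singleton_iff.2 (eq_mul_inv_iff_mul_eq.1 (inv_mul_eq_one.1 this))

theorem q_cm (m : u ∈ Qg G c a) (m' : v ∈ Qg G c a) : ⁅u, v⁆ ∈ Zc G c a := by
  obtain ⟨b, n⟩ := h.exists_opp a
  let F : G → Subgroup G := fun v => ⟨⟨⟨{u | u • a = a ∧ ⁅v, u⁆ ∈ Zc G c a}, fun e f => ⟨by rw [mul_smul, f.1, e.1], by
    rw [cm_r]; exact mul_mem e.2 (h.zc_cj f.2 e.1)⟩⟩, one_smul .., by simp⟩, fun e => ⟨inv_fx e.1, by
      simpa [commutatorElement_def, mul_assoc] using h.zc_cj (inv_mem e.2) (inv_fx e.1)⟩⟩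
  exact ((h.q_tr S n (F u) fun y g h1 h2 e => ⟨Ka.fx e.1, commutatorElement_inv g u ▸ inv_mem ((h.q_tr S n (F g) fun y' g' h3 h4 e' =>
    ⟨Ka.fx e'.1, h.rt_cm S n h1 h2 h3 h4 e e'⟩).2 m).2⟩).2 m').2

theorem q_l (m : u ∈ Qg G c a) (m1 : u' ∈ Qg G c a) (m' : v ∈ Qg G c a) : ⁅u * u', v⁆ = ⁅u', v⁆ * ⁅u, v⁆ := by
  rw [cm_l, cj_eq (h.zq S (h.q_cm S m1 m') m).symm]
theorem q_r (m : u ∈ Qg G c a) (m' : v ∈ Qg G c a) (m1 : v' ∈ Qg G c a) : ⁅u, v * v'⁆ = ⁅u, v⁆ * ⁅u, v'⁆ := by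
  rw [cm_r, cj_eq (h.zq S (h.q_cm S m m1) m').symm]

theorem q_fix (n : ¬ c a b) (m : u ∈ Qg G c a) (f : ∀ y, c a y → c b y → u • y = y) : u ∈ Zc G c a := fun x l => by
  by_cases e : a = x
  · exact e ▸ q_fx m
  obtain ⟨d, h1, h2⟩ := S.exists_sep (Ne.symm e)
  obtain ⟨g, m', -, rfl⟩ := (h.q_tr S n (Subgroup.centralizer {u} ⊓ MulAction.stabilizer G a) fun y g h1 h2 m' =>
    ⟨Subgroup.mem_centralizer_singleton_iff.2 (cm_one.1 (h.rt_zc S (mul_mem (h.rt_cj' m' (q_fx m) (f y h1 h2)) (inv_mem m')) h1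
      (fun e => n (e ▸ S.symm h2)) (h.q_cm S m (h.rt_q' S n h1 h2 m')))).symm, Ka.fx m'.1⟩).1 d h2
  rw [← smul_inv_smul g x, ← mul_smul, ← Subgroup.mem_centralizer_singleton_iff.1 m'.1, mul_smul,
    f _ (by rwa [← h.aut', m'.2]) (by rw [← h.aut']; exact S.symm h1)]

theorem fr_ex (a : P) : ∃ (M : Type u) (_ : AddCommGroup M) (_ : Finite M) (π : G → M) (A : G → Module.End ℤ M), Fr c a π A := by
  classical
  haveI : ((Zc G c a).subgroupOf (Qg G c a)).Normal := ⟨fun z hz u => h.zc_cj hz (q_fx u.2)⟩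
  letI : CommGroup (Qg G c a ⧸ (Zc G c a).subgroupOf (Qg G c a)) := { QuotientGroup.Quotient.group _ with
    mul_comm := fun x y => Quotient.inductionOn₂' x y fun u v => QuotientGroup.eq.2 (by
      simpa [commutatorElement_def, mul_assoc, Subgroup.mem_subgroupOf] using h.q_cm S (inv_mem v.2) (inv_mem u.2)) }
  obtain ⟨π, add, ker, sur⟩ : ∃ π : G → Additive (Qg G c a ⧸ (Zc G c a).subgroupOf (Qg G c a)),
      (∀ {u v}, u ∈ Qg G c a → v ∈ Qg G c a → π (u * v) = π u + π v) ∧ (∀ {u}, u ∈ Qg G c a → (π u = 0 ↔ u ∈ Zc G c a)) ∧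
        ∀ m, ∃ u ∈ Qg G c a, π u = m :=
    ⟨fun g => if m : g ∈ Qg G c a then .ofMul (QuotientGroup.mk ⟨g, m⟩) else 0, fun e f => by simp only [e, f, mul_mem e f, dite_true]; rfl,
      fun e => by simp only [e, dite_true]; exact QuotientGroup.eq_one_iff _,
      fun m => let ⟨u, e⟩ := QuotientGroup.mk_surjective m.toMul; ⟨u, u.2, by simp [e]⟩⟩
  choose s s1 s2 using sur
  have wd : ∀ {k u v}, k • a = a → u ∈ Qg G c a → v ∈ Qg G c a → π u = π v → π (k * u * k⁻¹) = π (k * v * k⁻¹) := fun {k u v} e m m' f => by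
    have m1 := mul_mem (inv_mem m) m'
    have := add m m1
    rw [mul_inv_cancel_left, f, left_eq_add, ker m1] at this
    rw [← mul_inv_cancel_left u v, ← conj_mul, add (h.q_cj m e) (h.q_cj m1 e), (ker (h.q_cj m1 e)).2 (h.zc_cj this e), add_zero]
  exact ⟨_, _, inferInstance, π, fun k => if e : k • a = a then (AddMonoidHom.mk' (fun m => π (k * s m * k⁻¹)) fun m m' => by
    rw [← add (h.q_cj (s1 m) e) (h.q_cj (s1 m') e), conj_mul]
    exact wd e (s1 _) (mul_mem (s1 m) (s1 m')) (by rw [add (s1 m) (s1 m'), s2, s2, s2])).toIntLinearMap else 1, add, ker, fun m => ⟨_, s1 m, s2 m⟩,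
    fun e m => by rw [dif_pos e]; exact wd e (s1 _) m (s2 _)⟩

end PG

namespace Fr

variable (F : Fr c a π A)
include F

theorem one : π 1 = 0 := (F.ker (one_mem _)).2 (one_mem _)
theorem inv (m : u ∈ Qg G c a) : π u⁻¹ = -π u := eq_neg_of_add_eq_zero_left (by rw [← F.add (inv_mem m) m, inv_mul_cancel, F.one])
theorem pow (m : u ∈ Qg G c a) (n : ℕ) : π (u ^ n) = n • π u := by
  induction n with
  | zero => simp [F.one]
  | succ n i => rw [pow_succ, F.add (pow_mem m n) m, i, succ_nsmul]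
theorem eq (m : u ∈ Qg G c a) (m' : v ∈ Qg G c a) : π u = π v ↔ u⁻¹ * v ∈ Zc G c a := by
  rw [← F.ker (mul_mem (inv_mem m) m'), F.add (inv_mem m) m', F.inv m, neg_add_eq_zero]
theorem A_one : A 1 = 1 := LinearMap.ext fun m => by obtain ⟨u, e, rfl⟩ := F.sur m; rw [F.act (one_smul ..) e]; simp

variable [Finite P] (h : PG p c W) (S : PS c)
include h

theorem A_mul (e : k • a = a) (e' : k' • a = a) : A (k * k') = A k * A k' := LinearMap.ext fun m => by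
  obtain ⟨u, m, rfl⟩ := F.sur m
  rw [Module.End.mul_apply, F.act (by rw [mul_smul, e', e]) m, F.act e' m, F.act e (h.q_cj m e')]; congr 1; group
theorem tc (e : k • a = a) (m : u ∈ Qg G c a) : π ⁅k, u⁆ = A k (π u) - π u := by
  rw [commutatorElement_def, F.add (h.q_cj m e) (inv_mem m), F.inv m, F.act e m, sub_eq_add_neg]

include S

theorem ext (n : ¬ c a b) {φ ψ : Module.End ℤ M} (e : ∀ y g, c a y → c b y → g ∈ Rt G c a y → φ (π g) = ψ (π g)) : φ = ψ :=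
  LinearMap.ext fun m => by
    obtain ⟨u, m, rfl⟩ := F.sur m
    exact ((h.q_tr S n ⟨⟨⟨{u | u ∈ Qg G c a ∧ φ (π u) = ψ (π u)}, fun e f => ⟨mul_mem e.1 f.1, by rw [F.add e.1 f.1, map_add, map_add, e.2, f.2]⟩⟩,
      one_mem _, by simp [F.one]⟩, fun e => ⟨inv_mem e.1, by rw [F.inv e.1, map_neg, map_neg, e.2]⟩⟩
        fun y g h1 h2 m => ⟨h.rt_q' S n h1 h2 m, e y g h1 h2 m⟩).2 m).2
theorem A_z (Z : Zi c W a b z) : A z = -1 := F.ext h S Z.n fun y g h1 h2 m => by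
  rw [F.act (Ka.fx Z.ka) (h.rt_q' S Z.n h1 h2 m), Z.ia h1 h2 m, F.inv (h.rt_q' S Z.n h1 h2 m)]; rfl
theorem exp (m : M) : p • m = 0 := by
  obtain ⟨b, n⟩ := h.exists_opp a
  exact DFunLike.congr_fun (F.ext h S n (φ := p • 1) (ψ := 0) fun y g h1 h2 m => by
    rw [LinearMap.smul_apply, Module.End.one_apply, ← F.pow (h.rt_q' S n h1 h2 m), (h.rt_pow S h1 (fun e => n (e ▸ S.symm h2)) m).1, F.one]; rfl) m
theorem half (m : M) : ((p + 1) / 2) • (m + m) = m := by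
  obtain ⟨k, e⟩ := h.odd
  rw [← two_nsmul, ← mul_nsmul', show (p + 1) / 2 * 2 = p + 1 by omega, succ_nsmul, F.exp h S, zero_add]
theorem zc (Z : Zi c W a b z) (m : u ∈ Qg G c a) : π ⁅u, z⁆ = π u + π u := by
  rw [← commutatorElement_inv, F.inv (h.q_cm' (Ka.fx Z.ka) m), F.tc h (Ka.fx Z.ka) m, F.A_z h S Z]; simp [add_comm]

end Fr

namespace PG

variable [Finite P] (h : PG p c W) (S : PS c)
include h S

theorem q_pow (m : u ∈ Qg G c a) : u ^ p ∈ Zc G c a := by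
  obtain ⟨M, _, _, π, A, F⟩ := h.fr_ex S a
  rw [← F.ker (pow_mem m p), F.pow m, F.exp h S]

theorem q_semi (m : u ∈ Qg G c a) (n : ¬ c a b) (f : u • b = b) : u = 1 := by
  obtain ⟨M, _, _, π, A, F⟩ := h.fr_ex S a
  obtain ⟨z, Z⟩ := h.zi_ex S n
  refine h.zc_semi S ((F.ker m).1 ?_) n f
  rw [← F.half h S (π u), ← F.zc h S Z m, cm_one.2 (h.zi_comm S Z (q_fx m) f), F.one, smul_zero]

theorem tk (l : c a y) (ne : a ≠ y) (e : γ ∈ Zc G c y) (g1 : γ ≠ 1) (m : u ∈ Qg G c a) (f : ⁅γ, u⁆ ∈ Zc G c a) : u • y = y := by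
  by_contra n
  exact g1 (h.tt S l ne (Ka.ln (q_ka m) l) (fun k => ne (MulAction.injective u ((q_fx m).trans k.symm))) n (inv_mem f) e (by
    simpa [commutatorElement_def, mul_assoc] using h.zc_cj e rfl (k := u)))
theorem tk' (l : c a y) (ne : a ≠ y) (e : γ ∈ Zc G c y) (m : u ∈ Qg G c a) (f : u • y = y) : ⁅γ, u⁆ = 1 :=
  h.zc_ka S l ne (by simpa [commutatorElement_def, mul_assoc] using mul_mem e (h.zc_cj (inv_mem e) f)) (q_ka (h.q_cm' (e a (S.symm l)) m))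
theorem tfix (l : c a y) (l' : c a x) (l1 : c x y) (e : γ ∈ Zc G c x) (m : u ∈ Qg G c a) : ⁅γ, u⁆ • y = y := by
  have := h.zc_cj (inv_mem e) (k := u) rfl y (Ka.ln (q_ka m) l' y l l1)
  rw [commutatorElement_def, mul_assoc, mul_assoc, mul_smul, ← mul_assoc, this, e y l1]

theorem an (l : c a y) (ne : a ≠ y) (e : γ ∈ Zc G c y) (g1 : γ ≠ 1) (m : u ∈ Qg G c a) (f : ⁅u, ⁅γ, u⁆⁆ = 1) : u • y = y := by
  by_contra n
  have l1 := Ka.ln (q_ka m) l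
  have l2 := Ka.ln (q_ka (mul_mem m m)) l
  have n2 : (u * u) • y ≠ y := fun k => n (by
    obtain ⟨j, o⟩ := h.odd
    have : u = (u ^ p)⁻¹ * (u * u) ^ (j + 1) := by rw [← sq, ← pow_mul, o]; group
    rw [this, mul_smul, MulAction.mem_stabilizer_iff.1 (pow_mem (MulAction.mem_stabilizer_iff.2 k) _), inv_mem (h.q_pow S m) y l])
  have e1 := h.zc_cj e (k := u) rfl
  refine g1 (h.tt S (S.col l l2 .right) n2 (S.span l l2 .right n2 l1) (fun k => n (MulAction.injective u ((mul_smul ..).symm.trans k.symm))) n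
    (h.zc_cj e (k := u * u) rfl) e ?_)
  convert mul_mem e1 e1 using 1
  calc _ = (u * ⁅γ, u⁆ * u⁻¹)⁻¹ * (u * γ * u⁻¹ * γ) := by simp [commutatorElement_def, mul_assoc]
    _ = _ := by rw [cj_eq (cm_one.1 f), (h.zc_comm S (S.col l l1 .right) n e1 e).eq, commutatorElement_def]; group

theorem mv (l : c a y) (ne : a ≠ y) : ∃ u ∈ Qg G c a, u • y ≠ y := by
  obtain ⟨x, h1, h2, h3⟩ := S.third l ne
  obtain ⟨w, w1, w2⟩ := S.exists_sep ne
  obtain ⟨u, m, f⟩ := h.rt_tr S (S.nsymm w2) (S.symm w1) (S.symm l) h1.symm h2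
  exact ⟨u, rt_q w1 (fun k => w2 (k ▸ S.symm l)) (Rt.symm m), f ▸ h3⟩

theorem zc_sur (e : ζ ∈ Zc G c a) : ∃ u ∈ Qg G c a, ∃ v ∈ Qg G c a, ζ = ⁅u, v⁆ := by
  obtain ⟨y, l, ne⟩ := S.rk a
  obtain ⟨u, m, f⟩ := h.mv S l ne.symm
  obtain ⟨k, rfl⟩ := h.tr a y
  have q : ∀ {δ}, δ ∈ Zc G c (k • a) → ⁅δ, u⁆ ∈ Qg G c a := fun e => h.q_cm' (e a (S.symm l)) m
  obtain ⟨δ, r⟩ := Finite.injective_iff_surjective.1 (show Function.Injective fun δ : Zc G c a =>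
    (⟨⁅u, ⁅k * δ * k⁻¹, u⁆⁆, h.q_cm S m (q (h.zc_cj δ.2 rfl))⟩ : Zc G c a) from fun δ δ' r => by
      have e1 := h.zc_cj δ.2 (k := k) rfl
      have e2 := h.zc_cj (mul_mem (inv_mem δ.2) δ'.2) (k := k) rfl
      replace r : ⁅u, ⁅k * δ * k⁻¹, u⁆⁆ = ⁅u, ⁅k * δ' * k⁻¹, u⁆⁆ := congrArg Subtype.val r
      rw [← mul_inv_cancel_left δ.1 δ', ← conj_mul, cm_l (k * δ * k⁻¹), cj_eq (cm_one.1 (h.tk' S l ne.symm e1 (q e2) (h.tfix S l l (S.refl _) e2 m))),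
        h.q_r S m (q e2) (q e1), eq_comm, mul_eq_right] at r
      by_contra n
      exact f (h.an S l ne.symm e2 (fun j => n (Subtype.ext (inv_mul_eq_one.1 (by simpa using j)))) m r)) ⟨ζ, e⟩
  exact ⟨u, m, _, q (h.zc_cj δ.2 rfl), (congrArg Subtype.val r).symm⟩

theorem zc_q (e : ζ ∈ Zc G c a) : ζ ∈ Qg G c a :=
  let ⟨_, m, _, m', r⟩ := h.zc_sur S e; r ▸ mul_mem (mul_mem (mul_mem m m') (inv_mem m)) (inv_mem m')

theorem cm_eq (m : u ∈ Qg G c a) (m' : v ∈ Qg G c a) (e : u⁻¹ * u' ∈ Zc G c a) (e' : v⁻¹ * v' ∈ Zc G c a) : ⁅u', v'⁆ = ⁅u, v⁆ := by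
  have := mul_mem m' (h.zc_q S e')
  rw [← mul_inv_cancel_left u u', ← mul_inv_cancel_left v v', h.q_l S m (h.zc_q S e) this, cm_one.2 (h.zq S e this), one_mul,
    h.q_r S m m' (h.zc_q S e'), cm_one.2 (h.zq S e' m).symm, mul_one]

theorem zc_z (Z : Zi c W a b z) (e : ζ ∈ Zc G c a) : Commute z ζ := by
  obtain ⟨M, _, _, π, A, F⟩ := h.fr_ex S a
  obtain ⟨u, m, v, m', rfl⟩ := h.zc_sur S e
  have k : ∀ {u}, u ∈ Qg G c a → u⁻¹⁻¹ * (z * u * z⁻¹) ∈ Zc G c a := fun m => (F.eq (inv_mem m) (h.q_cj m (Ka.fx Z.ka))).1 (by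
    rw [← F.act (Ka.fx Z.ka) m, F.A_z h S Z, F.inv m]; rfl)
  refine mul_inv_eq_iff_eq_mul.1 ?_
  rw [cm_cj, h.cm_eq S (inv_mem m) (inv_mem m') (k m) (k m'), ← cj_eq (h.zq S (h.q_cm S (inv_mem m) (inv_mem m')) (mul_mem m m')).symm]
  simp only [commutatorElement_def]; group

theorem dec (l : c a y) (ne : a ≠ y) (e : γ ∈ Zc G c y) (m : u ∈ Qg G c a) : ∃ r ∈ Rt G c a y, r⁻¹ * ⁅γ, u⁆ ∈ Zc G c a := by
  obtain ⟨M, _, _, π, A, F⟩ := h.fr_ex S a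
  obtain ⟨b, h1, n⟩ := S.exists_sep ne.symm
  obtain ⟨z, Z⟩ := h.zi_ex S n
  have e1 := h.zc_cj (inv_mem e) (k := u) rfl
  have f := e a (S.symm l)
  have m1 := h.rt_cj' (h.rc S Z l (S.symm h1) (Ka.ln (q_ka m) l) e1 fun v r => h.zc_z S Z (by
    simpa using h.zc_cj e1 (k := v⁻¹) (inv_smul_eq_iff.2 r.symm))) f (e y (S.refl y))
  have : γ * ⁅u * γ⁻¹ * u⁻¹, z⁆ * γ⁻¹ = ⁅⁅γ, u⁆, z⁆ := by
    rw [show ⁅γ, u⁆ = γ * (u * γ⁻¹ * u⁻¹) by rw [commutatorElement_def]; group, cm_l γ, cm_one.2 (h.zi_comm S Z f (e b h1)), mul_one]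
  rw [this] at m1
  exact ⟨_, pow_mem m1 ((p + 1) / 2), (F.eq (rt_q l ne (pow_mem m1 _)) (h.q_cm' f m)).1 (by
    rw [F.pow (rt_q l ne m1), F.zc h S Z (h.q_cm' f m), F.half h S])⟩

end PG

end CF.Tv
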