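import Cfsg.Agent.Tv.C2
import Cfsg.Agent.PLocal.Jordan

/-! `p`-transvections: the field of the long root groups. -/

set_option autoImplicit false
set_option linter.unusedSectionVars false

namespace CF.Tv

open CF.Fisch
open scoped MatrixGroups commutatorElement

universe u
variable {G : Type u} [Group G] [Finite G] {P : Type*} [MulAction G P]

/-- an element switching two opposite points -/
structure Sw (c : P → P → Prop) (a b : P) (α β μ : G) : Prop where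
  za : α ∈ Zc G c a
  zb : β ∈ Zc G c b
  eq : μ = α * β * α
  ab : μ • a = b
  ba : μ • b = a
  ua : ∀ {y u}, c a y → c b y → u ∈ Rt G c a y → (μ * u * μ⁻¹)⁻¹ * ⁅β, u⁆ ∈ Zc G c y ∧ μ * (μ * u * μ⁻¹) * μ⁻¹ = u⁻¹
  ub : ∀ {y v}, c a y → c b y → v ∈ Rt G c b y → (μ * v * μ⁻¹)⁻¹ * ⁅α, v⁆ ∈ Zc G c y

/-- the endomorphism attached to a central collineation -/
def Rho (c : P → P → Prop) (a b : P) {M : Type*} [AddCommGroup M] (π : G → M) (ν α : G) (φ : Module.End ℤ M) : Prop :=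
  ∀ y u, c a y → c b y → u ∈ Rt G c a y → ∃ r ∈ Rt G c a y, r⁻¹ * ⁅α, ν⁻¹ * u * ν⁆ ∈ Zc G c y ∧ φ (π u) = π r

/-- the field of the long root groups -/
structure Fk (c : P → P → Prop) (a b : P) {M : Type*} [AddCommGroup M] (π : G → M) (A : G → Module.End ℤ M) {k : Type*} [Field k]
    (ι : k →+* Module.End ℤ M) (κ : k → G) : Prop where
  z : ∀ e, κ e ∈ Zc G c a
  add : ∀ e e', κ (e + e') = κ e * κ e'
  inj : ∀ {e e'}, κ e = κ e' → e = e'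
  sur : ∀ {ζ}, ζ ∈ Zc G c a → ∃ e, κ e = ζ
  act : ∀ {e}, e ≠ 0 → ∃ g : G, g • a = a ∧ (∀ y δ, c a y → c b y → δ ∈ Zc G c y → Commute g δ) ∧ ι e = A g ∧
    ∀ e', g * κ e' * g⁻¹ = κ (e * e' * e)
  line : ∀ {y u}, c a y → c b y → u ∈ Qg G c a → ∃ w, ∀ δ ∈ Zc G c y, ∃ e, π ⁅δ, u⁆ = ι e w

variable {p : ℕ} {c : P → P → Prop} {W : P → Set G} {a b b' d r w x y x' y' : P} {α α' α₀ β β₀ γ δ ξ ζ g g' k k' u u' v v' s μ ν z z' : G}
  {M : Type*} [AddCommGroup M] {π : G → M} {A : G → Module.End ℤ M} {φ ψ : Module.End ℤ M}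

theorem Sw.fx (w : Sw c a b α β μ) (h1 : c a y) (h2 : c b y) : μ • y = y := by
  rw [w.eq, mul_smul, mul_smul, w.za y h1, w.zb y h2, w.za y h1]
theorem Sw.ia (w : Sw c a b α β μ) : μ⁻¹ • a = b := inv_smul_eq_iff.2 w.ba.symm
theorem Sw.ib (w : Sw c a b α β μ) : μ⁻¹ • b = a := inv_smul_eq_iff.2 w.ab.symm

namespace PG

variable [Finite P] (h : PG p c W) (S : PS c)
include h S

theorem rt_ne (n : ¬ c a b) (h1 : c a y) (h2 : c b y) : ∃ u ∈ Rt G c a y, u ≠ 1 := by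
  obtain ⟨x, l, n1, n2⟩ := S.third h2 fun e => n (e ▸ h1)
  obtain ⟨u, m, e⟩ := h.rt_tr S n h1 h2 l n2
  exact ⟨u, m, fun f => n1 (by rw [← e, f, one_smul])⟩

theorem zc_tr (n : ¬ c a b) (l : Ln c a b x) (n' : ¬ c b x) : ∃ β ∈ Zc G c b, β • a = x := by
  obtain ⟨β, m, e⟩ := h.q_tr' S (S.nsymm n) n'
  exact ⟨β, h.q_fix S (S.nsymm n) m fun y h1 h2 => S.uq h1 (Ka.ln (q_ka m) h1) .right .left
    (by rw [← e, h.aut]; exact S.symm h2) (S.symm (l y h2 h1)) n', e⟩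

theorem kf (n : ¬ c a b) (e : α ∈ Zc G c a) (a1 : α ≠ 1) : ∃ β μ, Sw c a b α β μ := by
  obtain ⟨β, e', f⟩ := h.zc_tr S n (h.zc_ln (inv_mem e) b) (h.zc_opp S (inv_mem e) n (inv_ne_one.2 a1))
  have ab : (α * β * α) • a = b := by rw [mul_smul, mul_smul, e a (S.refl a), f, smul_inv_smul]
  have fy : ∀ {y}, c a y → c b y → (α * β * α) • y = y := fun h1 h2 => by rw [mul_smul, mul_smul, e _ h1, e' _ h2, e _ h1]
  generalize hμ : α * β * α = μ at ab fy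
  have key : ∀ {y u}, c a y → c b y → u ∈ Rt G c a y → (μ * u * μ⁻¹)⁻¹ * ⁅β, u⁆ ∈ Zc G c y ∧
      u * (μ * (μ * u * μ⁻¹) * μ⁻¹) ∈ Zc G c y ∧ (μ * (μ * u * μ⁻¹) * μ⁻¹)⁻¹ * ⁅α, μ * u * μ⁻¹⁆ ∈ Zc G c y := fun {y u} h1 h2 m => by
    obtain ⟨M, _, _, π, A, F⟩ := h.fr_ex S y
    have ya : y ≠ a := fun k => n (S.symm (k ▸ h2))
    have yb : y ≠ b := fun k => n (k ▸ h1)
    have qa : ∀ {g}, g ∈ Rt G c a y → g ∈ Qg G c y := fun m => rt_q (S.symm h1) ya (Rt.symm m)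
    have qb : ∀ {g}, g ∈ Rt G c b y → g ∈ Qg G c y := fun m => rt_q (S.symm h2) yb (Rt.symm m)
    have ta : ∀ {g}, g ∈ Rt G c a y → A α (π g) = π g := fun m => by
      rw [F.act (e y h1) (qa m), cj_eq (h.zq S e (rt_q h1 ya.symm m))]
    have tb : ∀ {g}, g ∈ Rt G c b y → A β (π g) = π g := fun m => by
      rw [F.act (e' y h2) (qb m), cj_eq (h.zq S e' (rt_q h2 yb.symm m))]
    have Aμ : ∀ m, A μ m = A α (A β (A α m)) := fun m => by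
      rw [← hμ, F.A_mul h (by rw [mul_smul, e' y h2, e y h1]) (e y h1), F.A_mul h (e y h1) (e' y h2)]; rfl
    have m1 := h.rt_cj' m ab (fy h1 h2)
    obtain ⟨s, ms, es⟩ := h.dec S (S.symm h2) yb e' (qa m)
    replace ms := Rt.symm ms
    obtain ⟨r, mr, er⟩ := h.dec S (S.symm h1) ya e (qb ms)
    replace mr := Rt.symm mr
    rw [← F.eq (qb ms) (h.q_cm' (e' y h2) (qa m)), F.tc h (e' y h2) (qa m), eq_sub_iff_add_eq, eq_comm] at es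
    rw [← F.eq (qa mr) (h.q_cm' (e y h1) (qb ms)), F.tc h (e y h1) (qb ms), eq_sub_iff_add_eq, eq_comm] at er
    have e1 := F.act (fy h1 h2) (qa m)
    rw [Aμ, ta m, es, map_add, er, ta m] at e1
    have e2 : r * u = 1 := h.rt_semi S (mul_mem mr m) n h1 h2 (by
      have := (F.eq (qa (mul_mem mr m)) (qb (mul_mem m1 (inv_mem ms)))).1 (by
        rw [F.add (qa mr) (qa m), F.add (qb m1) (qb (inv_mem ms)), F.inv (qb ms), ← e1]; abel) b (S.symm h2)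
      rwa [mul_smul, Ka.fx (mul_mem m1 (inv_mem ms)).1, inv_smul_eq_iff, eq_comm] at this)
    have e3 : π r = -π u := by rw [eq_neg_iff_add_eq_zero, ← F.add (qa mr) (qa m), e2, F.one]
    rw [e3] at e1 er
    replace e1 : π (μ * u * μ⁻¹) = π s := by rw [← e1]; abel
    have m2 := h.q_cj (qb m1) (fy h1 h2)
    have e4 := F.act (fy h1 h2) (qb m1)
    rw [Aμ, e1, er, map_add, map_neg, es, tb ms, show -(π s + π u) + π s = -π u by abel, map_neg, ta m, eq_comm] at e4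
    refine ⟨(F.eq (qb m1) (h.q_cm' (e' y h2) (qa m))).1 ?_, (F.ker (mul_mem (qa m) m2)).1 ?_, (F.eq m2 (h.q_cm' (e y h1) (qb m1))).1 ?_⟩
    · rw [F.tc h (e' y h2) (qa m), es, e1]; abel
    · rw [F.add (qa m) m2, e4, add_neg_cancel]
    · rw [F.tc h (e y h1) (qb m1), e4, e1, er]; abel
  have ba : μ • b = a := by
    obtain ⟨y, h1, h2⟩ := S.exists_perp n
    obtain ⟨u, m, u1⟩ := h.rt_ne S n h1 h2
    have l : Ln c a b (μ • b) := fun w k1 k2 => by rwa [← fy k1 k2, h.aut]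
    by_contra f
    refine u1 (h.rt_semi S m (fun k => f (S.hyp0 n l k)) h1 (l y h1 h2) ?_)
    have := (key h1 h2 m).2.1 _ (S.symm (l y h1 h2))
    rwa [mul_smul, Ka.fx (h.rt_cj (h.rt_cj' m ab (fy h1 h2)) μ).1] at this
  refine ⟨β, μ, e, e', hμ.symm, ab, ba, fun {y u} h1 h2 m => ⟨(key h1 h2 m).1, eq_inv_of_mul_eq_one_right (h.rt_zc S
    (Rt.symm (mul_mem m (h.rt_cj' (h.rt_cj' m ab (fy h1 h2)) ba (fy h1 h2)))) (S.symm h1) (fun k => n (S.symm (k ▸ h2))) (key h1 h2 m).2.1)⟩,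
    fun {y v} h1 h2 m => ?_⟩
  simpa [mul_assoc] using (key h1 h2 (h.rt_cj' m (k := μ⁻¹) (inv_smul_eq_iff.2 ab.symm) (inv_fx (fy h1 h2)))).2.2

end PG

theorem rho_one (F : Fr c a π A) : Rho c a b π ν 1 0 := fun _ _ _ _ _ => ⟨1, one_mem _, by simp, by simp [F.one]⟩

namespace Sw

variable [Finite P] (w₀ : Sw c a b α₀ β₀ ν) (F : Fr c a π A) (h : PG p c W) (S : PS c) (n : ¬ c a b)
include w₀ F h S n

omit F n S in
theorem rb (h1 : c a y) (h2 : c b y) (m : u ∈ Rt G c a y) : ν⁻¹ * u * ν ∈ Rt G c b y := by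
  simpa using h.rt_cj' m w₀.ia (inv_fx (w₀.fx h1 h2))

omit F n S h in
theorem ka (w : Sw c a b α β μ) : (μ * ν⁻¹) • a = a := by rw [mul_smul, w₀.ia, w.ba]

theorem rho_sw (w : Sw c a b α β μ) : Rho c a b π ν α (A (μ * ν⁻¹)) := fun y u h1 h2 m =>
  ⟨_, h.rt_cj' (w₀.rb h h1 h2 m) w.ba (w.fx h1 h2), w.ub h1 h2 (w₀.rb h h1 h2 m), by
    rw [F.act (w₀.ka w) (h.rt_q' S n h1 h2 m)]; congr 1; group⟩

omit w₀ in
theorem rho_uq (r1 : Rho c a b π ν α φ) (r2 : Rho c a b π ν α ψ) : φ = ψ := F.ext h S n fun y u h1 h2 m => by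
  obtain ⟨r, m1, e1, f1⟩ := r1 y u h1 h2 m
  obtain ⟨s, m2, e2, f2⟩ := r2 y u h1 h2 m
  rw [f1, f2, inv_mul_eq_one.1 (h.rt_zc S (Rt.symm (mul_mem (inv_mem m1) m2)) (S.symm h1) (fun k => n (S.symm (k ▸ h2))) (by
    convert mul_mem e1 (inv_mem e2) using 1; group))]

omit w₀ in
theorem rho_add (e : α ∈ Zc G c a) (r1 : Rho c a b π ν α φ) (r2 : Rho c a b π ν α' ψ) : Rho c a b π ν (α * α') (φ + ψ) := fun y u h1 h2 m => by
  obtain ⟨r, m1, e1, f1⟩ := r1 y u h1 h2 m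
  obtain ⟨s, m2, e2, f2⟩ := r2 y u h1 h2 m
  have ay : a ≠ y := fun k => n (S.symm (k ▸ h2))
  refine ⟨s * r, mul_mem m2 m1, ?_, by rw [LinearMap.add_apply, f1, f2, F.add (rt_q h1 ay m2) (rt_q h1 ay m1), add_comm]⟩
  rw [cm_l, ← mul_inv_cancel_left s ⁅α', _⁆, cj_eq ((h.zq S e (rt_q h1 ay m2)).mul_right (h.zc_comm S h1 ay e e2))]
  simpa [mul_assoc] using mul_mem (h.zc_cj e2 (inv_fx (Ka.fx m1.2.1))) e1

theorem rho_ex (e : α ∈ Zc G c a) : ∃ φ, Rho c a b π ν α φ := by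
  by_cases a1 : α = 1
  · exact ⟨0, a1 ▸ rho_one F⟩
  obtain ⟨β, μ, w⟩ := h.kf S n e a1
  exact ⟨_, w₀.rho_sw F h S n w⟩

theorem rho_neg (e : α ∈ Zc G c a) (r1 : Rho c a b π ν α φ) : Rho c a b π ν α⁻¹ (-φ) := by
  obtain ⟨ψ, r2⟩ := w₀.rho_ex F h S n (inv_mem e)
  have := rho_add F h S n e r1 r2
  rw [mul_inv_cancel] at this
  rwa [neg_eq_of_add_eq_zero_right (rho_uq F h S n this (rho_one F))]

omit w₀ n in
theorem nt : Nontrivial (Module.End ℤ M) := by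
  obtain ⟨y, l, ne⟩ := S.rk a
  obtain ⟨u, m, f⟩ := h.mv S l ne.symm
  exact ⟨1, 0, fun e => f ((F.ker m).1 (DFunLike.congr_fun e _) y l)⟩

theorem A_inv (w : Sw c a b α β μ) : A (μ * ν⁻¹) * A (ν * μ⁻¹) = 1 := by
  rw [← F.A_mul h (w₀.ka w) (w.ka w₀), ← F.A_one]; congr 1; group

theorem rho_inj (e : α ∈ Zc G c a) (e' : α' ∈ Zc G c a) (r1 : Rho c a b π ν α φ) (r2 : Rho c a b π ν α' φ) : α = α' := by
  have := rho_add F h S n (inv_mem e) (w₀.rho_neg F h S n e r1) r2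
  by_contra f
  obtain ⟨β, μ, w⟩ := h.kf S n (mul_mem (inv_mem e) e') fun k => f (inv_mul_eq_one.1 k)
  have k := w₀.A_inv F h S n w
  rw [rho_uq F h S n (w₀.rho_sw F h S n w) this, neg_add_cancel, zero_mul] at k
  haveI := nt F h S
  exact zero_ne_one k

theorem rho_inv (w : Sw c a b α β μ) : Rho c a b π ν (ν * β * ν⁻¹) (A (ν * μ⁻¹)) := fun y u h1 h2 m => by
  refine ⟨_, h.rt_cj' m (w.ka w₀) (by rw [mul_smul, inv_fx (w.fx h1 h2), w₀.fx h1 h2]), ?_, F.act (w.ka w₀) (h.rt_q' S n h1 h2 m)⟩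
  convert h.zc_cj (w.ua h1 h2 (inv_mem m)).1 (w₀.fx h1 h2) using 1
  have e1 := (w₀.ua h1 h2 (inv_mem m)).2
  have e2 := (w.ua h1 h2 (inv_mem m)).2
  rw [inv_inv] at e1 e2
  rw [← conj_mul, cm_cj]
  congr 2
  · nth_rw 1 [← e2]; group
  · nth_rw 1 [← e1]; group

theorem rho_conj (w : Sw c a b α β μ) (r1 : Rho c a b π ν α' φ) :
    Rho c a b π ν (μ * ν⁻¹ * α' * (μ * ν⁻¹)⁻¹) (A (μ * ν⁻¹) * φ * A (μ * ν⁻¹)) := fun y u h1 h2 m => by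
  have fy : (μ * ν⁻¹) • y = y := by rw [mul_smul, inv_fx (w₀.fx h1 h2), w.fx h1 h2]
  have m1 := h.rt_cj' m (w₀.ka w) fy
  obtain ⟨r, m2, e, f⟩ := r1 y _ h1 h2 m1
  refine ⟨_, h.rt_cj' m2 (w₀.ka w) fy, ?_, by
    rw [Module.End.mul_apply, Module.End.mul_apply, F.act (w₀.ka w) (h.rt_q' S n h1 h2 m), f, F.act (w₀.ka w) (h.rt_q' S n h1 h2 m2)]⟩
  convert h.zc_cj e fy using 1
  have m3 := h.rt_cj' (w₀.rb h h1 h2 m) w.ib (inv_fx (w.fx h1 h2))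
  have e1 := (w₀.ua h1 h2 m3).2.trans (w.ua h1 h2 m3).2.symm
  rw [← conj_mul, cm_cj]
  congr 2
  · group
  · calc _ = μ * ν⁻¹ * ν⁻¹ * (ν * (ν * (μ⁻¹ * (ν⁻¹ * u * ν) * μ⁻¹⁻¹) * ν⁻¹) * ν⁻¹) * (μ * ν⁻¹ * ν⁻¹)⁻¹ := by group
      _ = _ := by rw [e1]; simp [mul_assoc]

theorem rho_line (h1 : c a y) (h2 : c b y) (m : u ∈ Qg G c a) :
    ∃ w, ∀ δ ∈ Zc G c y, ∀ φ : G → Module.End ℤ M, (∀ α ∈ Zc G c a, Rho c a b π ν α (φ α)) → ∃ α ∈ Zc G c a, π ⁅δ, u⁆ = φ α w := by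
  have ay : a ≠ y := fun k => n (S.symm (k ▸ h2))
  by_cases f : u • y = y
  · exact ⟨0, fun δ e φ _ => ⟨1, one_mem _, by rw [h.tk' S h1 ay e m f, F.one, map_zero]⟩⟩
  obtain ⟨v, mv, ev⟩ := h.rt_tr S (S.nsymm n) h2 h1 (Ka.ln (q_ka m) h1) f
  have m0 := h.rt_cj' mv w₀.ba (w₀.fx h1 h2)
  refine ⟨-π (ν * v * ν⁻¹), fun δ e φ hφ => ?_⟩
  have e1 := h.zc_cj (h.zc_cj (inv_mem e) (k := u) rfl) (k := v⁻¹) (inv_smul_eq_iff.2 ev.symm)
  obtain ⟨r, mr, er, fr⟩ := hφ _ e1 y _ h1 h2 m0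
  refine ⟨_, e1, ?_⟩
  have q1 := h.q_cm' (e a (S.symm h1)) m
  have q2 := mul_mem q1 (inv_mem (h.zc_q S e1))
  have := h.zc_ka S h1 ay (mul_mem e (inv_mem er)) (by
    convert q_ka (mul_mem q2 (rt_q h1 ay mr)) using 1; simp [commutatorElement_def, mul_assoc])
  have k := F.add q1 (inv_mem (h.zc_q S e1))
  rw [(F.ker (inv_mem (h.zc_q S e1))).2 (inv_mem e1), add_zero] at k
  rw [map_neg, fr, eq_neg_iff_add_eq_zero, ← k, ← F.add q2 (rt_q h1 ay mr), ← F.one, ← this]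
  congr 1; simp [commutatorElement_def, mul_assoc]

end Sw

theorem Fr.fk_ex [Finite P] [Finite M] (F : Fr c a π A) (h : PG p c W) (S : PS c) (n : ¬ c a b) :
    ∃ (k : Type) (_ : Field k) (_ : Fintype k) (ι : k →+* Module.End ℤ M) (κ : k → G), Fk c a b π A ι κ := by
  obtain ⟨α₀, m⟩ := h.ne a
  obtain ⟨β₀, ν, w₀⟩ := h.kf S n (h.w_zc m) (h.ne_one m)
  haveI := Sw.nt F h S
  haveI : Finite (Module.End ℤ M) := DFunLike.finite _
  obtain ⟨k, _, _, ι, hι⟩ := CF.PLocal.exists_field_of_jordan (R := Module.End ℤ M) ⟨⟨⟨{φ | ∃ α ∈ Zc G c a, Rho c a b π ν α φ},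
    fun ⟨α, e, r⟩ ⟨α', e', r'⟩ => ⟨_, mul_mem e e', Sw.rho_add F h S n e r r'⟩⟩, 1, one_mem _, rho_one F⟩,
    fun ⟨α, e, r⟩ => ⟨_, inv_mem e, w₀.rho_neg F h S n e r⟩⟩ ⟨α₀, w₀.za, by simpa [F.A_one] using w₀.rho_sw F h S n w₀⟩ (by
      rintro φ ⟨α, e, r⟩ f
      obtain ⟨β, μ, w⟩ := h.kf S n e fun k => f (Sw.rho_uq F h S n r (k ▸ rho_one F))
      exact ⟨_, ⟨_, h.zc_cj w.zb w₀.ba, w₀.rho_inv F h S n w⟩, by rw [Sw.rho_uq F h S n r (w₀.rho_sw F h S n w), w₀.A_inv F h S n w]⟩)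
  choose κ z r using fun e => (hι (ι e)).2 ⟨e, rfl⟩
  have sur : ∀ ζ, ∃ e, ζ ∈ Zc G c a → κ e = ζ := fun ζ => by
    by_cases e : ζ ∈ Zc G c a
    · obtain ⟨φ, r1⟩ := w₀.rho_ex F h S n e
      obtain ⟨s, rfl⟩ := (hι φ).1 ⟨ζ, e, r1⟩
      exact ⟨s, fun _ => w₀.rho_inj F h S n (z s) e (r s) r1⟩
    · exact ⟨0, fun f => (e f).elim⟩
  refine ⟨k, inferInstance, inferInstance, ι, κ, z, fun e e' => w₀.rho_inj F h S n (z _) (mul_mem (z e) (z e')) (r _)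
    (map_add ι e e' ▸ Sw.rho_add F h S n (z e) (r e) (r e')), fun {e e'} f => ι.injective (Sw.rho_uq F h S n (r e) (f ▸ r e')),
    fun {ζ} e => let ⟨s, f⟩ := sur ζ; ⟨s, f e⟩, fun {e} e0 => ?_, fun {y u} h1 h2 m => ?_⟩
  · obtain ⟨β, μ, w⟩ := h.kf S n (z e) fun k => e0 (ι.injective ((Sw.rho_uq F h S n (r e) (k ▸ rho_one F)).trans (map_zero ι).symm))
    have e1 := Sw.rho_uq F h S n (r e) (w₀.rho_sw F h S n w)
    refine ⟨μ * ν⁻¹, w₀.ka w, fun y δ h1 h2 m => ?_, e1, fun e' => w₀.rho_inj F h S n (h.zc_cj (z e') (w₀.ka w)) (z _)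
      (w₀.rho_conj F h S n w (r e')) (by simpa [e1] using r (e * e' * e))⟩
    have k : ∀ {α β μ}, Sw c a b α β μ → Commute μ δ := fun w => by
      have k1 := h.zc_comm S h1 (fun k => n (S.symm (k ▸ h2))) w.za m
      rw [w.eq]
      exact (k1.mul_left (h.zc_comm S h2 (fun k => n (k ▸ h1)) w.zb m)).mul_left k1
    exact (k w).mul_left (k w₀).inv_left
  · choose s hs using sur
    obtain ⟨w, f⟩ := w₀.rho_line F h S n h1 h2 m
    exact ⟨w, fun δ e => let ⟨α, _, e1⟩ := f δ e (fun α => ι (s α)) (fun α e => by simpa [hs α e] using r (s α)); ⟨_, e1⟩⟩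

end CF.Tv
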