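import Cfsg.Agent.Tv.C3

/-! `p`-transvections: coordinates of the unipotent radical. -/

set_option autoImplicit false
set_option linter.unusedSectionVars false

namespace CF.Tv

open CF.Fisch
open scoped MatrixGroups commutatorElement

theorem scal_of {k M : Type*} [Field k] [AddCommGroup M] [Module k M] {A B : Module.End k M} (e : ∀ m, ∃ s : k, A m = s • B m) :
    ∃ s : k, A = s • B := by
  by_cases h0 : ∀ m, B m = 0
  · exact ⟨0, LinearMap.ext fun m => by obtain ⟨s, f⟩ := e m; simp [f, h0]⟩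
  obtain ⟨m₀, n⟩ := not_forall.1 h0
  obtain ⟨s₀, f₀⟩ := e m₀
  refine ⟨s₀, LinearMap.ext fun m => ?_⟩
  by_cases hc : ∃ c : k, B m = c • B m₀
  · obtain ⟨c, hc⟩ := hc
    obtain ⟨s, f⟩ := e (m - c • m₀)
    simp only [map_sub, map_smul, hc, sub_self, smul_zero, sub_eq_zero, f₀] at f
    rw [f, LinearMap.smul_apply, hc, smul_comm]
  obtain ⟨s, f⟩ := e m
  obtain ⟨s', f'⟩ := e (m + m₀)
  have k : (s - s') • B m = (s' - s₀) • B m₀ := by
    rw [map_add, map_add, f, f₀] at f'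
    linear_combination (norm := module) f'
  by_cases e1 : s - s' = 0
  · rw [e1, zero_smul, eq_comm, smul_eq_zero, or_iff_left n, sub_eq_zero] at k
    rw [f, sub_eq_zero.1 e1, k]; rfl
  · exact (hc ⟨(s - s')⁻¹ * (s' - s₀), by rw [mul_smul, ← k, smul_smul, inv_mul_cancel₀ e1, one_smul]⟩).elim

theorem bil_of {k M : Type*} [Field k] [Fintype k] [AddCommGroup M] [Module k M] {f : M → M → k}
    (l : ∀ m m' n, f (m + m') n = f m n + f m' n) (r : ∀ m n n', f m (n + n') = f m n + f m n')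
    (q : ∀ (s : k) m n, f (s • m) (s • n) = s * f m n * s) (s : k) (m n : M) : f (s • m) n = s * f m n := by
  have e : ∀ m, f (s • m) n + f m (s • n) = 2 * s * f m n := fun m => by
    have := q (s + 1) m n
    rw [add_smul, add_smul, one_smul, one_smul, l, r, r, q] at this
    linear_combination this
  have b : ∀ i : ℕ, f (s ^ (i + 1) • m) n - s * f (s ^ i • m) n = s ^ i * (f (s • m) n - s * f m n) := fun i => by
    induction i with
    | zero => simp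
    | succ i ih =>
      have := e (s ^ (i + 1) • m)
      rw [smul_smul, ← pow_succ', pow_succ' s i, mul_smul, q, smul_smul, ← pow_succ'] at this
      rw [pow_succ s i] at *
      linear_combination this + s * ih
  have a : ∀ i : ℕ, f (s ^ (i + 1) • m) n = s ^ (i + 1) * f m n + ((i + 1 : ℕ) : k) * s ^ i * (f (s • m) n - s * f m n) := fun i => by
    induction i with
    | zero => simp
    | succ i ih => push_cast at *; linear_combination b (i + 1) + s * ih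
  have := a (Fintype.card k - 1)
  rwa [Nat.sub_add_cancel Fintype.card_pos, FiniteField.pow_card, FiniteField.cast_card_eq_zero, zero_mul, zero_mul, add_zero] at this

universe u
variable {G : Type u} [Group G] [Finite G] {P : Type*} [MulAction G P] [Finite P]
variable {p : ℕ} {c : P → P → Prop} {W : P → Set G} {a b x y : P} {γ δ u v z : G}
  {M : Type*} [AddCommGroup M] {π : G → M} {A : G → Module.End ℤ M} {k : Type*} [Field k] [Fintype k]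
  {ι : k →+* Module.End ℤ M} {κ : k → G}

theorem Fk.zero (K : Fk c a b π A ι κ) : κ 0 = 1 := by simpa using K.add 0 0

namespace Fr

variable (F : Fr c a π A) (K : Fk c a b π A ι κ) (h : PG p c W) (S : PS c) (n : ¬ c a b)
include F K h S

theorem char : (p : k) = 0 := by
  haveI := Sw.nt F h S
  exact ι.injective (LinearMap.ext fun m => by simpa using F.exp h S m)

theorem two : (2 : k) ≠ 0 := by
  haveI := ringChar.of_eq (CharP.ringChar_of_prime_eq_zero h.prime (F.char K h S))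
  exact h.two_ne k

theorem half' {ζ : G} {s : k} (e : ζ ∈ Zc G c a) (f : ζ * ζ = κ s) : ζ = κ (s / 2) := by
  obtain ⟨t, rfl⟩ := K.sur e
  rw [← K.add] at f
  rw [← K.inj f, ← two_mul, mul_div_cancel_left₀ _ (F.two K h S)]

theorem sig_ex (Z : Zi c W a b z) : ∃ σ : M → G, (∀ m, σ m ∈ Qg G c a) ∧ (∀ m, π (σ m) = m) ∧ (∀ m, z * σ m * z⁻¹ = (σ m)⁻¹) ∧
    ∀ u ∈ Qg G c a, z * u * z⁻¹ = u⁻¹ → σ (π u) = u := by
  choose s s1 s2 using F.sur
  have q : ∀ m, ⁅s m, z⁆ ∈ Qg G c a := fun m => commutatorElement_inv z (s m) ▸ inv_mem (h.q_cm' (Ka.fx Z.ka) (s1 m))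
  have e1 : ∀ m, π (⁅s m, z⁆ ^ ((p + 1) / 2)) = m := fun m => by rw [F.pow (q m), F.zc h S Z (s1 m), F.half h S, s2]
  have e2 : ∀ m, z * ⁅s m, z⁆ ^ ((p + 1) / 2) * z⁻¹ = (⁅s m, z⁆ ^ ((p + 1) / 2))⁻¹ := fun m => by
    rw [← conj_pow, ← inv_pow]; congr 1
    simp [commutatorElement_def, mul_assoc, inv_eq_of_mul_eq_one_right Z.sq, Z.sq]
  refine ⟨_, fun m => pow_mem (q m) _, e1, e2, fun u m f => ?_⟩
  have m1 := pow_mem (q (π u)) ((p + 1) / 2)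
  have e3 := (F.eq m m1).1 (e1 _).symm
  have e4 := e2 (π u)
  generalize ⁅s (π u), z⁆ ^ ((p + 1) / 2) = v at m1 e3 e4
  have := F.half' K h S e3 (s := 0) (by
    rw [K.zero]; nth_rw 2 [← cj_eq (h.zc_z S Z e3)]
    rw [← conj_mul, ← conj_inv, f, e4, inv_inv, ← mul_assoc, (h.zq S e3 m).eq]; group)
  rw [zero_div, K.zero] at this
  exact (inv_mul_eq_one.1 this).symm

variable [Module k M] (hs : ∀ (s : k) (m : M), s • m = ι s m)
include hs

theorem f_ex : ∃ f : LinearMap.BilinForm k M, ∀ u ∈ Qg G c a, ∀ v ∈ Qg G c a, κ (f (π u) (π v)) = ⁅u, v⁆ := by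
  choose s s1 s2 using F.sur
  choose f e using fun m m' => K.sur (h.q_cm S (s1 m) (s1 m'))
  replace e : ∀ {u v}, u ∈ Qg G c a → v ∈ Qg G c a → κ (f (π u) (π v)) = ⁅u, v⁆ := fun m m' =>
    (e ..).trans (h.cm_eq S m m' ((F.eq m (s1 _)).1 (s2 _).symm) ((F.eq m' (s1 _)).1 (s2 _).symm))
  have l : ∀ m m' n, f (m + m') n = f m n + f m' n := fun m m' n => K.inj (by
    rw [← s2 m, ← s2 m', ← s2 n, ← F.add (s1 _) (s1 _), e (mul_mem (s1 _) (s1 _)) (s1 _), add_comm, K.add, e (s1 _) (s1 _), e (s1 _) (s1 _),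
      h.q_l S (s1 _) (s1 _) (s1 _)])
  have r : ∀ m n n', f m (n + n') = f m n + f m n' := fun m n n' => K.inj (by
    rw [← s2 m, ← s2 n', ← s2 n, ← F.add (s1 _) (s1 _), e (s1 _) (mul_mem (s1 _) (s1 _)), K.add, e (s1 _) (s1 _), e (s1 _) (s1 _),
      h.q_r S (s1 _) (s1 _) (s1 _)])
  have q : ∀ (t : k) m n, f (t • m) (t • n) = t * f m n * t := fun t m n => by
    by_cases t0 : t = 0
    · simpa [t0] using l 0 0 0
    obtain ⟨g, g1, -, g2, g3⟩ := K.act t0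
    refine K.inj ?_
    rw [← g3, hs, hs, g2, ← s2 m, ← s2 n, F.act g1 (s1 _), F.act g1 (s1 _), e (h.q_cj (s1 _) g1) (h.q_cj (s1 _) g1), e (s1 _) (s1 _), cm_cj]
  exact ⟨LinearMap.mk₂ k f l (bil_of l r q) r fun t m n => bil_of (f := fun m n => f n m) (fun _ _ _ => r ..) (fun _ _ _ => l ..)
    (fun _ _ _ => q ..) t n m, fun u m v m' => e m m'⟩

omit S in
theorem t_ex : ∃ T : G → Module.End k M, ∀ {y δ}, c a y → c b y → δ ∈ Zc G c y → ∀ m, T δ m = A δ m - m := by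
  classical
  refine ⟨fun δ => if e : ∀ (s : k) m, A δ (s • m) = s • A δ m then ⟨⟨A δ, map_add _⟩, e⟩ - 1 else 0, fun {y δ} h1 h2 e m => ?_⟩
  beta_reduce
  rw [dif_pos]; · rfl
  intro s m
  by_cases s0 : s = 0
  · simp [s0]
  obtain ⟨g, g1, g2, g3, -⟩ := K.act s0
  rw [hs, hs, g3, ← Module.End.mul_apply, ← Module.End.mul_apply, ← F.A_mul h g1 (e a (h.symm h1)), (g2 y δ h1 h2 e).eq,
    F.A_mul h (e a (h.symm h1)) g1]

end Fr

theorem PG.qd (h : PG p c W) (S : PS c) : ∃ (a b : P) (k : Type) (_ : Field k) (_ : Fintype k) (M : Type u) (_ : AddCommGroup M)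
    (_ : Module k M) (_ : Finite M) (f : LinearMap.BilinForm k M) (t : P → Module.End k M) (n : M → k → G),
    ringChar k = p ∧ QD c a b f t n := by
  obtain ⟨a, b, n⟩ := h.two
  obtain ⟨M, _, _, π, A, F⟩ := h.fr_ex S a
  obtain ⟨k, _, _, ι, κ, K⟩ := F.fk_ex h S n
  letI : Module k M := Module.compHom M ι
  have hs : ∀ (s : k) (m : M), s • m = ι s m := fun _ _ => rfl
  obtain ⟨z, Z⟩ := h.zi_ex S n
  obtain ⟨σ, σ1, σ2, σ3, σ4⟩ := F.sig_ex K h S Z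
  obtain ⟨f, hf⟩ := F.f_ex K h S hs
  obtain ⟨T, hT⟩ := F.t_ex K h hs
  choose γ hγ using h.ne
  have gz := fun y => h.w_zc (hγ y)
  have ne : ∀ {y}, c b y → a ≠ y := fun h2 e => n (S.symm (e ▸ h2))
  have f0 : ∀ {u v}, u ∈ Qg G c a → v ∈ Qg G c a → (f (π u) (π v) = 0 ↔ ⁅u, v⁆ = 1) := fun m m' =>
    ⟨fun e => by rw [← hf _ m _ m', e, K.zero], fun e => K.inj (by rw [hf _ m _ m', e, K.zero])⟩
  have Tc : ∀ {y δ u}, c a y → c b y → δ ∈ Zc G c y → u ∈ Qg G c a → T δ (π u) = π ⁅δ, u⁆ := fun h1 h2 e m => by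
    rw [hT h1 h2 e, F.tc h (e a (S.symm h1)) m]
  have T0 : ∀ {y δ u}, c a y → c b y → δ ∈ Zc G c y → u ∈ Qg G c a → u • y = y → T δ (π u) = 0 := fun h1 h2 e m f => by
    rw [Tc h1 h2 e m, h.tk' S h1 (ne h2) e m f, F.one]
  have T1 : ∀ {y δ u}, c a y → c b y → δ ∈ Zc G c y → δ ≠ 1 → u ∈ Qg G c a → T δ (π u) = 0 → u • y = y := fun h1 h2 e d1 m f =>
    h.tk S h1 (ne h2) e d1 m ((F.ker (h.q_cm' (e a (S.symm h1)) m)).1 (Tc h1 h2 e m ▸ f))
  have Tn : ∀ {y δ}, c a y → c b y → δ ∈ Zc G c y → δ ≠ 1 → T δ ≠ 0 := fun h1 h2 e d1 f =>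
    let ⟨u, m, k⟩ := h.mv S h1 (ne h2); k (T1 h1 h2 e d1 m (f ▸ rfl))
  have Tr : ∀ {y δ}, c a y → c b y → δ ∈ Zc G c y → ∀ m, ∃ r ∈ Rt G c a y, T δ m = π r := fun h1 h2 e m =>
    let ⟨r, m1, f⟩ := h.dec S h1 (ne h2) e (σ1 m)
    ⟨r, m1, by rw [← σ2 m, Tc h1 h2 e (σ1 m), (F.eq (rt_q h1 (ne h2) m1) (h.q_cm' (e a (S.symm h1)) (σ1 m))).2 f]⟩
  have TT : ∀ {x y δ ε}, c a x → c b x → c a y → c b y → c x y → δ ∈ Zc G c x → ε ∈ Zc G c y → T δ * T ε = 0 :=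
    fun h1 h2 h3 h4 l e e' => LinearMap.ext fun m => by
      rw [Module.End.mul_apply, ← σ2 m, Tc h3 h4 e' (σ1 m), T0 h1 h2 e (h.q_cm' (e' a (S.symm h3)) (σ1 m)) (h.tfix S h1 h3 (S.symm l) e' (σ1 m))]; rfl
  have Ts : ∀ {y δ}, c a y → c b y → δ ∈ Zc G c y → δ ≠ 1 → ∃ s : k, s ≠ 0 ∧ T δ = s • T (γ y) := fun {y δ} h1 h2 e d1 => by
    obtain ⟨s, f⟩ := scal_of (A := T δ) (B := T (γ y)) fun m => by
      obtain ⟨w, f⟩ := K.line h1 h2 (σ1 m)
      obtain ⟨s, f1⟩ := f δ e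
      obtain ⟨t, f2⟩ := f _ (gz y)
      rw [← Tc h1 h2 e (σ1 m), ← hs] at f1
      rw [← Tc h1 h2 (gz y) (σ1 m), ← hs] at f2
      by_cases t0 : t = 0
      · exact ⟨0, by rw [← σ2 m, T0 h1 h2 e (σ1 m) (T1 h1 h2 (gz y) (h.ne_one (hγ y)) (σ1 m) (by rw [f2, t0, zero_smul])), zero_smul]⟩
      · exact ⟨s / t, by rw [← σ2 m, f1, f2, smul_smul, div_mul_cancel₀ _ t0]⟩
    exact ⟨s, fun s0 => Tn h1 h2 e d1 (by rw [f, s0, zero_smul]), f⟩
  have AT : ∀ {y δ}, c a y → c b y → δ ∈ Zc G c y → ∀ m, A δ m = m + T δ m := fun h1 h2 e m => by rw [hT h1 h2 e, add_sub_cancel]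
  have alt : ∀ m, f m m = 0 := fun m => σ2 m ▸ (f0 (σ1 m) (σ1 m)).2 (commutatorElement_self _)
  have rk : ∀ {y δ r m}, c a y → c b y → δ ∈ Zc G c y → δ ≠ 1 → r ∈ Rt G c a y → T δ m = 0 → f m (π r) = 0 := fun {y δ r m} h1 h2 e d1 mr k =>
    σ2 m ▸ (f0 (σ1 m) (rt_q h1 (ne h2) mr)).2 (h.rt_zc S (mul_mem (h.rt_cj' mr (q_fx (σ1 m)) (T1 h1 h2 e d1 (σ1 m) ((σ2 m).symm ▸ k))) (inv_mem mr))
      h1 (ne h2) (h.q_cm S (σ1 m) (rt_q h1 (ne h2) mr)))
  have sym : ∀ {y}, c a y → c b y → ∀ m m', f (T (γ y) m) m' = f (T (γ y) m') m := fun {y} h1 h2 m m' => by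
    have ga := gz y a (S.symm h1)
    have e1 : f (A (γ y) m) (A (γ y) m') = f m m' := K.inj (by
      rw [← σ2 m, ← σ2 m', F.act ga (σ1 m), F.act ga (σ1 m'), hf _ (h.q_cj (σ1 m) ga) _ (h.q_cj (σ1 m') ga), hf _ (σ1 m) _ (σ1 m'), ← cm_cj,
        cj_eq (h.zc_comm S (S.symm h1) (ne h2).symm (gz y) (h.q_cm S (σ1 m) (σ1 m')))])
    obtain ⟨r, mr, e2⟩ := Tr h1 h2 (gz y) m'
    have e3 := rk h1 h2 (gz y) (h.ne_one (hγ y)) mr (DFunLike.congr_fun (TT h1 h2 h1 h2 (S.refl y) (gz y) (gz y)) m)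
    simp only [AT h1 h2 (gz y), map_add, LinearMap.add_apply] at e1
    rw [← e2] at e3
    rw [← LinearMap.IsAlt.neg alt m]
    linear_combination e1 - e3
  have an : ∀ {y}, c a y → c b y → ∀ m, f (T (γ y) m) m = 0 → T (γ y) m = 0 := fun {y} h1 h2 m e => by
    rw [← σ2 m] at e ⊢
    rw [Tc h1 h2 (gz y) (σ1 m), f0 (h.q_cm' (gz y a (S.symm h1)) (σ1 m)) (σ1 m)] at e
    exact T0 h1 h2 (gz y) (σ1 m) (h.an S h1 (ne h2) (gz y) (h.ne_one (hγ y)) (σ1 m) (cm_one.2 (cm_one.1 e).symm))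
  have k0 : ∀ m, (∀ y, c a y → c b y → T (γ y) m = 0) → m = 0 := fun m e => σ2 m ▸ (F.ker (σ1 m)).2 (h.q_fix S n (σ1 m)
    fun y h1 h2 => T1 h1 h2 (gz y) (h.ne_one (hγ y)) (σ1 m) ((σ2 m).symm ▸ e y h1 h2))
  have nd : ∀ m, (∀ m', f m m' = 0) → m = 0 := fun m e => k0 m fun y h1 h2 => an h1 h2 m (by rw [← LinearMap.IsAlt.neg alt, e, neg_zero])
  have oo := LinearMap.BilinForm.orthogonal_orthogonal ((LinearMap.IsAlt.isRefl alt).nondegenerate_iff_separatingLeft.2 nd)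
    (LinearMap.IsAlt.isRefl alt)
  have ok : ∀ {y m}, c a y → c b y → (∀ m', f (T (γ y) m') m = 0) → T (γ y) m = 0 := fun h1 h2 e => nd _ fun m' => by rw [sym h1 h2, e]
  have σ0 : σ 0 = 1 := F.one ▸ σ4 1 (one_mem _) (by simp)
  have nq : ∀ m e, σ m * κ e ∈ Qg G c a := fun m e => mul_mem (σ1 m) (h.zc_q S (K.z e))
  have np : ∀ m e, π (σ m * κ e) = m := fun m e => by
    rw [F.add (σ1 m) (h.zc_q S (K.z e)), σ2, (F.ker (h.zc_q S (K.z e))).2 (K.z e), add_zero]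
  have nr : ∀ {y r}, c a y → c b y → r ∈ Rt G c a y → σ (π r) * κ 0 = r := fun h1 h2 m => by
    rw [σ4 _ (rt_q h1 (ne h2) m) (Z.ia h1 h2 m), K.zero, mul_one]
  refine ⟨a, b, k, inferInstance, inferInstance, M, inferInstance, inferInstance, inferInstance, f, fun y => T (γ y), fun m e => σ m * κ e,
    CharP.ringChar_of_prime_eq_zero h.prime (F.char K h S), n, ⟨alt, nd, fun x => S.refl _, S.symm, fun x => sym x.2.1 x.2.2, fun x => an x.2.1 x.2.2,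
      fun x => Tn x.2.1 x.2.2 (gz _) (h.ne_one (hγ _)), fun {x y} l => TT x.2.1 x.2.2 y.2.1 y.2.2 l (gz _) (gz _), ?_, ?_, ?_,
      fun {x y} l => let ⟨w, h1, h2, h3⟩ := S.res_conn n x.2.1 x.2.2 y.2.1 y.2.2 l; ⟨⟨w, h1, h2⟩, h3⟩, let ⟨y, e⟩ := S.exists_perp n; ⟨⟨y, e⟩⟩⟩,
    fun m e m' e' => ?_, fun m e => q_fx (nq m e), fun {x} o => ?_, fun {m e} o => ?_, fun m e y l => Ka.ln (q_ka (nq m e)) l,
    fun m e y h1 h2 => ⟨fun o => np m e ▸ T0 h1 h2 (gz y) (nq m e) o, fun o => T1 h1 h2 (gz y) (h.ne_one (hγ y)) (nq m e) ((np m e).symm ▸ o)⟩,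
    fun {y} h1 h2 m => ?_, fun {y x} h1 h2 l o => ?_⟩
  · rintro ⟨x, h1, h2⟩ ⟨y, h3, h4⟩ o
    obtain ⟨δ, hd, br⟩ := h.partner (hγ x) (S.nsymm o)
    have dz := h.w_zc hd
    obtain ⟨s, s0, e⟩ := Ts h3 h4 dz (h.ne_one hd)
    refine ⟨-s⁻¹, by simpa, LinearMap.ext fun m => ?_⟩
    have ga := gz x a (S.symm h1)
    have da := dz a (S.symm h3)
    have e1 : A δ (A (γ x) (A δ m)) = A (γ x) (A δ (A (γ x) m)) := by
      simp only [← Module.End.mul_apply, ← mul_assoc]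
      rw [← F.A_mul h da ga, ← F.A_mul h ga da, ← F.A_mul h (by rw [mul_smul, ga, da]) da, ← F.A_mul h (by rw [mul_smul, da, ga]) ga, br]
    have t1 : ∀ m, T (γ x) (T (γ x) m) = 0 := DFunLike.congr_fun (TT h1 h2 h1 h2 (S.refl x) (gz x) (gz x))
    have t2 : ∀ m, T δ (T δ m) = 0 := DFunLike.congr_fun (TT h3 h4 h3 h4 (S.refl y) dz dz)
    simp only [AT h1 h2 (gz x), AT h3 h4 dz, map_add, t1, t2] at e1
    obtain ⟨r, m1, e2⟩ := Tr h1 h2 (gz x) (m + T δ (T (γ x) m))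
    obtain ⟨r', m2, e3⟩ := Tr h3 h4 dz (m + T (γ x) (T δ m))
    have e4 := (F.eq (rt_q h1 (ne h2) m1) (rt_q h3 (ne h4) m2)).1 (by
      rw [← e2, ← e3, map_add, map_add]; linear_combination (norm := module) -e1) y h3
    rw [mul_smul, Ka.fx m2.2.1, inv_smul_eq_iff] at e4
    rw [h.rt_semi S (Rt.symm m1) o (S.symm h1) (S.symm h3) e4.symm, F.one, map_add, e, LinearMap.smul_apply, map_smul] at e2
    simp only [Module.End.mul_apply, LinearMap.smul_apply]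
    generalize T (γ x) (T (γ y) (T (γ x) m)) = m₁ at e2 ⊢
    rw [eq_neg_of_add_eq_zero_left e2, smul_neg, smul_smul, neg_mul, inv_mul_cancel₀ s0]
    simp
  · rintro ⟨x, h1, h2⟩ ⟨y, h3, h4⟩
    have ga := gz x a (S.symm h1)
    have h5 : c a (γ x • y) := by rwa [← ga, h.aut]
    have h6 : c b (γ x • y) := by rwa [← gz x b (S.symm h2), h.aut]
    have m := h.conj (hγ y) (γ x)
    obtain ⟨s, s0, e⟩ := Ts h5 h6 (h.w_zc m) (h.ne_one m)
    refine ⟨⟨_, h5, h6⟩, s, s0, e ▸ LinearMap.ext fun m' => ?_⟩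
    have t1 : ∀ m, T (γ x) (T (γ x) m) = 0 := DFunLike.congr_fun (TT h1 h2 h1 h2 (S.refl x) (gz x) (gz x))
    have e1 : A (γ x)⁻¹ m' = m' - T (γ x) m' := by
      have : m' = A (γ x) (m' - T (γ x) m') := by simp [AT h1 h2 (gz x), t1]
      nth_rw 1 [this]
      rw [← Module.End.mul_apply, ← F.A_mul h (inv_fx ga) ga, inv_mul_cancel, F.A_one]; rfl
    rw [hT h5 h6 (h.w_zc m), F.A_mul h (by rw [mul_smul, gz y a (S.symm h3), ga]) (inv_fx ga), F.A_mul h ga (gz y a (S.symm h3))]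
    simp only [Module.End.mul_apply, e1, AT h1 h2 (gz x), AT h3 h4 (gz y), map_add, map_sub, t1, LinearMap.add_apply, LinearMap.sub_apply,
      Module.End.one_apply]
    abel
  · rw [← oo (⨆ _, _), eq_top_iff]
    intro m _ m' e
    rw [k0 m' fun y h1 h2 => ok h1 h2 fun m₁ => e _ (Submodule.mem_iSup_of_mem ⟨y, h1, h2⟩ ⟨m₁, rfl⟩)]
    exact LinearMap.BilinForm.isOrtho_zero_left _
  · have e1 := (F.eq (σ1 (m + m')) (mul_mem (σ1 m) (σ1 m'))).1 (by rw [F.add (σ1 m) (σ1 m'), σ2, σ2, σ2])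
    have := F.half' K h S e1 (s := f m m') (by
      have := hf _ (inv_mem (σ1 m)) _ (inv_mem (σ1 m'))
      rw [F.inv (σ1 m), F.inv (σ1 m'), σ2, σ2, map_neg, map_neg, LinearMap.neg_apply, neg_neg] at this
      have e2 := cj_eq (h.zc_z S Z e1)
      rw [← conj_mul, ← conj_mul, ← conj_inv, σ3, σ3, σ3, inv_inv] at e2
      rw [this, ← mul_assoc, (h.zq S e1 (inv_mem (σ1 (m + m')))).eq, ← e2, commutatorElement_def]; group)
    rw [add_comm (e + e'), K.add, K.add, ← this, mul_assoc, ← mul_assoc (κ e), (h.zq S (K.z e) (σ1 m')).eq]; group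
  · obtain ⟨g, m, e⟩ := h.q_tr' S n o
    obtain ⟨s, e1⟩ := K.sur ((F.eq (σ1 (π g)) m).1 (σ2 _))
    exact ⟨π g, s, by rwa [e1, mul_inv_cancel_left]⟩
  · have e1 := h.q_semi S (nq m e) n o
    obtain rfl : m = 0 := by rw [← np m e, e1, F.one]
    exact ⟨rfl, K.inj (by rw [K.zero, ← e1, σ0, one_mul])⟩
  · obtain ⟨r, mr, e⟩ := Tr h1 h2 (gz y) m
    rw [e, nr h1 h2 mr]
    exact (Ka.ln mr.2.1 (S.symm h2)).symm
  · obtain ⟨r, mr, e⟩ := h.rt_tr S n h1 h2 l o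
    obtain ⟨m, e1⟩ : π r ∈ LinearMap.range (T (γ y)) := by
      rw [← oo (LinearMap.range _)]
      exact fun m' e => rk h1 h2 (gz y) (h.ne_one (hγ y)) mr (ok h1 h2 fun m₁ => e _ ⟨m₁, rfl⟩)
    exact ⟨m, by rwa [e1, nr h1 h2 mr]⟩

end CF.Tv
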