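import Cfsg.Agent.Tv.A
import Cfsg.Agent.Geom.FinForms

/-! Systems of transvection-like maps: the field of the form. -/

set_option autoImplicit false
set_option linter.unusedSectionVars false

namespace CF.Tv

open CF.Geom

variable {k M X : Type*} [Field k] [AddCommGroup M] [Module k M] {f : LinearMap.BilinForm k M} {r : X → X → Prop}
  {t : X → Module.End k M} {ν : k} {s s' : Module.End k M} {u u' v v' w w' : M} {x y z : X} {p q : M × M}

def R1 (s : Module.End k M) : Prop := ∃ u, ∀ m, ∃ c : k, s m = c • u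

/-- normal form of a map of rank two -/
structure N2 (f : LinearMap.BilinForm k M) (ν : k) (s : Module.End k M) (p : M × M) : Prop where
  ex : ∃ α : k, α ≠ 0 ∧ ∀ m, s m = (α * ν * f p.1 m) • p.1 - (α * f p.2 m) • p.2
  du : ∃ d d', f p.1 d = 1 ∧ f p.2 d = 0 ∧ f p.1 d' = 0 ∧ f p.2 d' = 1

def Cm (f : LinearMap.BilinForm k M) (ν : k) (p q : M × M) : Prop :=
  f p.2 q.1 + f p.1 q.2 = 0 ∧ f p.2 q.2 + ν * f p.1 q.1 = 0

def ng (p : M × M) : M × M := (p.1, -p.2)

theorem N2.ng (h : N2 f ν s p) : N2 f ν s (ng p) :=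
  ⟨let ⟨α, a, e⟩ := h.ex; ⟨α, a, fun m => by simp [Tv.ng, e]⟩,
    let ⟨d, d', a⟩ := h.du; ⟨d, -d', by simpa [Tv.ng] using a⟩⟩

theorem N2.ind (h : N2 f ν s p) {a b : k} (e : a • p.1 + b • p.2 = 0) : a = 0 ∧ b = 0 := by
  obtain ⟨d, d', h1, h2, h3, h4⟩ := h.du
  exact ⟨by simpa [h1, h2] using congrArg (f · d) e, by simpa [h3, h4] using congrArg (f · d') e⟩

theorem N2.mem (h : N2 f ν s p) (n : ν ≠ 0) (a b : k) : ∃ m, s m = a • p.1 + b • p.2 := by
  obtain ⟨d, d', h1, h2, h3, h4⟩ := h.du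
  obtain ⟨α, a0, e⟩ := h.ex
  refine ⟨(a / (α * ν)) • d - (b / α) • d', ?_⟩
  simp only [e, map_sub, map_smul, h1, h2, h3, h4, smul_eq_mul]
  match_scalars <;> field_simp <;> ring

theorem nsq (n : ¬ IsSquare ν) {a b : k} (e : a ^ 2 = ν * b ^ 2) : a = 0 ∧ b = 0 := by
  have : b = 0 := by_contra fun b0 => n ⟨a / b, by field_simp; linear_combination -e⟩
  exact ⟨by simpa [this] using e, this⟩

namespace TS

variable (T : TS f r t)
include T

theorem neg (m m' : M) : f m m' = -f m' m := by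
  have := T.alt (m + m')
  simp only [map_add, LinearMap.add_apply, T.alt] at this
  linear_combination this

theorem tt (x : X) (m : M) : t x (t x m) = 0 := congrArg (· m) (T.perp (T.refl x))

theorem r1 (h : R1 (t x)) (y : X) : R1 (t y) := by
  have k : ∀ {x y}, R1 (t x) → ¬ r y x → R1 (t y) := fun {x y} ⟨u, h⟩ n => by
    obtain ⟨l, l0, e⟩ := T.opp n
    refine ⟨t y u, fun m => ?_⟩
    obtain ⟨c, q⟩ := h (t y m)
    have := congrArg (· m) e
    simp only [Module.End.mul_apply, q, map_smul, LinearMap.smul_apply] at this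
    exact ⟨l⁻¹ * c, by rw [mul_smul, this, inv_smul_smul₀ l0]⟩
  by_cases n : r y x
  · obtain ⟨w, a, b⟩ := T.conn n
    exact k (k h fun e => b (T.symm e)) a
  · exact k h n

theorem n2 [Finite k] (n : ¬ IsSquare ν) (h : ¬ R1 (t x)) : ∃ p, N2 f ν (t x) p := by
  have sy := T.sym x
  have an : ∀ {m m'}, f (t x m) m = 0 → f (t x m') m = 0 := fun {m m'} e => by rw [sy, T.an x m e]; simp
  obtain ⟨a, ha⟩ : ∃ a, f (t x a) a ≠ 0 := by
    by_contra! q
    exact T.ne x (LinearMap.ext fun m => T.an x m (q m))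
  obtain ⟨b, ab, hb⟩ : ∃ b, f (t x a) b = 0 ∧ f (t x b) b ≠ 0 := by
    by_contra! q
    refine h ⟨t x a, fun m => ⟨f (t x a) m / f (t x a) a, ?_⟩⟩
    have := T.an x _ (q (m - (f (t x a) m / f (t x a) a) • a) (by simp [ha]))
    rwa [map_sub, map_smul, sub_eq_zero] at this
  have ba := (sy b a).trans ab
  have e : ∀ m, t x m = (f (t x a) m / f (t x a) a) • t x a + (f (t x b) m / f (t x b) b) • t x b := fun m => by
    rw [← map_smul, ← map_smul, ← map_add, ← sub_eq_zero, ← map_sub]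
    set c := m - _
    have c1 : f (t x a) c = 0 := by simp [c, ab, ha]
    have c2 : f (t x b) c = 0 := by simp [c, ba, hb]
    obtain ⟨i, j, e⟩ := exists_binary_eq ha hb (-f (t x c) c)
    have := an (m := i • a + j • b + c) (m' := c) (by
      simp only [map_add, map_smul, LinearMap.add_apply, LinearMap.smul_apply, ab, ba, c1, c2, sy c a, sy c b, smul_eq_mul]
      linear_combination e)
    exact T.an x c (by simpa [sy c a, sy c b, c1, c2] using this)
  obtain ⟨l, hl⟩ := isSquare_mul_of_not_isSquare n (b := -(f (t x a) a * f (t x b) b)) fun ⟨l, hl⟩ => by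
    have := an (m := l • a + f (t x a) a • b) (m' := b) (by
      simp only [map_add, map_smul, LinearMap.add_apply, LinearMap.smul_apply, ab, ba, smul_eq_mul]
      linear_combination -f (t x a) a * hl)
    simp [ba, ha, hb] at this
  have n0 : ν ≠ 0 := fun e => n (e ▸ IsSquare.zero)
  have l0 : l ≠ 0 := fun e => by simp [e, n0, ha, hb] at hl
  refine ⟨(t x a, (l / f (t x b) b) • t x b), ⟨(ν * f (t x a) a)⁻¹, by simp [n0, ha], fun m => ?_⟩,
    (f (t x a) a)⁻¹ • a, l⁻¹ • b, by simp [ha], by simp [ba], by simp [ab], by simp; field_simp⟩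
  rw [e m]
  simp only [map_smul, LinearMap.smul_apply, smul_eq_mul]
  match_scalars
  · field_simp
  · field_simp; linear_combination -f (t x b) m * hl

theorem cm_symm (h : Cm f ν p q) : Cm f ν q p :=
  ⟨by rw [T.neg q.2, T.neg q.1]; linear_combination -h.1, by rw [T.neg q.2, T.neg q.1]; linear_combination -h.2⟩

theorem app (h : N2 f ν s p) (c : Cm f ν p q) : ∃ α : k, α ≠ 0 ∧ (s q.1, s q.2) =
    (α * ν * f p.1 q.1) • p + (α * f p.1 q.2) • (p.2, ν • p.1) := by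
  obtain ⟨α, a, e⟩ := h.ex
  refine ⟨α, a, Prod.ext ?_ ?_⟩ <;>
    simp only [e, Prod.fst_add, Prod.snd_add, Prod.smul_fst, Prod.smul_snd, eq_neg_of_add_eq_zero_left c.1,
      eq_neg_of_add_eq_zero_left c.2] <;> module

theorem zero (h : N2 f ν (t x) p) (h' : N2 f ν (t y) q) (a : f p.1 q.1 = 0) (b : f p.1 q.2 = 0)
    (c : f p.2 q.1 = 0) (d : f p.2 q.2 = 0) : r x y := by
  by_contra o
  obtain ⟨l, l0, e⟩ := T.opp fun e => o (T.symm e)
  obtain ⟨α, -, e1⟩ := h.ex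
  obtain ⟨β, -, e2⟩ := h'.ex
  refine T.ne y (LinearMap.ext fun m => (smul_eq_zero_iff_right l0).1 ((congrArg (· m) e).symm.trans ?_))
  rw [Module.End.mul_apply, Module.End.mul_apply, e2 m, e1]
  simp [a, b, c, d]

theorem dich (h2 : (2 : k) ≠ 0) (n : ¬ IsSquare ν) (h : N2 f ν s p) (h' : N2 f ν s' q) {l : k}
    (e : s * s' * s = l • s) : Cm f ν p q ∨ Cm f ν p (ng q) := by
  have n0 : ν ≠ 0 := fun e => n (e ▸ IsSquare.zero)
  obtain ⟨α, a0, e1⟩ := h.ex
  obtain ⟨β, b0, e2⟩ := h'.ex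
  have k : ∀ a b : k, s (s' (a • p.1 + b • p.2)) - l • (a • p.1 + b • p.2) = 0 := fun a b => by
    obtain ⟨m, i⟩ := h.mem n0 a b
    rw [← i, sub_eq_zero]; exact congrArg (· m) e
  have k1 := k 1 0
  have k2 := k 0 1
  simp only [one_smul, zero_smul, add_zero, zero_add, e2, e1 (_ - _), map_sub, map_smul, T.neg q.1, T.neg q.2,
    smul_eq_mul] at k1 k2
  simp only [Cm, ng, map_neg]
  generalize f p.1 q.1 = A, f p.1 q.2 = B, f p.2 q.1 = C, f p.2 q.2 = D at *
  obtain ⟨i1, i2⟩ := h.ind (a := α * β * ν * (B * B - ν * A * A) - l) (b := α * β * (ν * A * C - B * D))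
    (k1.symm.trans (by module)).symm
  obtain ⟨-, i3⟩ := h.ind (a := α * β * ν * (D * B - ν * C * A)) (b := α * β * (ν * C * C - D * D) - l)
    (k2.symm.trans (by module)).symm
  have ab := mul_ne_zero a0 b0
  have j1 := mul_left_cancel₀ ab (i2.trans (mul_zero _).symm)
  have j2 := mul_left_cancel₀ ab (show α * β * (ν * (B * B - ν * A * A)) = α * β * (ν * C * C - D * D) by
    linear_combination i1 - i3)
  by_cases o : (D + ν * A) ^ 2 = ν * (C + B) ^ 2
  · exact .inl (nsq n o).symm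
  have o := sub_ne_zero.2 o
  have h4 := mul_ne_zero o h2
  exact .inr ⟨mul_left_cancel₀ h4 (by linear_combination (exp := 1) 4 * (D + ν * A) * j1 + 2 * (C + B) * j2),
    mul_left_cancel₀ h4 (by linear_combination (exp := 1) -4 * ν * (C + B) * j1 - 2 * (D + ν * A) * j2)⟩

theorem dich' (h2 : (2 : k) ≠ 0) (n : ¬ IsSquare ν) (h : N2 f ν (t x) p) (h' : N2 f ν (t y) q) :
    Cm f ν p q ∨ Cm f ν p (ng q) := by
  by_cases o : r x y
  · exact T.dich h2 n h h' (l := 0) (by rw [T.perp o, zero_mul, zero_smul])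
  · exact let ⟨_, _, e⟩ := T.opp o; T.dich h2 n h h' e

theorem cl' (x : X) (h : N2 f ν (t y) p) :
    ∃ z, N2 f ν (t z) (p + (t x p.1, t x p.2)) ∧ (∀ w, r w y → ¬ r w x → ¬ r x y → ¬ r w z) := by
  obtain ⟨z, l, l0, e⟩ := T.cl x y
  have i : ∀ m m', f (m + t x m) m' = f m (m' - t x m') := fun m m' => by
    rw [map_add, map_sub, LinearMap.add_apply, T.sym, T.neg _ m, sub_eq_add_neg]
  have j : ∀ m, m + t x m - t x (m + t x m) = m := fun m => by simp [T.tt]
  have e' : ∀ m, l • t z m = t y (m - t x m) + t x (t y (m - t x m)) := fun m => (congrArg (· m) e).symm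
  obtain ⟨α, a0, e1⟩ := h.ex
  obtain ⟨d, d', a⟩ := h.du
  refine ⟨z, ⟨⟨α / l, div_ne_zero a0 l0, fun m => smul_right_injective M l0 ?_⟩, d + t x d, d' + t x d', ?_⟩,
    fun w a b c o => ?_⟩
  · simp only [e', Prod.fst_add, Prod.snd_add, i, e1 (m - _), map_sub (t x), map_smul]
    match_scalars <;> field_simp
  · simpa only [Prod.fst_add, Prod.snd_add, i, j] using a
  obtain ⟨l1, n1, e2⟩ := T.opp fun e => b (T.symm e)
  obtain ⟨l2, n2, e3⟩ := T.opp c
  refine T.ne x (LinearMap.ext fun m => ?_)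
  have q := congrArg (t w) (e' (t x m + t x (t x m)))
  have q1 : ∀ m, t w (t z m) = 0 := fun m => congrArg (· m) (T.perp o)
  have q2 : ∀ m, t w (t y m) = 0 := fun m => congrArg (· m) (T.perp a)
  rw [j, map_smul, map_add (t w), q1, q2, smul_zero, zero_add] at q
  have q3 := congrArg (· (t y (t x m))) e2
  have q4 := congrArg (· m) e3
  simp only [Module.End.mul_apply, LinearMap.smul_apply] at q3 q4
  rw [← q, map_zero, q4] at q3
  exact (smul_eq_zero_iff_right n2).1 ((smul_eq_zero_iff_right n1).1 q3.symm)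

theorem tri (h2 : (2 : k) ≠ 0) (n : ¬ IsSquare ν) {o : M × M} (h : N2 f ν (t x) o) (hy : N2 f ν (t y) p)
    (hz : N2 f ν (t z) q) (xy : ¬ r x y) (xz : ¬ r x z) (c : Cm f ν o p) (d : Cm f ν o q) : Cm f ν p q := by
  have n0 : ν ≠ 0 := fun e => n (e ▸ IsSquare.zero)
  obtain ⟨w, hw, -⟩ := T.cl' x hz
  obtain ⟨α, a0, e⟩ := T.app h d
  have c' := T.cm_symm c
  have z1 : ¬ (f o.1 p.1 = 0 ∧ f o.1 p.2 = 0) := fun e => xy (T.zero h hy e.1 e.2
    (by simpa [e.2] using c.1) (by simpa [e.1] using c.2))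
  have z2 : ¬ (f o.1 q.1 = 0 ∧ f o.1 q.2 = 0) := fun e => xz (T.zero h hz e.1 e.2
    (by simpa [e.2] using d.1) (by simpa [e.1] using d.2))
  have k := T.dich' h2 n hy hw
  have k' := T.dich' h2 n hy hz
  rw [e] at k
  simp only [Cm, ng, Prod.fst_add, Prod.snd_add, Prod.smul_fst, Prod.smul_snd, map_add, map_smul, map_neg, smul_eq_mul,
    T.neg p.1 o.1, T.neg p.1 o.2, T.neg p.2 o.1, T.neg p.2 o.2, eq_neg_of_add_eq_zero_left c.1,
    eq_neg_of_add_eq_zero_left c.2] at k k' ⊢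
  generalize f o.1 p.1 = A, f o.1 p.2 = B, f o.1 q.1 = C, f o.1 q.2 = D at *
  rcases k with k | k
  · exact ⟨by linear_combination k.1, by linear_combination k.2⟩
  refine k'.resolve_right fun k' => z2 ?_
  have a := mul_ne_zero (mul_ne_zero h2 a0) n0
  have j1 : D * A = C * B := mul_left_cancel₀ a (by linear_combination k.1 - k'.1)
  have j2 : D * B = ν * C * A := mul_left_cancel₀ a (by linear_combination k.2 - k'.2)
  have b : B ^ 2 - ν * A ^ 2 ≠ 0 := fun e => z1 (nsq n (sub_eq_zero.1 e)).symm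
  exact ⟨mul_left_cancel₀ b (by linear_combination A * j2 - B * j1),
    mul_left_cancel₀ b (by linear_combination B * j2 - ν * A * j1)⟩

/-- the complex structure -/
theorem exI [Finite k] (h2 : (2 : k) ≠ 0) (n : ¬ IsSquare ν) (h : ∀ x, ¬ R1 (t x)) : ∃ I : Module.End k M,
    (∀ m, I (I m) = ν • m) ∧ (∀ m m', f (I m) m' = -f m (I m')) ∧ ∀ x, ∃ u, N2 f ν (t x) (u, I u) := by
  obtain ⟨x⟩ := T.nonempty
  obtain ⟨o, ho⟩ := T.n2 n (h x)
  let Y : Set (M × M) := {p | ∃ y, ¬ r x y ∧ N2 f ν (t y) p ∧ Cm f ν o p}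
  let J : M × M →ₗ[k] M × M := (LinearMap.snd k M M).prod (ν • LinearMap.fst k M M)
  let Γ := Submodule.span k (insert o Y) ⊔ (Submodule.span k (insert o Y)).map J
  have lin : ∀ p q, (∀ q ∈ insert o Y, Cm f ν p q) → q ∈ Γ → Cm f ν p q := fun p q a m => by
    have b : ∀ q ∈ Submodule.span k (insert o Y), Cm f ν p q := fun q m => by
      induction m using Submodule.span_induction with
      | mem q m => exact a q m
      | zero => simp [Cm]
      | add _ _ _ _ a b => exact ⟨by simp; linear_combination a.1 + b.1, by simp; linear_combination a.2 + b.2⟩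
      | smul c _ _ a => exact ⟨by simp; linear_combination c * a.1, by simp; linear_combination c * a.2⟩
    obtain ⟨q, i, _, ⟨q', m', rfl⟩, rfl⟩ := Submodule.mem_sup.1 m
    exact ⟨by simp [J]; linear_combination (b q i).1 + (b q' m').2,
      by simp [J]; linear_combination (b q i).2 + ν * (b q' m').1⟩
  have cm : ∀ p ∈ Γ, ∀ q ∈ Γ, Cm f ν p q := fun p a q b => lin p q (fun q b => T.cm_symm (lin q p (by
    rintro p (rfl | ⟨y, a1, a2, a3⟩) <;> obtain rfl | ⟨z, b1, b2, b3⟩ := b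
    · exact ⟨by rw [T.neg]; ring, by simp [T.alt]⟩
    exacts [T.cm_symm b3, a3, T.tri h2 n ho b2 a2 b1 a1 b3 a3]) a)) b
  have m1 : ∀ p ∈ Y, p ∈ Γ := fun p m => Submodule.mem_sup_left (Submodule.subset_span (.inr m))
  have mJ : ∀ p ∈ Γ, J p ∈ Γ := fun p m => by
    obtain ⟨q, i, _, ⟨q', m', rfl⟩, rfl⟩ := Submodule.mem_sup.1 m
    exact map_add J _ _ ▸ add_mem (Submodule.mem_sup_right ⟨q, i, rfl⟩)
      (Submodule.mem_sup_left (Submodule.smul_mem _ ν m'))
  have sg : ∀ {y p}, ¬ r x y → N2 f ν (t y) p → p ∈ Y ∨ ng p ∈ Y := fun a b =>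
    (T.dich' h2 n ho b).imp (fun c => ⟨_, a, b, c⟩) fun c => ⟨_, a, b.ng, c⟩
  have al : ∀ z, ∃ p ∈ Γ, N2 f ν (t z) p := fun z => by
    obtain ⟨p, hp⟩ := T.n2 n (h z)
    by_cases xz : r x z
    swap
    · exact (sg xz hp).elim (fun m => ⟨_, m1 _ m, hp⟩) fun m => ⟨_, m1 _ m, hp.ng⟩
    obtain ⟨y, a, b⟩ := T.conn xz
    obtain ⟨q, hq⟩ := T.n2 n (h y)
    obtain ⟨q, mq, hq⟩ : ∃ q ∈ Γ, N2 f ν (t y) q :=
      (sg a hq).elim (fun m => ⟨_, m1 _ m, hq⟩) fun m => ⟨_, m1 _ m, hq.ng⟩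
    have k : ∀ p : M × M, p + (t y p.1, t y p.2) ∈ Γ → p ∈ Γ := fun p m => by
      obtain ⟨α, -, e⟩ := T.app hq (cm _ mq _ m)
      simp only [Prod.fst_add, Prod.snd_add, map_add (t y), T.tt, add_zero] at e
      exact (Γ.add_mem_iff_left (e ▸ add_mem (Γ.smul_mem _ mq) (Γ.smul_mem _ (mJ q mq)))).1 m
    obtain ⟨w, hw, c⟩ := T.cl' y hp
    exact (sg (c x xz a fun e => b (T.symm e)) hw).elim (fun m => ⟨_, k _ (m1 _ m), hp⟩) fun m =>
      ⟨_, k (ng p) (by simpa [ng, add_comm] using m1 _ m), hp.ng⟩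
  have su : ∀ m, ∃ m', (m, m') ∈ Γ := fun m => by
    have : ⊤ ≤ Γ.map (LinearMap.fst k M M) := T.span ▸ iSup_le fun z _ ⟨m, e⟩ => by
      obtain ⟨p, a, ⟨α, -, b⟩, -⟩ := al z
      exact e ▸ b m ▸ sub_mem (Submodule.smul_mem _ _ ⟨p, a, rfl⟩) (Submodule.smul_mem _ _ ⟨_, mJ p a, rfl⟩)
    obtain ⟨p, a, rfl⟩ := this (Submodule.mem_top (x := m))
    exact ⟨p.2, a⟩
  obtain ⟨I, e⟩ := Γ.exists_eq_graph ⟨fun p q (e : p.1.1 = q.1.1) => Subtype.ext (Prod.ext e (sub_eq_zero.1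
    (T.nd _ fun m => let ⟨m', a⟩ := su m; by simpa [e] using (cm _ (sub_mem p.2 q.2) _ a).1))),
    fun m => let ⟨_, a⟩ := su m; ⟨⟨_, a⟩, rfl⟩⟩
  have g : ∀ m, (m, I m) ∈ Γ := fun m => e ▸ rfl
  refine ⟨I, fun m => ((e ▸ mJ _ (g m) : _ ∈ I.graph) :).symm,
    fun m m' => eq_neg_of_add_eq_zero_left (cm _ (g m) _ (g m')).1, fun z => ?_⟩
  obtain ⟨⟨u, u'⟩, a, b⟩ := al z
  obtain rfl : u' = I u := (e ▸ a : _ ∈ I.graph)
  exact ⟨u, b⟩

end TS

end CF.Tv
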