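import Cfsg.Agent.Tv.DA

/-! Coordinates over the field of the form. -/

set_option autoImplicit false

namespace CF.Tv

variable {G : Type*} [Group G] {P : Type*}

theorem TS.field {k : Type} {M X : Type*} [Field k] [Fintype k] [AddCommGroup M] [Module k M] [Finite M]
    {f : LinearMap.BilinForm k M} {r : X → X → Prop} {t : X → Module.End k M} (T : TS f r t) (h2 : (2 : k) ≠ 0) :
    ∃ (F : Type) (_ : Field F) (_ : Fintype F) (σ : F →+* F) (ι : k →+* F) (_ : Module F M) (h : M →ₛₗ[σ] M →ₗ[F] F),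
      (∀ x, σ (σ x) = x) ∧ (∀ e, σ e = e ↔ ∃ s, ι s = e) ∧ (∀ (s : k) (m : M), ι s • m = s • m) ∧
      (∀ m m', h m' m = -σ (h m m')) ∧ (∀ m m', h m m' + σ (h m m') = ι (f m m')) ∧
      ∀ x, ∃ v, v ≠ 0 ∧ ∀ m, m ∈ LinearMap.range (t x) ↔ ∃ l : F, l • v = m := by
  by_cases h : ∃ x, R1 (t x)
  · obtain ⟨x, h⟩ := h
    refine ⟨k, _, ‹_›, .id k, .id k, ‹_›, (2 : k)⁻¹ • f, fun _ => rfl, fun e => ⟨fun _ => ⟨e, rfl⟩, fun _ => rfl⟩,
      fun _ _ => rfl, fun m m' => by simp [T.neg m'], fun m m' => by simp; field_simp; ring, fun y => ?_⟩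
    obtain ⟨u, e⟩ := T.r1 h y
    obtain ⟨a, ha⟩ : ∃ a, t y a ≠ 0 := by
      by_contra! q
      exact T.ne y (LinearMap.ext q)
    obtain ⟨c, i⟩ := e a
    refine ⟨t y a, ha, fun m => ⟨?_, fun ⟨l, q⟩ => ⟨l • a, by rw [map_smul, q]⟩⟩⟩
    rintro ⟨m, rfl⟩
    obtain ⟨d, j⟩ := e m
    exact ⟨d / c, by rw [i, j, smul_smul, div_mul_cancel₀ _ fun z => ha (by rw [i, z, zero_smul])]⟩
  obtain ⟨ν, n⟩ := Geom.exists_not_isSquare h2
  have n0 : ν ≠ 0 := fun e => n (e ▸ IsSquare.zero)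
  obtain ⟨I, i1, i2, i3⟩ := T.exI h2 n (not_exists.1 h)
  have : Fact (∀ r : k, r ^ 2 ≠ ν + 0 * r) := ⟨fun r e => n ⟨r, by linear_combination -e⟩⟩
  let φ := QuadraticAlgebra.lift (R := k) (a := ν) (b := 0) ⟨I, by ext m; simp [i1]⟩
  let _ := Module.compHom M φ.toRingHom
  have sm : ∀ (z : QuadraticAlgebra k ν 0) (m : M), z • m = z.re • m + z.im • I m := fun _ _ => rfl
  refine ⟨QuadraticAlgebra k ν 0, _, .ofEquiv _ (QuadraticAlgebra.equivProd ν 0).symm, starRingEnd _, algebraMap k _, ‹_›,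
    LinearMap.mk₂'ₛₗ _ (RingHom.id _) (fun m m' => ⟨f m m' / 2, f m (I m') / (2 * ν)⟩) ?_ ?_ ?_ ?_, star_star,
    fun e => ⟨fun q => ⟨e.re, ?_⟩, fun ⟨s, q⟩ => q ▸ ?_⟩, fun s m => by simp [sm], fun m m' => ?_, fun m m' => ?_, fun x => ?_⟩
  · intros; ext <;> simp [add_div]
  · intros; ext <;> simp [sm, i1, i2, starRingEnd_apply] <;> field_simp
  · intros; ext <;> simp [add_div]
  · intros; ext <;> simp [sm, i1] <;> field_simp
  · have := congrArg (·.im) q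
    ext
    · rfl
    · exact (mul_left_cancel₀ h2 (by simp [starRingEnd_apply] at this; linear_combination -this) : e.im = 0).symm
  · ext <;> simp [starRingEnd_apply]
  · ext <;> simp [starRingEnd_apply, T.neg m', i2, neg_div]
  · ext <;> simp [starRingEnd_apply, ← two_mul, mul_div_cancel₀ _ h2]
  obtain ⟨u, N⟩ := i3 x
  refine ⟨u, fun z => by simpa [z] using N.du, fun m => ⟨?_, fun ⟨l, q⟩ => q ▸ N.mem n0 l.re l.im⟩⟩
  rintro ⟨m, rfl⟩
  obtain ⟨α, -, e⟩ := N.ex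
  exact ⟨⟨α * ν * f u m, -(α * f (I u) m)⟩, by rw [e, sm, neg_smul, sub_eq_add_neg]⟩

theorem QD.co [MulAction G P] {c : P → P → Prop} {a b : P} {k : Type} {M : Type*} [Field k] [Fintype k] [AddCommGroup M]
    [Module k M] [Finite M] {f : LinearMap.BilinForm k M} {t : P → Module.End k M} {n : M → k → G}
    (D : QD c a b f t n) (h2 : (2 : k) ≠ 0) :
    ∃ (F : Type) (_ : Field F) (_ : Fintype F) (σ : F →+* F) (_ : Module F M) (h : M →ₛₗ[σ] M →ₗ[F] F)
      (v : P → M) (n' : M → F → G), ringChar F = ringChar k ∧ Co c a b h v n' := by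
  classical
  obtain ⟨F, _, _, σ, ι, _, h, h1, fx, -, sk, tr, rg⟩ := D.ts.field h2
  choose w w0 hw using rg
  let v : P → M := fun y => if q : c a y ∧ c b y then w ⟨y, q⟩ else 0
  have hv : ∀ {y} (p : c a y) (q : c b y), v y = w ⟨y, p, q⟩ := fun p q => dif_pos ⟨p, q⟩
  have rg : ∀ {y}, c a y → c b y → ∀ m, m ∈ LinearMap.range (t y) ↔ ∃ l : F, l • v y = m := fun p q =>
    hv p q ▸ hw ⟨_, p, q⟩
  have li := Function.leftInverse_invFun ι.injective
  have t2 : (2 : F) ≠ 0 := by rw [← map_ofNat ι 2]; exact (map_ne_zero ι).2 h2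
  have key : ∀ {y}, c a y → c b y → ∀ m, t y m = 0 ↔ h m (v y) = 0 := fun {y} p q m => by
    have s : ∀ m', f m (t y m') = -f (t y m) m' := fun m' => by rw [D.ts.neg, D.ts.sym ⟨y, p, q⟩]
    refine ⟨fun e => ?_, fun e => D.ts.nd _ fun m' => ?_⟩
    · obtain ⟨m', i⟩ := (rg p q _).2 ⟨σ (h m (v y)), rfl⟩
      have := tr m (t y m')
      rw [s, e, i] at this
      simp only [map_smul, smul_eq_mul, map_mul, h1, map_zero, LinearMap.zero_apply, neg_zero] at this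
      simpa [t2] using (show 2 * σ (h m (v y)) * h m (v y) = 0 by linear_combination this)
    · obtain ⟨l, i⟩ := (rg p q _).1 ⟨m', rfl⟩
      have := tr m (t y m')
      rw [s, ← i] at this
      simpa [e] using this
  have z : Function.invFun ι 0 = 0 := map_zero ι ▸ li 0
  refine ⟨F, _, ‹_›, σ, ‹_›, h, v, fun m e => n m (Function.invFun ι e),
    have := charP_of_injective_ringHom ι.injective (ringChar k); ringChar.eq F _, D.ab, t2, h1, sk,
    fun m q => D.ts.nd m fun m' => ι.injective (by rw [← tr, q]; simp), fun m _ m' _ p q => ?_, fun m _ _ => D.fa _ _,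
    fun q => ?_, fun p q => ?_, fun m _ _ _ => D.ln m _, fun m _ _ _ p q => (D.fx m _ p q).trans (key p q m),
    fun p q => hv p q ▸ w0 _, fun {y y'} p q p' q' => ⟨fun e => ?_, fun e => by_contra fun o => ?_⟩, fun p q l => ?_,
    fun p q i j => ?_, top_unique fun m _ => ?_⟩
  · obtain ⟨s, rfl⟩ := (fx _).1 p
    obtain ⟨s', rfl⟩ := (fx _).1 q
    rw [li, li, D.mul, tr, ← map_ofNat ι 2, ← map_div₀, ← map_add, ← map_add, li]
  · obtain ⟨m, e, rfl⟩ := D.sur q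
    exact ⟨m, ι e, (fx _).2 ⟨e, rfl⟩, by rw [li]⟩
  · obtain ⟨s, rfl⟩ := (fx _).1 p
    obtain ⟨i, j⟩ := D.inj q
    exact ⟨i, by rw [← li s, j, map_zero]⟩
  · obtain ⟨m, i⟩ := (rg p q _).2 ⟨1, one_smul F _⟩
    exact (key p' q' _).1 (i ▸ congrArg (· m) (D.ts.perp (D.ts.symm (x := ⟨y, p, q⟩) (y := ⟨y', p', q'⟩) e)))
  · obtain ⟨l, l0, i⟩ := D.ts.opp (x := ⟨y, p, q⟩) (y := ⟨y', p', q'⟩) o
    refine D.ts.ne ⟨y, p, q⟩ (LinearMap.ext fun m => (smul_eq_zero_iff_right l0).1 ((congrArg (· m) i).symm.trans ?_))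
    obtain ⟨s, j⟩ := (rg p q _).1 ⟨m, rfl⟩
    rw [Module.End.mul_apply, Module.End.mul_apply, ← j, (key p' q' _).2 (by simp [e]), map_zero]
  · obtain ⟨m, i⟩ := (rg p q _).2 ⟨l, rfl⟩
    simpa only [z, i] using D.sb p q m
  · obtain ⟨m, e⟩ := D.tb p q i j
    obtain ⟨l, i⟩ := (rg p q _).1 ⟨m, rfl⟩
    exact ⟨l, by rw [z, i, e]⟩
  · refine Submodule.iSup_induction _ (motive := (· ∈ Submodule.span F (v '' {y | c a y ∧ c b y})))
      (D.ts.span.ge (Submodule.mem_top (x := m))) (fun y m q => ?_) (zero_mem _) fun _ _ => add_mem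
    obtain ⟨l, rfl⟩ := (rg y.2.1 y.2.2 m).1 q
    exact Submodule.smul_mem _ _ (Submodule.subset_span ⟨y, y.2, rfl⟩)

end CF.Tv
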