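import Cfsg.Agent.Tv.A

/-! Polar spaces embedded in a skew-hermitian space: comparison of the groups. -/

set_option autoImplicit false

namespace CF.Tv

open Subgroup

variable {G : Type*} [Group G] {P : Type*} {c : P → P → Prop} {F V : Type*} [Field F] [AddCommGroup V] [Module F V]
  {σ : F →+* F} {H : V →ₛₗ[σ] V →ₗ[F] F} {R : P → V → Prop} {x y : P} {e u w z : V}

/-- non-degenerate skew-hermitian forms -/
structure Sk (H : V →ₛₗ[σ] V →ₗ[F] F) : Prop where
  two : (2 : F) ≠ 0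
  inv : ∀ x, σ (σ x) = x
  skew : ∀ u w, H w u = -σ (H u w)
  nd : ∀ u, (∀ w, H u w = 0) → u = 0

/-- the points are the isotropic lines -/
structure Em (c : P → P → Prop) (H : V →ₛₗ[σ] V →ₗ[F] F) (R : P → V → Prop) : Prop extends Sk H where
  ex : ∀ x, ∃ u, R x u
  sm : ∀ {x u} {l : F}, R x u → l ≠ 0 → R x (l • u)
  col : ∀ {x u y w}, R x u → R y w → (c x y ↔ H u w = 0)
  sur : ∀ {u}, u ≠ 0 → H u u = 0 → ∃ x, R x u

namespace Sk

variable (K : Sk H)
include K

theorem refl (h : H u w = 0) : H w u = 0 := by rw [K.skew, h, map_zero, neg_zero]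

theorem proj (hu : H u u = 0) (hw : H w w = 0) (n : H u w ≠ 0) (z : V) :
    ∃ α β : F, ∃ z', z = α • u + β • w + z' ∧ H u z' = 0 ∧ H w z' = 0 := by
  have n' : H w u ≠ 0 := fun e => n (K.refl e)
  refine ⟨H w z / H w u, H u z / H u w, z - (H w z / H w u) • u - (H u z / H u w) • w, by abel, ?_, ?_⟩ <;>
  simp only [map_sub, map_smul, hu, hw, smul_eq_mul] <;> field_simp <;> ring

/-- the isotropic vectors orthogonal to a hyperbolic pair span its complement -/
theorem span (hu : H u u = 0) (hw : H w w = 0) (n : H u w ≠ 0) (e0 : e ≠ 0) (he : H e e = 0) (eu : H u e = 0)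
    (ew : H w e = 0) (h : ∀ y, H y y = 0 → H u y = 0 → H w y = 0 → H y z = 0) : ∃ α β : F, z = α • u + β • w := by
  obtain ⟨α, β, z', rfl, z1, z2⟩ := K.proj hu hw n z
  have h' : ∀ y, H y y = 0 → H u y = 0 → H w y = 0 → H z' y = 0 := fun y a b d => K.refl (by
    simpa only [map_add, map_smul, K.refl b, K.refl d, smul_zero, zero_add] using h y a b d)
  have k : ∀ y, H u y = 0 → H w y = 0 → H e y ≠ 0 → H z' y = 0 := fun y a b d => by
    have d' : H y e ≠ 0 := fun e => d (K.refl e)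
    have := h' (y + (-H y y / 2 / H y e) • e) ?_ (by simp [a, eu]) (by simp [b, ew])
    · simpa [h' e he eu ew] using this
    have t := K.two
    have s := K.skew y y
    have s' : σ (H y e) ≠ 0 := (map_ne_zero σ).2 d'
    simp only [map_add, map_smulₛₗ, LinearMap.add_apply, LinearMap.smul_apply, he, smul_eq_mul, RingHom.id_apply,
      map_div₀, map_neg, map_ofNat, K.skew y e, ← s]
    field_simp
    ring
  obtain ⟨f, hf⟩ : ∃ f, H e f ≠ 0 := by
    by_contra! q
    exact e0 (K.nd e q)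
  obtain ⟨_, _, f, rfl, f1, f2⟩ := K.proj hu hw n f
  simp only [map_add, map_smul, K.refl eu, K.refl ew, smul_zero, zero_add] at hf
  refine ⟨α, β, add_eq_left.2 (K.nd z' fun y => ?_)⟩
  obtain ⟨_, _, y, rfl, y1, y2⟩ := K.proj hu hw n y
  simp only [map_add, map_smul, K.refl z1, K.refl z2, smul_zero, zero_add]
  by_cases q : H e y = 0
  · simpa [k f f1 f2 hf] using k (y + f) (by simp [y1, f1]) (by simp [y2, f2]) (by simpa [q] using hf)
  · exact k y y1 y2 q

end Sk

namespace Em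

variable (E : Em c H R) (S : PS c)
include E S

theorem iso (h : R x u) : H u u = 0 := (E.col h h).1 (S.refl x)

theorem ne0 (h : R x u) : u ≠ 0 := by
  obtain ⟨y, q, -⟩ := S.opp (S.refl x)
  obtain ⟨w, r⟩ := E.ex y
  rintro rfl
  exact q ((E.col h r).2 (by simp))

theorem uq (h : R x u) (h' : R y u) : x = y := S.ext fun z q =>
  let ⟨_, r⟩ := E.ex z; (E.col h' r).2 ((E.col h r).1 q)

theorem ln {p : P} (h : R x u) (h' : R y w) (n : ¬ c x y) (r : R p z) (l : Ln c x y p) :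
    ∃ α β : F, z = α • u + β • w := by
  obtain ⟨d, d1, d2⟩ := S.exists_perp n
  obtain ⟨e, q⟩ := E.ex d
  refine E.span (E.iso S h) (E.iso S h') (mt (E.col h h').2 n) (E.ne0 S q) (E.iso S q) ((E.col h q).1 d1)
    ((E.col h' q).1 d2) fun v a b f => ?_
  by_cases v0 : v = 0
  · simp [v0]
  obtain ⟨t, s⟩ := E.sur v0 a
  exact E.refl ((E.col r s).1 (l t ((E.col h s).2 b) ((E.col h' s).2 f)))

theorem prop (h : R x u) (h' : R x z) : ∃ l : F, l ≠ 0 ∧ z = l • u := by
  obtain ⟨y, q, -⟩ := S.opp (S.refl x)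
  obtain ⟨w, r⟩ := E.ex y
  obtain ⟨α, β, rfl⟩ := E.ln S h r q h' .left
  have := (E.col h h').1 (S.refl x)
  simp only [map_add, map_smul, E.iso S h, smul_eq_mul, mul_zero, zero_add, mul_eq_zero] at this
  obtain rfl := this.resolve_right (mt (E.col h r).2 q)
  refine ⟨α, fun e => E.ne0 S h' (by simp [e]), by simp⟩

variable {T : Type*} [Group T] {ρ : T →* V ≃ₗ[F] V} (is : ∀ t u w, H (ρ t u) (ρ t w) = H u w)
include is

theorem img (t : T) (h : R x u) : ∃ y, R y (ρ t u) :=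
  E.sur (by simpa using E.ne0 S h) ((is ..).trans (E.iso S h))

theorem perm (t : T) : ∃ θ : P ≃ P, ∀ x u, R x u → R (θ x) (ρ t u) := by
  have : ∀ (t : T) x, ∃ y, ∀ u, R x u → R y (ρ t u) := fun t x => by
    obtain ⟨u, h⟩ := E.ex x
    obtain ⟨y, q⟩ := E.img S is t h
    refine ⟨y, fun w r => ?_⟩
    obtain ⟨l, l0, rfl⟩ := E.prop S h r
    exact map_smul (ρ t) l u ▸ E.sm q l0
  choose f hf using this
  have k : ∀ t x, f t⁻¹ (f t x) = x := fun t x =>
    let ⟨u, h⟩ := E.ex x; E.uq S (by simpa using hf t⁻¹ _ _ (hf t x u h)) h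
  exact ⟨⟨f t, f t⁻¹, k t, fun x => by simpa using k t⁻¹ x⟩, hf t⟩

variable [MulAction G P]

/-- the graph of the comparison -/
def Gr : Subgroup (G × T) where
  carrier := {p | ∀ x u, R x u → R (p.1 • x) (ρ p.2 u)}
  one_mem' x u h := by simpa using h
  mul_mem' {p q} hp hq x u h := by simpa [mul_smul] using hp _ _ (hq x u h)
  inv_mem' {p} hp x u h := by
    obtain ⟨y, q⟩ := E.img S is p.2⁻¹ h
    rw [← E.uq S (by simpa using hp _ _ q) h]
    simpa using q

theorem zc (aut : ∀ (g : G) x y, c (g • x) (g • y) ↔ c x y)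
    (et : ∀ u r, H u u = 0 → σ r = r → ∃ t, ∀ w, ρ t w = w + (r * H u w) • u) {g : G} (m : g ∈ Zc G c x) :
    ∃ t, (g, t) ∈ E.Gr S is := by
  obtain ⟨y, n, -⟩ := S.opp (S.refl x)
  obtain ⟨u, h⟩ := E.ex x
  obtain ⟨w, h'⟩ := E.ex y
  obtain ⟨z, r⟩ := E.ex (g • y)
  have n' := mt (E.col h h').2 n
  obtain ⟨α, β, rfl⟩ := E.ln S h h' n r fun p a b => by rw [← m p a, aut]; exact b
  have b0 : β ≠ 0 := fun e => n (by
    rw [← aut g, m x (S.refl x), E.col h r]; simp [e, E.iso S h])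
  have r' := E.sm r (inv_ne_zero b0)
  rw [smul_add, smul_smul, smul_smul, inv_mul_cancel₀ b0, one_smul, add_comm] at r'
  generalize β⁻¹ * α = s at r'
  have i := E.iso S r'
  simp only [map_add, map_smulₛₗ, LinearMap.add_apply, LinearMap.smul_apply, E.iso S h, E.iso S h', smul_eq_mul,
    RingHom.id_apply, E.skew u w] at i
  obtain ⟨t, ht⟩ := et u (s / H u w) (E.iso S h) (by
    rw [map_div₀, div_eq_div_iff ((map_ne_zero σ).2 n') n']; linear_combination i)
  obtain ⟨θ, hθ⟩ := E.perm S is t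
  have k := S.rigid (θ.trans (MulAction.toPerm g⁻¹)) (fun p q => by
      obtain ⟨a, ha⟩ := E.ex p
      obtain ⟨b, hb⟩ := E.ex q
      simp only [Equiv.trans_apply, MulAction.toPerm_apply, aut, E.col (hθ p a ha) (hθ q b hb), E.col ha hb, is])
    (fun p q => by
      obtain ⟨a, ha⟩ := E.ex p
      have := hθ p a ha
      rw [ht, (E.col h ha).1 q, mul_zero, zero_smul, add_zero] at this
      rw [Equiv.trans_apply, E.uq S this ha, MulAction.toPerm_apply, inv_smul_eq_iff, m p q]) n (by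
      have := hθ y w h'
      rw [ht, div_mul_cancel₀ _ n'] at this
      rw [Equiv.trans_apply, E.uq S this r', MulAction.toPerm_apply, inv_smul_smul])
  exact ⟨t, fun p a ha => (inv_smul_eq_iff.1 (k p) : θ p = g • p) ▸ hθ p a ha⟩

theorem equiv (aut : ∀ (g : G) x y, c (g • x) (g • y) ↔ c x y) (ff : ∀ g : G, (∀ x : P, g • x = x) → g = 1)
    (tr : ∀ x y : P, ∃ g : G, g • x = y) (gen : closure (⋃ x, (Zc G c x : Set G)) = ⊤)
    (et : ∀ u r, H u u = 0 → σ r = r → ∃ t, ∀ w, ρ t w = w + (r * H u w) • u)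
    (gn : closure {t | ∃ u r, H u u = 0 ∧ σ r = r ∧ ∀ w, ρ t w = w + (r * H u w) • u} = ⊤)
    (cen : ∀ t, t ∈ center T ↔ ∀ u, H u u = 0 → ρ t u ∈ F ∙ u) (h : R x e)
    (bs : ∀ r, σ r = r → ∃ g : G, ∀ x w, R x w → R (g • x) (w + (r * H e w) • e)) :
    Nonempty (G ≃* T ⧸ center T) := by
  let Γ : Subgroup (G × T) := E.Gr S is
  have s1 : ∀ g : G, ∃ t, (g, t) ∈ Γ := fun g => by
    have : ⊤ ≤ Γ.map (MonoidHom.fst G T) := gen ▸ (closure_le _).2 fun g m =>
      let ⟨_, m⟩ := Set.mem_iUnion.1 m; let ⟨t, q⟩ := E.zc S is aut et m; ⟨_, q, rfl⟩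
    obtain ⟨p, q, rfl⟩ := this (mem_top g)
    exact ⟨p.2, q⟩
  have s2 : ⊤ ≤ Γ.map (MonoidHom.snd G T) := gn ▸ (closure_le _).2 fun t ⟨u, r, a, b, d⟩ => by
    by_cases u0 : u = 0
    · exact ⟨(1, t), fun x w q => by simpa [d, u0] using q, rfl⟩
    obtain ⟨y, q⟩ := E.sur u0 a
    obtain ⟨g, rfl⟩ := tr x y
    obtain ⟨s, m⟩ := s1 g
    obtain ⟨l, l0, rfl⟩ := E.prop S (m _ _ h) q
    obtain ⟨k, o⟩ := bs (r * σ l * l) (by rw [map_mul, map_mul, b, E.inv, mul_right_comm])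
    refine ⟨(g * (k * g⁻¹), t), fun p w f => ?_, rfl⟩
    have := m _ _ (o _ _ (inv_mem m _ _ f))
    have i : H e (ρ s⁻¹ w) = H (ρ s e) w := by rw [← is s, ← LinearEquiv.mul_apply, ← map_mul, mul_inv_cancel, map_one]; rfl
    simp only [Prod.fst_inv, Prod.snd_inv, i, map_add, map_smul] at this
    rw [← LinearEquiv.mul_apply, ← map_mul, mul_inv_cancel, map_one] at this
    rwa [d, mul_smul g, mul_smul k, smul_smul _ l, map_smulₛₗ, LinearMap.smul_apply, smul_eq_mul, ← mul_assoc, mul_right_comm]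
  let f1 := (MonoidHom.fst G T).comp Γ.subtype
  let f2 := (QuotientGroup.mk' (center T)).comp ((MonoidHom.snd G T).comp Γ.subtype)
  have k : f1.ker = f2.ker := Subgroup.ext fun p => by
    refine Iff.trans ⟨fun (q : p.1.1 = 1) => (cen _).2 fun u a => ?_, fun q => ff _ fun y => ?_⟩
      (QuotientGroup.eq_one_iff p.1.2).symm
    · by_cases u0 : u = 0
      · simp [u0]
      obtain ⟨y, r⟩ := E.sur u0 a
      obtain ⟨l, -, e⟩ := E.prop S r (by simpa [q] using p.2 y u r)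
      exact Submodule.mem_span_singleton.2 ⟨l, e.symm⟩
    · obtain ⟨u, r⟩ := E.ex y
      obtain ⟨l, e⟩ := Submodule.mem_span_singleton.1 ((cen _).1 q u (E.iso S r))
      have := p.2 y u r
      rw [← e] at this
      exact E.uq S this (E.sm r fun z => E.ne0 S this (by simp [z]))
  exact ⟨(QuotientGroup.quotientKerEquivOfSurjective f1 fun g => let ⟨t, q⟩ := s1 g; ⟨⟨_, q⟩, rfl⟩).symm.trans
    ((QuotientGroup.quotientMulEquivOfEq k).trans (QuotientGroup.quotientKerEquivOfSurjective f2 fun t => by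
      obtain ⟨t, rfl⟩ := QuotientGroup.mk_surjective t
      obtain ⟨p, q, rfl⟩ := s2 (mem_top t)
      exact ⟨⟨p, q⟩, rfl⟩))⟩

end Em

end CF.Tv
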