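import Cfsg.Agent.Tv.EA
import Cfsg.Agent.Geom.Simple
import Cfsg.Agent.Geom.UMat

/-! Polar spaces with coordinates are the symplectic and unitary polar spaces. -/

set_option autoImplicit false
set_option linter.unusedSectionVars false

namespace CF.Tv

open Subgroup CF.Geom

variable {G : Type*} [Group G] {P : Type*} [MulAction G P] {c : P → P → Prop} {F M : Type*} [Field F] [AddCommGroup M]
  [Module F M] {σ : F →+* F} {h : M →ₛₗ[σ] M →ₗ[F] F} {v : P → M} {n : M → F → G} {a b x y : P} {m m' : M} {e e' : F}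

/-- the form on the model space -/
def mH (h : M →ₛₗ[σ] M →ₗ[F] F) : (F × M × F) →ₛₗ[σ] (F × M × F) →ₗ[F] F :=
  LinearMap.mk₂'ₛₗ σ (RingHom.id F) (fun u w => σ u.1 * w.2.2 - σ u.2.2 * w.1 + h u.2.1 w.2.1)
    (fun _ _ _ => by simp; ring) (fun _ _ _ => by simp; ring) (fun _ _ _ => by simp; ring) fun _ _ _ => by simp; ring

theorem mH_apply (u w : F × M × F) : mH h u w = σ u.1 * w.2.2 - σ u.2.2 * w.1 + h u.2.1 w.2.1 := rfl

/-- the unipotent radical of the model -/
def mN (h : M →ₛₗ[σ] M →ₗ[F] F) (m : M) (e : F) (u : F × M × F) : F × M × F :=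
  (u.1 + h m u.2.1 + u.2.2 * (h m m / 2 + e), u.2.1 + u.2.2 • m, u.2.2)

def R0 (c : P → P → Prop) (a b : P) (v : P → M) (x : P) (u : F × M × F) : Prop :=
  x = a ∧ u = (1, 0, 0) ∨ x = b ∧ u = (0, 0, 1) ∨ c a x ∧ c b x ∧ u = (0, v x, 0)

def mR (c : P → P → Prop) (a b : P) (h : M →ₛₗ[σ] M →ₗ[F] F) (v : P → M) (n : M → F → G) (x : P) (u : F × M × F) : Prop :=
  ∃ m e, ∃ l : F, ∃ y w, σ e = e ∧ l ≠ 0 ∧ R0 c a b v y w ∧ x = n m e • y ∧ u = l • mN h m e w

theorem mN_smul (l : F) (u : F × M × F) : mN h m e (l • u) = l • mN h m e u := by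
  ext <;> simp [mN, mul_add, mul_assoc, smul_smul]

namespace Co

variable (C : Co c a b h v n)
include C

theorem sk : Sk (mH h) where
  two := C.two
  inv := C.inv
  skew u w := by simp only [mH_apply, map_add, map_sub, map_mul, C.inv, C.skew u.2.1]; ring
  nd u k := by
    have := k (0, 0, 1)
    have := k (1, 0, 0)
    ext
    · simp_all [mH_apply]
    · exact C.nd _ fun m => by simpa [mH_apply] using k (0, m, 0)
    · simp_all [mH_apply]

theorem fix (m m' : M) (p : σ e = e) (q : σ e' = e') :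
    σ (e + e' + (h m m' + σ (h m m')) / 2) = e + e' + (h m m' + σ (h m m')) / 2 := by
  simp only [map_add, map_div₀, map_ofNat, p, q, C.inv, add_comm]

theorem mN_mul (u : F × M × F) :
    mN h m e (mN h m' e' u) = mN h (m + m') (e + e' + (h m m' + σ (h m m')) / 2) u := by
  have := C.two
  ext
  · simp only [mN, map_add, map_smul, LinearMap.add_apply, smul_eq_mul, C.skew m m']; field_simp; ring
  · simp only [mN, smul_add]; abel
  · rfl

theorem mN_iso (p : σ e = e) (u w : F × M × F) : mH h (mN h m e u) (mN h m e w) = mH h u w := by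
  have := C.two
  have s := C.skew m m
  simp only [mN, mH_apply, map_add, map_mul, map_smulₛₗ, LinearMap.add_apply, LinearMap.smul_apply, smul_eq_mul,
    C.skew m u.2.1, p, map_div₀, map_ofNat, RingHom.id_apply, show σ (h m m) = -h m m by linear_combination s]
  field_simp; ring

theorem n00 : n 0 0 = 1 := by simpa using C.mul 0 0 (map_zero σ) (map_zero σ)

theorem ninv (p : σ e = e) : (n m e)⁻¹ = n (-m) (-e) := by
  refine inv_eq_of_mul_eq_one_right ?_
  rw [C.mul m (-m) p (by rw [map_neg, p]), ← C.n00]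
  congr 1
  · simp
  · simp only [map_neg]; linear_combination -C.skew m m / 2

theorem div (m m' : M) (p : σ e = e) (q : σ e' = e') : ∃ d, σ d = d ∧ n m' e' = n m e * n (m' - m) d ∧
    ∀ u, mN h m' e' u = mN h m e (mN h (m' - m) d u) := by
  have r : σ (e' - e - (h m (m' - m) + σ (h m (m' - m))) / 2) = e' - e - (h m (m' - m) + σ (h m (m' - m))) / 2 := by
    generalize h m (m' - m) = k
    simp only [map_add, map_sub, map_div₀, map_ofNat, p, q, C.inv, add_comm]
  refine ⟨_, r, ?_, fun u => ?_⟩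
  · rw [C.mul _ _ p r]; congr 1 <;> abel
  · rw [C.mN_mul]; congr 1 <;> abel

theorem eqv (p : σ e = e) {u : F × M × F} (r : mR c a b h v n x u) : mR c a b h v n (n m e • x) (mN h m e u) := by
  obtain ⟨m', e', l, y, w, q, l0, r, rfl, rfl⟩ := r
  exact ⟨_, _, l, y, w, C.fix m m' p q, l0, r, by rw [smul_smul, C.mul _ _ p q], by rw [mN_smul, C.mN_mul]⟩

variable (S : PS c) (aut : ∀ (g : G) x y, c (g • x) (g • y) ↔ c x y)
include S

theorem b_y (p : σ e = e) (ay : c a y) (by' : c b y) : c b (n m e • y) ↔ h m (v y) = 0 := by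
  rw [← C.fx m p ay by']
  exact ⟨fun k => S.uq ay (C.ln m p ay) .right .left (S.symm k) (S.symm by') C.ab, fun k => k.symm ▸ by'⟩

include aut

theorem y_b (p : σ e = e) (ay : c a y) (by' : c b y) : c y (n m e • b) ↔ h m (v y) = 0 := by
  rw [← aut (n m e)⁻¹, inv_smul_smul, C.ninv p, ← neg_eq_zero, ← LinearMap.neg_apply, ← map_neg,
    ← C.b_y S (e := -e) (by rw [map_neg, p]) ay by']
  exact ⟨S.symm, S.symm⟩

theorem a_n (p : σ e = e) : c a (n m e • x) ↔ c a x := by rw [← aut (n m e) a x, C.fa m p]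

theorem bb1 (p : σ e = e) (k : c b (n m e • b)) (ne : n m e • b ≠ b) :
    ∃ y, ∃ l : F, c a y ∧ c b y ∧ m = l • v y ∧ e = 0 := by
  obtain ⟨r, r1, r2⟩ := S.proj k ne.symm (S.nsymm C.ab)
  have r3 := S.col_left k r1
  obtain ⟨l, q⟩ := C.tb (S.symm r2) r3 (S.line k r1 fun z => C.ab (S.symm (z ▸ r2)))
    fun z => C.ab ((C.a_n S aut p).1 (z ▸ S.symm r2))
  obtain ⟨d, d1, d2, -⟩ := C.div (l • v r) m (map_zero σ) p
  rw [d2, mul_smul, smul_left_cancel_iff] at q
  obtain ⟨d3, rfl⟩ := C.inj d1 q.symm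
  rw [d3, C.n00, mul_one, sub_eq_zero.1 d3] at d2
  refine ⟨r, l, S.symm r2, r3, sub_eq_zero.1 d3, ?_⟩
  have := C.ninv (m := l • v r) p
  rw [d2, C.ninv (map_zero σ)] at this
  have t := C.mul (l • v r) (-(l • v r)) (map_zero σ) (show σ (-e) = -e by rw [map_neg, p])
  rw [← this, ← C.ninv (map_zero σ), mul_inv_cancel] at t
  have := (C.inj (C.fix _ _ (map_zero σ) (by rw [map_neg, p])) (t ▸ one_smul G b)).2
  simp only [map_neg] at this
  linear_combination -this - C.skew (l • v r) (l • v r) / 2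

theorem bb2 (p : σ e = e) (k : c b (n m e • b)) : h m m / 2 + e = 0 := by
  by_cases ne : n m e • b = b
  · obtain ⟨rfl, rfl⟩ := C.inj p ne; simp
  obtain ⟨y, l, ay, by', rfl, rfl⟩ := C.bb1 S aut p k ne
  simp [(C.cv ay by' ay by').1 (S.refl y)]

theorem bb3 (q : h m m = 0) : c b (n m 0 • b) := by
  by_contra k
  have : ∀ y, c a y → c b y → h m (v y) = 0 := fun y ay by' => by
    obtain ⟨r, r1, r2⟩ := S.proj by' (fun z => C.ab (z ▸ ay)) k
    by_cases ry : r = y
    · exact (C.y_b S aut (map_zero σ) ay by').1 (ry ▸ r2)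
    obtain ⟨l, rfl⟩ := C.tb ay by' r1 ry
    obtain ⟨d, d1, d2, d3⟩ := C.div (l • v y) m (map_zero σ) (map_zero σ)
    rw [d2, mul_smul, aut] at r2
    have i := C.mN_iso (m := l • v y) (map_zero σ) (0, 0, 1) (mN h (m - l • v y) d (0, 0, 1))
    rw [← d3] at i
    have z := (C.cv ay by' ay by').1 (S.refl y)
    simp only [mN, mH_apply, C.bb2 S aut d1 r2, q, map_smulₛₗ, LinearMap.smul_apply, z] at i
    have l0 : l ≠ 0 := fun z => k (by
      rw [← aut (n (l • v y) 0), ← mul_smul, ← d2, z, zero_smul, C.n00, one_smul] at r2; exact r2)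
    rw [C.skew, neg_eq_zero, map_eq_zero]
    simpa [l0] using i
  have z : h m = 0 := LinearMap.ext_on C.span fun _ ⟨y, p, e⟩ => e ▸ this y p.1 p.2
  rw [C.nd m fun _ => by simp [z], C.n00, one_smul] at k
  exact k (S.refl b)

theorem core (p : σ e = e) {u w : F × M × F} (r : R0 c a b v x u) (s : R0 c a b v y w) :
    c x (n m e • y) ↔ mH h u (mN h m e w) = 0 := by
  have t := C.two
  have ab := C.ab
  have ba := S.nsymm ab
  rcases r with ⟨rfl, rfl⟩ | ⟨rfl, rfl⟩ | ⟨ax, bx, rfl⟩ <;> rcases s with ⟨rfl, rfl⟩ | ⟨rfl, rfl⟩ | ⟨ay, by', rfl⟩ <;>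
    simp only [mN, mH_apply, map_zero, map_one, zero_mul, one_mul, mul_zero, zero_smul, one_smul, add_zero, zero_add,
      sub_zero, zero_sub, LinearMap.zero_apply, neg_eq_zero, one_ne_zero, iff_true, sub_self, C.fa m p,
      C.a_n S aut p, S.refl, ab, ba]
  · exact ay
  · refine ⟨C.bb2 S aut p, fun k => ?_⟩
    have k' := congrArg σ k
    simp only [map_add, map_div₀, map_ofNat, p, map_zero] at k'
    obtain rfl : e = 0 := mul_left_cancel₀ t (by linear_combination k + k' - C.skew m m / 2)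
    exact C.bb3 S aut (by simpa [t] using k)
  · exact C.b_y S p ay by'
  · exact S.symm ax
  · rw [C.y_b S aut p ax bx, C.skew m, neg_eq_zero, map_eq_zero σ]
  · rw [← C.cv ax bx ay by']
    exact ⟨fun k => S.symm (S.line ay (C.ln m p ay) (fun z => ab (smul_left_cancel (n m e) (z.trans (C.fa m p).symm) ▸
      S.symm by')) x ax (S.symm k)), fun k => S.symm (C.ln m p ay x ax (S.symm k))⟩

theorem em : Em c (mH h) (mR c a b h v n) where
  toSk := C.sk
  ex x := by
    by_cases ax : c a x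
    swap
    · obtain ⟨m, e, p, rfl⟩ := C.sur ax
      exact ⟨_, m, e, 1, b, _, p, one_ne_zero, .inr (.inl ⟨rfl, rfl⟩), rfl, rfl⟩
    by_cases xa : x = a
    · exact ⟨_, 0, 0, 1, a, _, map_zero σ, one_ne_zero, .inl ⟨rfl, rfl⟩, by rw [C.n00, one_smul, xa], rfl⟩
    obtain ⟨y, y1, y2⟩ := S.proj ax (Ne.symm xa) C.ab
    obtain ⟨d, d1, d2⟩ := S.exists_sep xa
    obtain ⟨m, e, p, rfl⟩ := C.sur d2
    have ay := S.col_left ax y1
    exact ⟨_, m, e, 1, y, _, p, one_ne_zero, .inr (.inr ⟨ay, S.symm y2, rfl⟩),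
      S.uq ax .right ((C.ln m p ay).trans .left y1) .left d1 ((aut ..).2 y2) d2, rfl⟩
  sm := fun ⟨m, e, l, y, w, p, l0, r, s, t⟩ k => ⟨m, e, _, y, w, p, mul_ne_zero k l0, r, s, by rw [t, smul_smul]⟩
  col := by
    rintro _ _ _ _ ⟨m, e, l, x, u, p, l0, r, rfl, rfl⟩ ⟨m', e', l', y, w, p', l0', r', rfl, rfl⟩
    obtain ⟨d, d1, d2, d3⟩ := C.div m m' p p'
    rw [d2, mul_smul, aut, C.core S aut d1 r r', d3]
    simp [C.mN_iso p, l0, l0']
  sur := by
    rintro ⟨x, m, y⟩ u0 i
    have t := C.two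
    by_cases y0 : y = 0
    swap
    · have s := (map_ne_zero σ).2 y0
      have k := C.skew m m
      refine ⟨_, y⁻¹ • m, x / y - h m m / (2 * σ y * y), y, b, _, ?_, y0, .inr (.inl ⟨rfl, rfl⟩), rfl, ?_⟩
      · simp only [mH_apply] at i
        simp only [map_sub, map_div₀, map_mul, map_ofNat, C.inv]
        field_simp
        linear_combination 2 * i - k
      · ext <;> simp [mN, y0]
        field_simp; ring
    subst y0
    by_cases m0 : m = 0
    · exact ⟨_, 0, 0, x, a, _, map_zero σ, fun z => u0 (by simp [z, m0]), .inl ⟨rfl, rfl⟩, rfl, by simp [mN, m0]⟩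
    obtain ⟨y, l, ay, by', rfl, -⟩ := C.bb1 S aut (map_zero σ) (C.bb3 S aut (m := m) (by simpa [mH_apply] using i))
      fun z => m0 (C.inj (map_zero σ) z).1
    obtain ⟨w, q⟩ : ∃ w, h w (v y) ≠ 0 := by
      by_contra! q
      exact C.v0 ay by' (C.nd _ fun w => by rw [C.skew, q, map_zero, neg_zero])
    have l0 : l ≠ 0 := fun z => m0 (by simp [z])
    refine ⟨_, σ (x / l / h w (v y)) • w, 0, l, y, _, map_zero σ, l0, .inr (.inr ⟨ay, by', rfl⟩), rfl, ?_⟩
    ext <;> simp [mN, C.inv]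
    field_simp

end Co

theorem ex_q [Fintype F] (i : ∀ x, σ (σ x) = x) (t : (2 : F) ≠ 0) {ω : F} (o : ω ≠ 0) (s : σ ω = -ω) :
    ∃ q, Fintype.card F = q ^ 2 ∧ ∀ x, σ x = x ^ q := by
  classical
  let K := σ.eqLocusField (RingHom.id F)
  have d : ∀ x, ∃ p : K × K, (p.1 : F) + p.2 * ω = x := fun x =>
    ⟨(⟨(x + σ x) / 2, show σ _ = _ by simp [i, add_comm, map_ofNat]⟩, ⟨(x - σ x) / 2 / ω, show σ _ = _ by
      simp only [map_div₀, map_sub, i, s, map_ofNat, RingHom.id_apply]; field_simp; ring⟩), by field_simp; ring⟩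
  have f : ∀ x : K, σ x = x := fun x => x.2
  have hc : Fintype.card F = Fintype.card K ^ 2 := by
    rw [pow_two, ← Fintype.card_prod]
    refine (Fintype.card_of_bijective (f := fun p : K × K => (p.1 : F) + p.2 * ω) ⟨fun p q (e : (p.1 : F) + p.2 * ω = q.1 + q.2 * ω) => ?_, d⟩).symm
    have e' := congrArg σ e
    simp only [map_add, map_mul, f, s] at e'
    exact Prod.ext (Subtype.ext (mul_left_cancel₀ t (by linear_combination e + e')))
      (Subtype.ext (mul_left_cancel₀ (mul_ne_zero t o) (by linear_combination e - e')))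
  obtain ⟨τ, t1, t2, -⟩ := exists_conj hc
  have t3 : ∀ x : K, τ x = x := fun x => (t1 x).trans (congrArg Subtype.val (FiniteField.pow_card x))
  have t4 : τ ω = -ω := (mul_self_eq_mul_self_iff.1 ((map_mul ..).symm.trans
    (t3 ⟨ω * ω, show σ _ = _ by simp [s]⟩))).resolve_left fun z => t2 (RingHom.ext fun x => by
      obtain ⟨p, rfl⟩ := d x; simp [t3, z])
  exact ⟨_, hc, fun x => by rw [← t1]; obtain ⟨p, rfl⟩ := d x; simp [t3, t4, f, s]⟩

theorem clo_pre {T L : Type*} [Group T] [Group L] {ρ : T →* L} (i : Function.Injective ρ) {s : Set L}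
    (r : ρ.range = closure s) : closure (ρ ⁻¹' s) = ⊤ := map_injective i (by
  rw [MonoidHom.map_closure, Set.image_preimage_eq_of_subset fun _ m => r.ge (subset_closure m), ← r,
    MonoidHom.range_eq_map])

theorem su_model {V : Type*} [AddCommGroup V] [Module F V] [Finite F] [FiniteDimensional F V] {B : V →ₛₗ[σ] V →ₗ[F] F}
    (I : IsHerm B) (N : B.Nondegenerate) {q : ℕ} (pw : ∀ x, σ x = x ^ q) :
    ∃ φ : Cfsg.SU (Module.finrank F V) F q →* UG B, Function.Injective φ ∧ φ.range = suSub B := by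
  obtain ⟨g, hg⟩ := exists_equiv_hermSesq I.ne_id I.invol I.symm N rfl
  let ψ : UG B ≃* UG _ := isomCongr g hg fun _ => hg _ _
  refine ⟨ψ.symm.toMonoidHom.comp (suToUG _ pw), ψ.symm.injective.comp (suToUG_injective _ pw), Subgroup.ext fun x => ?_⟩
  rw [MonoidHom.range_comp, suToUG_range, mem_map_equiv, mem_suSub, mem_suSub, MulEquiv.symm_symm, det_isomCongr]

theorem Co.concl [Finite G] {F : Type} {M : Type*} [Field F] [Fintype F]
    [AddCommGroup M] [Module F M] [Finite M] {σ : F →+* F} {h : M →ₛₗ[σ] M →ₗ[F] F} {v : P → M} {n : M → F → G}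
    (C : Co c a b h v n) (S : PS c) (aut : ∀ (g : G) x y, c (g • x) (g • y) ↔ c x y)
    (ff : ∀ g : G, (∀ x : P, g • x = x) → g = 1) (tr : ∀ x y : P, ∃ g : G, g • x = y)
    (gen : Subgroup.closure (⋃ x, (Zc G c x : Set G)) = ⊤) : Concl (ringChar F) G := by
  have E := C.em S aut
  have ha : mR c a b h v n a (1, 0, 0) :=
    ⟨0, 0, 1, a, _, map_zero σ, one_ne_zero, .inl ⟨rfl, rfl⟩, (C.fa 0 (map_zero σ)).symm, by simp [mN]⟩
  have bs : ∀ r, σ r = r → ∃ g : G, ∀ x w, mR c a b h v n x w →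
      mR c a b h v n (g • x) (w + (r * mH h (1, 0, 0) w) • (1, 0, 0)) := fun r p => ⟨n 0 r, fun x w q => by
    convert C.eqv (m := 0) p q using 1
    ext <;> simp [mN, mH_apply, mul_comm]⟩
  have d2 : 2 ≤ Module.finrank F (F × M × F) := by simp; omega
  have ef : mH h (1, 0, 0) (0, 0, 1) = 1 := by simp [mH_apply]
  have nd : ∀ w, (∀ u, mH h u w = 0) → w = 0 := fun w q => E.nd w fun u => E.refl (q u)
  generalize mH h = H, mR c a b h v n = R, ((1, 0, 0) : F × M × F) = e, ((0, 0, 1) : F × M × F) = f at *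
  have t := E.two
  refine ⟨F, _, ‹_›, rfl, ?_⟩
  by_cases s : σ = RingHom.id F
  · subst s
    have A : H.IsAlt := fun u => mul_left_cancel₀ t (by simpa [two_mul, add_eq_zero_iff_eq_neg] using E.skew u u)
    have N : H.Nondegenerate := ⟨E.nd, nd⟩
    obtain ⟨k, hk⟩ := even_finrank_of_alt N A
    obtain ⟨g, hg⟩ := exists_equiv_sympBilin N A (hk.trans (two_mul k).symm)
    let φ : _ ≃* SpG H := (spEquiv k F).trans (isomCongr g hg (Q' := fun _ => 0) fun _ => rfl).symm
    have r : φ.toMonoidHom.range = ⊤ := MonoidHom.range_eq_top.2 φ.surjective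
    have : Nontrivial (F × M × F) := inferInstance
    refine .inl ⟨k, by omega, E.equiv S (ρ := (SpG H).subtype.comp φ.toMonoidHom) (fun t => (φ t).2.1) aut ff tr gen
      (fun u r _ _ => ⟨φ.symm (spTrans A u (-r)), fun w => ?_⟩) (top_unique ((clo_pre φ.injective
        (r.trans (closure_spTrans N A).symm)).ge.trans (closure_mono ?_))) (fun t => ⟨fun m u _ => ?_, fun q => ?_⟩) ha bs⟩
    · exact (congrArg (·.1 w) (φ.apply_symm_apply _)).trans ((spTrans_apply A u (-r) w).trans (by simp [← A.neg w u]))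
    · rintro t ⟨u, r, q⟩
      exact ⟨u, -r, A u, rfl, fun w => (congrArg (·.1 w) q).trans ((spTrans_apply ..).trans (by simp [← A.neg u w]))⟩
    · obtain ⟨l, q⟩ := center_sp_scalar N A r t m
      exact Submodule.mem_span_singleton.2 ⟨l, (q u).symm⟩
    · obtain ⟨l, q⟩ := (isWittPair_alt H N A).scalar_of_fix_points rfl rfl ef (.inr ⟨1, one_ne_zero, rfl⟩) (φ t)
        fun u _ => q u (A u)
      exact mem_center_of_scalar (ρ := φ.toMonoidHom) φ.injective q
  obtain ⟨ω, o, so⟩ := exists_skew_ne_zero s E.inv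
  obtain ⟨q, hq, pw⟩ := ex_q E.inv t o so
  have I : IsHerm (ω • H) := ⟨s, E.inv, ⟨fun u w => by simp [so, E.skew u w]⟩⟩
  have N : (ω • H).Nondegenerate := ⟨fun u z => E.nd u fun w => by simpa [o] using z w,
    fun u z => nd u fun w => by simpa [o] using z w⟩
  obtain ⟨φ, j, r⟩ := su_model I N pw
  have u := uTransSub_eq_suSub I N d2 (.inl ⟨-1, by simp, by simp, fun z => t (by linear_combination -z)⟩)
  have z : ∀ {u w}, (ω • H) u w = 0 ↔ H u w = 0 := by simp [o]
  refine .inr ⟨_, q, d2, hq, E.equiv S (ρ := (UG _).subtype.comp φ)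
    (fun t u w => mul_left_cancel₀ o (UG_map (φ t) u w)) aut ff tr gen (fun y s p p' => ?_)
    (top_unique ((clo_pre j (r.trans u.symm)).ge.trans (closure_mono ?_))) (fun t => ⟨fun m u _ => ?_, fun q => ?_⟩) ha bs⟩
  · obtain ⟨t, m⟩ := (r.trans u.symm).ge (uTrans_mem I (z.2 p) (s := s / ω) (by rw [map_div₀, p', so, div_neg]))
    exact ⟨t, fun w => (congrArg (·.1 w) m).trans (by simp [uTrans_apply, ← mul_assoc, o])⟩
  · rintro t ⟨y, s, p, p', m⟩
    exact ⟨y, s * ω, z.1 p, by simp [p', so], fun w => (congrArg (·.1 w) m).trans (by simp [uTrans_apply, mul_assoc])⟩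
  · obtain ⟨l, q⟩ := center_su_scalar I N d2 r.ge t m
    exact Submodule.mem_span_singleton.2 ⟨l, (q u).symm⟩
  · obtain ⟨e, f, p1, p2, p3, p4⟩ := exists_hyperbolic_herm I N d2
    obtain ⟨l, q⟩ := (I.wittPair N).scalar_of_fix_points (by simpa using p1) (by simpa using p2) p3 (.inr p4) (φ t)
      fun u k => q u (z.1 (by simpa using k))
    exact mem_center_of_scalar j q

end CF.Tv
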