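import Cfsg.Agent.Tv.B
import Cfsg.Agent.Solv.Cores

/-! From the hypothesis to the geometry of points; simplicity. -/

set_option autoImplicit false

namespace CF.Tv

open CF.Fisch Subgroup
open scoped MatrixGroups

universe u
variable {G : Type u} [Group G] {P : Type*} {K : Type} [Field K] {p : ℕ} {α β : G}

theorem nor_top {π : SL(2, K) →* G} (h2 : (2 : K) ≠ 0) (h3 : (3 : K) ≠ 0) {M : Subgroup G} (n : M.Normal)
    {g : SL(2, K)} (m : π g ∈ M) (o : g 0 1 ≠ 0) (x : SL(2, K)) : π x ∈ M := by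
  have := n.comap π
  have := Matrix.SL2.commutator_eq_top h2 (fun e => h3 (by linear_combination e)) ▸
    Normal.commutator_le_of_self_sup_commutative_eq_top ((rog_normal sl2_rog (M.comap π) this).resolve_right fun e => by
      rcases sl2_center_cases (e m) with rfl | rfl <;> simp at o) upper_comm
  exact this (mem_top x)

theorem PG.simple [Finite G] [MulAction G P] {p : ℕ} {c : P → P → Prop} {W : P → Set G} (h : PG p c W) :
    IsSimpleGroup G := by
  obtain ⟨a, b, ab⟩ := h.two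
  have : Finite P := .of_surjective (fun g : G => g • a) (h.tr a)
  obtain ⟨α, ha⟩ := h.ne a
  have : Nontrivial G := ⟨_, _, h.ne_one ha⟩
  refine ⟨fun M n => or_iff_not_imp_left.2 fun o => ?_⟩
  obtain ⟨g, m, x, e⟩ : ∃ g ∈ M, ∃ x, ¬ c x (g • x) := by
    obtain ⟨⟨g, m⟩, e⟩ := ne_bot_iff_exists_ne_one.1 o
    obtain ⟨x, e⟩ := not_forall.1 (mt (h.ff g) fun z => e (Subtype.ext z))
    obtain ⟨z, z1, z2⟩ := h.sep (Ne.symm e)
    obtain ⟨α, ha⟩ := h.ne x
    obtain ⟨η, he⟩ := h.ne z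
    obtain ⟨K, _, _, _, π, t, N⟩ := h.nf (h.conj ha g) he z2
    refine ⟨g * α * g⁻¹ * α⁻¹, by simpa [mul_assoc] using mul_mem m (n.conj_mem _ (inv_mem m) α), z, fun k => ?_⟩
    rw [mul_smul, h.fixc (h.inv ha) z1] at k
    simpa [upT] using N.lo_norm (g := upT 1) (h.two_ne K) (N.a ▸ (h.com he (h.conj he _) k).symm)
  obtain ⟨α, ha⟩ := h.ne x
  obtain ⟨K, _, _, _, π, t, N⟩ := h.nf ha (h.conj ha g) e
  have m' := N.a ▸ nor_top (h.two_ne K) (h.three_ne K) n (g := upT 1 * loT (-t)) (π := π) (by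
    rw [map_mul, loT_neg, map_inv, N.a, N.b]; simpa [mul_assoc] using mul_mem (n.conj_mem _ m α) (inv_mem m))
    (by simp [sl2_mul_apply, upT_coe, loT_coe]) (upT 1)
  refine top_unique (h.gen ▸ (closure_le _).2 fun β q => ?_)
  obtain ⟨y, hb⟩ := Set.mem_iUnion.1 q
  obtain ⟨k, rfl⟩ := h.tr b y
  obtain ⟨l, i⟩ := h.tr x (k • a)
  obtain ⟨K, _, _, _, π, t, N⟩ := h.nf (h.conj ha l) hb (by rwa [i, h.aut])
  exact N.b ▸ nor_top (h.two_ne K) (h.three_ne K) n (g := upT 1) (N.a ▸ n.conj_mem _ m' l) (by simp [upT]) _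

/-- conjugation by an invertible matrix -/
noncomputable def cjm (g : Matrix (Fin 2) (Fin 2) K) (h : IsUnit g.det) : SL(2, K) →* SL(2, K) where
  toFun x := ⟨g * x * g⁻¹, by rw [Matrix.det_conj ((Matrix.isUnit_iff_isUnit_det g).2 h), x.2]⟩
  map_one' := Subtype.ext (by simp [Matrix.mul_nonsing_inv _ h])
  map_mul' x y := Subtype.ext (show g * (x.1 * y.1) * g⁻¹ = g * x * g⁻¹ * (g * y * g⁻¹) by
    simp only [Matrix.mul_assoc, Matrix.nonsing_inv_mul_cancel_left _ _ h])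

theorem cjm_eq {g : Matrix (Fin 2) (Fin 2) K} (h : IsUnit g.det) {x y : SL(2, K)} : cjm g h x = y ↔ g * x = y * g :=
  Subtype.ext_iff.trans ⟨fun (e : g * x * g⁻¹ = y) => by rw [← e, Matrix.nonsing_inv_mul_cancel_right _ _ h],
    fun e => show g * x * g⁻¹ = y by rw [e, Matrix.mul_nonsing_inv_cancel_right _ _ h]⟩

theorem unip [Fact p.Prime] [CharP K p] {a : SL(2, K)} (h : a ^ p = 1) :
    ∃ μ u v : K, (a : Matrix (Fin 2) (Fin 2) K) = !![1 - μ * u * v, μ * u ^ 2; -μ * v ^ 2, 1 + μ * u * v] := by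
  have t := (Matrix.isNilpotent_trace_of_isNilpotent (M := (a : Matrix (Fin 2) (Fin 2) K) - 1) ⟨p, by
    rw [sub_pow_char_of_commute _ (Commute.one_right _), ← Matrix.SpecialLinearGroup.coe_pow, h]; simp⟩).eq_zero
  have d := sl2_det a
  simp [Matrix.trace_fin_two] at t
  by_cases o : a 0 1 = 0
  · have : a 0 0 = 1 := sub_eq_zero.1 (pow_eq_zero_iff two_ne_zero |>.1 (by linear_combination a 0 0 * t - d - a 1 0 * o))
    refine ⟨-a 1 0, 0, 1, ?_⟩
    ext i j; fin_cases i <;> fin_cases j <;> simp [this, o]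
    linear_combination t - this
  · refine ⟨(a 0 1)⁻¹, a 0 1, 1 - a 0 0, ?_⟩
    ext i j; fin_cases i <;> fin_cases j <;> simp [o]
    · field_simp
    · field_simp; linear_combination a 0 0 * t - d
    · linear_combination t

theorem exists_nf [Fact p.Prime] (o : Odd p) [CharP K p] {π : SL(2, K) →* G} (r : π.range = closure {α, β})
    (k : ∀ g, π g = 1 → g = 1 ∨ g = -1) (ha : α ^ p = 1) (hb : β ^ p = 1) (n : ¬ Commute α β) :
    ∃ (π : SL(2, K) →* G) (t : K), NF π t α β := by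
  have l : ∀ γ ∈ closure {α, β}, γ ^ p = 1 → ∃ a, π a = γ ∧ a ^ p = 1 := fun γ m e => by
    obtain ⟨a, rfl⟩ := r.ge m
    refine ⟨a ^ (p + 1), by rw [map_pow, pow_succ, e, one_mul], ?_⟩
    rw [← pow_mul, mul_comm, pow_mul]
    rcases k _ ((map_pow ..).trans e) with i | i <;> rw [i]
    exacts [one_pow _, o.add_one.neg_one_pow]
  obtain ⟨a, rfl, a1⟩ := l α (subset_closure (by simp)) ha
  obtain ⟨b, rfl, b1⟩ := l β (subset_closure (by simp)) hb
  obtain ⟨μ, u, v, e⟩ := unip a1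
  obtain ⟨ν, x, y, f⟩ := unip b1
  have d : μ * ν * (u * y - v * x) ≠ 0 := fun d => n (Commute.map (show a * b = b * a by
    apply sl2_ext <;> simp [sl2_mul_apply, e, f]
    exacts [by linear_combination -(u * y + v * x) * d, by linear_combination 2 * u * x * d,
      by linear_combination -2 * v * y * d, by linear_combination (u * y + v * x) * d]) π)
  simp only [ne_eq, mul_eq_zero, not_or] at d
  have g : IsUnit (!![μ * (u * y - v * x) * u, x; μ * (u * y - v * x) * v, y]).det := by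
    rw [Matrix.det_fin_two_of, show _ - _ = μ * (u * y - v * x) ^ 2 by ring]; simp [d]
  refine ⟨π.comp (cjm _ g), -μ * ν * (u * y - v * x) ^ 2, by simp [d], congrArg π ((cjm_eq g).2 ?_),
    congrArg π ((cjm_eq g).2 ?_), fun _ => r.le ⟨_, rfl⟩, fun z q => (k _ q).imp (fun i => ?_) fun i => ?_⟩
  · simp only [e, upT_coe, Matrix.mul_fin_two]; ext i j; fin_cases i <;> fin_cases j <;> simp <;> ring
  · simp only [f, loT_coe, Matrix.mul_fin_two]; ext i j; fin_cases i <;> fin_cases j <;> simp <;> ring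
  · exact Subtype.ext (((Matrix.isUnit_iff_isUnit_det _).2 g).mul_left_cancel (by simpa using (cjm_eq g).1 i))
  · exact Subtype.ext (((Matrix.isUnit_iff_isUnit_det _).2 g).mul_left_cancel (by simpa using (cjm_eq g).1 i))

def pp (V : Set G) (α : G) : Set G := {β ∈ V | Commute α β}

theorem of_set [Finite G] (hp : p.Prime) (hp5 : 5 ≤ p) (hS : ∀ M : Subgroup G, M.Normal → Group.IsSolvable M → M = ⊥)
    {V : Set G} (ord : ∀ α ∈ V, orderOf α = p) (cj : ∀ α ∈ V, ∀ g, g * α * g⁻¹ ∈ V)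
    (pw : ∀ α ∈ V, ∀ n, ¬ p ∣ n → α ^ n ∈ V) (ne : V.Nonempty) (gen : closure V = ⊤)
    (tr : ∀ α ∈ V, ∀ β ∈ V, ∃ g, g * α * g⁻¹ ∈ zpowers β)
    (nf : ∀ α ∈ V, ∀ β ∈ V, ¬ Commute α β →
      ∃ (K : Type) (_ : Field K) (_ : Fintype K) (_ : CharP K p) (π : SL(2, K) →* G) (t : K), NF π t α β) :
    ∃ (P : Type u) (_ : Finite P) (_ : MulAction G P) (c : P → P → Prop) (W : P → Set G), PG p c W := by
  have := Fact.mk hp
  have cp : ∀ α g, {β | g⁻¹ * β * g ∈ pp V α} = pp V (g * α * g⁻¹) := fun α g => Set.ext fun β =>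
    and_congr ⟨fun m => by simpa [mul_assoc] using cj _ m g, fun m => by simpa using cj _ m g⁻¹⟩ (by
      rw [← Commute.conj_iff g]; simp [mul_assoc])
  let P := {S : Set G // ∃ α ∈ V, pp V α = S}
  let _ : MulAction G P :=
    { smul g S := ⟨{β | g⁻¹ * β * g ∈ S.1}, let ⟨α, m, e⟩ := S.2; ⟨_, cj α m g, e ▸ (cp α g).symm⟩⟩
      one_smul S := Subtype.ext (Set.ext fun β => by change 1⁻¹ * β * 1 ∈ S.1 ↔ _; simp)
      mul_smul g h S := Subtype.ext (Set.ext fun β => by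
        change (g * h)⁻¹ * β * (g * h) ∈ S.1 ↔ h⁻¹ * (g⁻¹ * β * g) * h ∈ S.1; simp [mul_assoc]) }
  let W : P → Set G := fun x => {α ∈ V | pp V α = x.1}
  have cw : ∀ {x α}, α ∈ W x → ∀ g : G, g * α * g⁻¹ ∈ W (g • x) := fun {x α} m g =>
    ⟨cj α m.1 g, (cp α g).symm.trans (by rw [m.2]; rfl)⟩
  have cm : ∀ {x y : P} {α β}, α ∈ W x → β ∈ W y → (W x ⊆ y.1 ↔ Commute α β) := fun {x y α β} a b =>
    b.2 ▸ ⟨fun e => (e a).2.symm, fun e γ m => ⟨m.1, ((m.2.trans a.2.symm).ge ⟨b.1, e⟩).2.symm⟩⟩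
  have zp : ∀ {α β}, α ∈ V → β ∈ V → α ∈ zpowers β → pp V α = pp V β := fun {α β} a b m => by
    have e : zpowers α = zpowers β := eq_of_le_of_card_ge (zpowers_le_of_mem m) (by simp [ord, a, b])
    obtain ⟨i, rfl⟩ := m
    obtain ⟨j, e⟩ := e.ge (mem_zpowers β)
    exact Set.ext fun γ => and_congr_right fun _ => ⟨fun c => e ▸ c.zpow_left j, fun c => c.zpow_left i⟩
  have zc : ∀ M : Subgroup G, M.Normal → (∀ g ∈ M, ∀ α ∈ V, Commute g α) → M = ⊥ := fun M n e =>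
    have l : M ≤ center G := fun g m => mem_center_iff.2 fun x => ((closure_le (centralizer {g})).2
      (fun α a => mem_centralizer_singleton_iff.2 (e g m α a).symm) (gen.ge (mem_top x)) g rfl).symm
    hS M n (Group.isSolvable_of_comm fun a b => Subtype.ext (mem_center_iff.1 (l b.2) a))
  refine ⟨P, inferInstance, ‹_›, fun x y => W x ⊆ y.1, W, hp, hp5, fun m => ord _ m.1, fun x => x.2, cw,
    fun {x α} m n e => ⟨pw α m.1 n e, (zp (pw α m.1 n e) m.1 (npow_mem_zpowers α n)).trans m.2⟩, cm, fun {x x'} e => ?_,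
    fun a b e => nf _ a.1 _ b.1 (mt (cm a b).2 e), top_unique (gen ▸ closure_mono fun α m =>
      Set.mem_iUnion.2 ⟨⟨_, α, m, rfl⟩, m, rfl⟩), fun x y => ?_, fun g e => ?_, ?_⟩
  · obtain ⟨α, a⟩ := x.2
    obtain ⟨α', a'⟩ := x'.2
    exact Subtype.ext (a.2 ▸ a'.2 ▸ Set.ext fun β => and_congr_right fun b =>
      (cm (y := ⟨_, β, b, rfl⟩) a ⟨b, rfl⟩).symm.trans ((e _).trans (cm a' ⟨b, rfl⟩)))
  · obtain ⟨α, a⟩ := x.2
    obtain ⟨β, b⟩ := y.2
    obtain ⟨g, m⟩ := tr α a.1 β b.1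
    exact ⟨g, Subtype.ext ((cw a g).2.symm.trans ((zp (cj α a.1 g) b.1 m).trans b.2))⟩
  · refine (zc (MulAction.toPermHom G P).ker inferInstance fun g m α a => ?_).le (Equiv.ext e)
    let x : P := ⟨_, α, a, rfl⟩
    have fx : ∀ {g}, g ∈ (MulAction.toPermHom G P).ker → ∀ {β}, β ∈ W x → g * β * g⁻¹ ∈ W x := fun {g} m _ b =>
      (show g • x = x from Equiv.ext_iff.1 m x) ▸ cw b g
    have co : ∀ β ∈ W x, ∀ γ ∈ W x, β * γ = γ * β := fun β b γ d => (cm b d).1 fun δ f => ⟨f.1, (f.2.ge ⟨a, .refl α⟩).2.symm⟩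
    have pg : IsPGroup p (closure (W x)) := fun ⟨γ, d⟩ => ⟨1, Subtype.ext (show γ ^ p ^ 1 = 1 by
      rw [pow_one]
      induction d using closure_induction with
      | mem γ d => exact ord γ d.1 ▸ pow_orderOf_eq_one γ
      | one => simp
      | mul γ δ d f i j =>
        have := isMulCommutative_closure co
        rw [(show Commute γ δ from congrArg Subtype.val (mul_comm' (⟨γ, d⟩ : closure (W x)) ⟨δ, f⟩)).mul_pow, i, j, one_mul]
      | inv γ _ i => rw [inv_pow, i, inv_one])⟩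
    have l := (Solv.le_map_pCore (p := p) (H := (MulAction.toPermHom G P).ker ⊓ closure (W x)) inf_le_left ?_
      pg.to_inf_right).trans (Solv.map_pCore_le_of_isSubnormal (Normal.isSubnormal inferInstance))
    · rw [hS (Cfsg.pCore p G) inferInstance (by have := (Solv.pCore_isPGroup (p := p) (G := G)).isNilpotent; infer_instance)] at l
      exact commutatorElement_eq_one_iff_commute.1 (l ⟨by
        simpa [mul_assoc, commutatorElement_def] using mul_mem m (Normal.conj_mem inferInstance _ (inv_mem m) α),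
        mul_mem (subset_closure (fx m ⟨a, rfl⟩)) (Subgroup.inv_mem _ (subset_closure ⟨a, rfl⟩))⟩)
    refine (le_inf le_normalizer fun k q => ?_).trans inf_normalizer_le_normalizer_inf
    refine mem_normalizer_fintype fun γ d => ?_
    exact (closure_le ((closure (W x)).comap (MulAut.conj k).toMonoidHom)).2 (fun β b => subset_closure (fx q b)) d
  · by_contra! e
    obtain ⟨α, a⟩ := ne
    have := (zc ⊤ inferInstance fun g _ β b => (closure_le (centralizer {β})).2 (fun γ d =>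
      mem_centralizer_singleton_iff.2 ((cm (x := ⟨_, γ, d, rfl⟩) (y := ⟨_, β, b, rfl⟩) ⟨d, rfl⟩ ⟨b, rfl⟩).1 (e _ _)))
      (gen.ge (mem_top g)) β rfl |>.symm).le (mem_top α)
    exact hp.one_lt.ne (by rw [← ord α a, mem_bot.1 this, orderOf_one])

theorem of_hyp [Finite G] (p : ℕ) (hp : p.Prime) (hp5 : 5 ≤ p)
    (hS : ∀ M : Subgroup G, M.Normal → Group.IsSolvable ↥M → M = ⊥)
    (A₀ : Subgroup G) (hA₀ : Nat.card ↥A₀ = p)
    (hgen : (⨆ g : G, A₀.map (MulAut.conj g).toMonoidHom) = ⊤)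
    (hpair : ∀ g h : G, A₀.map (MulAut.conj g).toMonoidHom ≠ A₀.map (MulAut.conj h).toMonoidHom →
      Nonempty (↥(A₀.map (MulAut.conj g).toMonoidHom ⊔ A₀.map (MulAut.conj h).toMonoidHom) ≃* (Multiplicative (ZMod p) × Multiplicative (ZMod p))) ∨
      ∃ (K : Type) (_ : Field K) (_ : Fintype K) (m : ℕ), 1 ≤ m ∧ Fintype.card K = p ^ m ∧
        (Nonempty (↥(A₀.map (MulAut.conj g).toMonoidHom ⊔ A₀.map (MulAut.conj h).toMonoidHom) ≃* Matrix.ProjectiveSpecialLinearGroup (Fin 2) K) ∨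
          Nonempty (↥(A₀.map (MulAut.conj g).toMonoidHom ⊔ A₀.map (MulAut.conj h).toMonoidHom) ≃* Matrix.SpecialLinearGroup (Fin 2) K))) :
    ∃ (P : Type u) (_ : Finite P) (_ : MulAction G P) (c : P → P → Prop) (W : P → Set G), PG p c W := by
  have := Fact.mk hp
  have cd : ∀ g, Nat.card (A₀.map (MulAut.conj g).toMonoidHom) = p := fun g =>
    (card_map_of_injective (MulAut.conj g).injective).trans hA₀
  have od : ∀ {α g}, α ≠ 1 → α ∈ A₀.map (MulAut.conj g).toMonoidHom → orderOf α = p := fun a m =>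
    ((Nat.dvd_prime hp).1 (cd _ ▸ orderOf_dvd_natCard _ m)).resolve_left (mt orderOf_eq_one_iff.1 a)
  have zp : ∀ {α g}, α ≠ 1 → α ∈ A₀.map (MulAut.conj g).toMonoidHom → A₀.map (MulAut.conj g).toMonoidHom = zpowers α :=
    fun a m => (eq_of_le_of_card_ge (zpowers_le_of_mem m) (by rw [cd, Nat.card_zpowers, od a m])).symm
  have cj : ∀ {α g}, α ∈ A₀.map (MulAut.conj g).toMonoidHom → ∀ k, k * α * k⁻¹ ∈ A₀.map (MulAut.conj (k * g)).toMonoidHom :=
    fun ⟨a, m, e⟩ k => ⟨a, m, by simp [← e, mul_assoc]⟩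
  refine of_set hp hp5 hS (V := {α | α ≠ 1 ∧ ∃ g, α ∈ A₀.map (MulAut.conj g).toMonoidHom}) (fun α ⟨a, _, m⟩ => od a m)
    (fun α ⟨a, g, m⟩ k => ⟨by simpa, _, cj m k⟩)
    (fun α ⟨a, g, m⟩ n e => ⟨mt orderOf_dvd_iff_pow_eq_one.2 (od a m ▸ e), g, pow_mem m n⟩) ?_
    (top_unique (hgen ▸ iSup_le fun g α m => (em (α = 1)).elim (fun e => e.symm ▸ one_mem _) fun a => subset_closure ⟨a, g, m⟩))
    (fun α ⟨_, g, m⟩ β ⟨b, k, n⟩ => ⟨k * g⁻¹, zp b n ▸ by simpa using cj m (k * g⁻¹)⟩) fun α ⟨a, g, m⟩ β ⟨b, k, n⟩ e => ?_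
  · obtain ⟨⟨α, m⟩, a⟩ := ne_bot_iff_exists_ne_one.1 ((one_lt_card_iff_ne_bot _).1 (cd 1 ▸ hp.one_lt))
    exact ⟨α, fun e => a (Subtype.ext e), 1, m⟩
  have r : (A₀.map (MulAut.conj g).toMonoidHom ⊔ A₀.map (MulAut.conj k).toMonoidHom).subtype.range = closure {α, β} := by
    rw [range_subtype, zp a m, zp b n, zpowers_eq_closure, zpowers_eq_closure, ← Subgroup.closure_union]; rfl
  rcases hpair g k fun i => e (let ⟨j, q⟩ := (i.symm.trans (zp a m)).le n; q ▸ (Commute.refl α).zpow_right j) with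
    ⟨⟨φ⟩⟩ | ⟨K, _, _, l, l1, c, i⟩
  · have := φ.injective (a₁ := ⟨α, mem_sup_left m⟩ * ⟨β, mem_sup_right n⟩)
      (a₂ := ⟨β, mem_sup_right n⟩ * ⟨α, mem_sup_left m⟩) (by rw [map_mul, map_mul, mul_comm])
    exact (e (Subtype.ext_iff.1 this :)).elim
  have := charP_of_card_eq_prime_pow c
  have o := hp.odd_of_ne_two (by omega)
  have pa := od a m ▸ pow_orderOf_eq_one α
  have pb := od b n ▸ pow_orderOf_eq_one β
  refine ⟨K, ‹_›, ‹_›, ‹_›, ?_⟩
  rcases i with ⟨⟨φ⟩⟩ | ⟨⟨φ⟩⟩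
  · refine exists_nf o (π := (Subgroup.subtype _).comp (φ.symm.toMonoidHom.comp (QuotientGroup.mk' _))) ?_
      (fun x q => sl2_center_cases ((QuotientGroup.eq_one_iff x).1 (φ.symm.map_eq_one_iff.1 (Subtype.ext q)))) pa pb e
    rw [← r, MonoidHom.range_comp, MonoidHom.range_eq_top.2 (φ.symm.surjective.comp (QuotientGroup.mk'_surjective _)),
      MonoidHom.range_eq_map]
  · refine exists_nf o (π := (Subgroup.subtype _).comp φ.symm.toMonoidHom) ?_
      (fun x q => .inl (φ.symm.map_eq_one_iff.1 (Subtype.ext q))) pa pb e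
    rw [← r, MonoidHom.range_comp, MonoidHom.range_eq_top.2 φ.symm.surjective, MonoidHom.range_eq_map]

end CF.Tv
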