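import Cfsg.Agent.Tv.B2

/-! `p`-transvections of rank one: torus words. -/

set_option autoImplicit false
set_option linter.unusedSectionVars false

namespace CF.Tv

open CF.Fisch
open scoped MatrixGroups

variable {G : Type*} [Group G] {P : Type*}

/-- the torus word of a braid pair -/
def hh (α β : G) (n m : ℕ) : G := α ^ n * β ^ m * α ^ n * (α * β * α)⁻¹

theorem hh_conj (α β g : G) (n m : ℕ) : hh (g * α * g⁻¹) (g * β * g⁻¹) n m = g * hh α β n m * g⁻¹ := by
  simp only [hh, conj_pow]; group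

theorem comm_hh {α β g : G} (h1 : Commute g α) (h2 : Commute g β) (n m : ℕ) : Commute g (hh α β n m) :=
  (((h1.pow_right n).mul_right (h2.pow_right m)).mul_right (h1.pow_right n)).mul_right ((h1.mul_right h2).mul_right h1).inv_right

theorem hh_mem {α β : G} {H : Subgroup G} (h1 : α ∈ H) (h2 : β ∈ H) (n m : ℕ) : hh α β n m ∈ H :=
  mul_mem (mul_mem (mul_mem (pow_mem h1 n) (pow_mem h2 m)) (pow_mem h1 n)) (inv_mem (mul_mem (mul_mem h1 h2) h1))

section SL

variable {K : Type} [Field K] {π : SL(2, K) →* G} {s t : K} {α β : G} {n m : ℕ}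

theorem hh_dg (π : SL(2, K) →* G) (h : s * t = -1) (e : (n : K) * m = 1) :
    hh (π (upT s)) (π (loT t)) n m = π (dg n (left_ne_zero_of_mul_eq_one e)) := by
  have hs : s ≠ 0 := by rintro rfl; simp at h
  have hn := left_ne_zero_of_mul_eq_one e
  obtain rfl : t = -s⁻¹ := by field_simp; linear_combination h
  simp only [hh, ← map_pow, ← map_mul, ← map_inv, upT_pow, loT_pow, eq_inv_of_mul_eq_one_right e]
  congr 1
  rw [mul_inv_eq_iff_eq_mul]
  apply sl2_ext <;> simp [sl2_mul_apply, upT_coe, loT_coe, dg_coe, hs, hn] <;> field_simp <;> ring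

theorem hh_dg' (π : SL(2, K) →* G) (h : s * t = -1) (e : (n : K) * m = 1) :
    hh (π (loT t)) (π (upT s)) n m = π (dg m (right_ne_zero_of_mul_eq_one e)) := by
  have hs : s ≠ 0 := by rintro rfl; simp at h
  have hn := left_ne_zero_of_mul_eq_one e
  obtain rfl : t = -s⁻¹ := by field_simp; linear_combination h
  simp only [hh, ← map_pow, ← map_mul, ← map_inv, upT_pow, loT_pow, eq_inv_of_mul_eq_one_right e]
  congr 1
  rw [mul_inv_eq_iff_eq_mul]
  apply sl2_ext <;> simp [sl2_mul_apply, upT_coe, loT_coe, dg_coe, hs, hn] <;> field_simp <;> ring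

theorem dg_mul (a b : K) (ha : a ≠ 0) (hb : b ≠ 0) : dg a ha * dg b hb = dg (a * b) (mul_ne_zero ha hb) := by
  apply sl2_ext <;> simp [sl2_mul_apply, dg_coe, mul_comm]

theorem dg_one : dg (1 : K) one_ne_zero = 1 := by apply sl2_ext <;> simp [dg_coe]

theorem dg_neg_one : dg (-1 : K) (neg_ne_zero.2 one_ne_zero) = -1 := by apply sl2_ext <;> simp [dg_coe]

theorem dg_pow (a : K) (ha : a ≠ 0) (j : ℕ) : dg a ha ^ j = dg (a ^ j) (pow_ne_zero j ha) := by
  induction j with
  | zero => simp [dg_one]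
  | succ j ih => rw [pow_succ, ih, dg_mul]; simp only [pow_succ]

theorem w_dg (h : s * t = -1) (a : K) (ha : a ≠ 0) :
    upT s * loT t * upT s * dg a ha * (upT s * loT t * upT s)⁻¹ = (dg a ha)⁻¹ := by
  have hs : s ≠ 0 := by rintro rfl; simp at h
  obtain rfl : t = -s⁻¹ := by field_simp; linear_combination h
  rw [mul_inv_eq_iff_eq_mul, eq_inv_mul_iff_mul_eq]
  apply sl2_ext <;> simp [sl2_mul_apply, upT_coe, loT_coe, dg_coe, hs, ha] <;> field_simp

end SL

namespace PG

variable [MulAction G P] {p : ℕ} {c : P → P → Prop} {W : P → Set G} (h : PG p c W) (h1 : ∀ x y, c x y → x = y)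
  {a b d : P} {α β γ g : G} {n m : ℕ}
include h

theorem cast_one {K : Type*} [Field K] [CharP K p] (e : n * m ≡ 1 [MOD p]) : (n : K) * m = 1 := by
  rw [← Nat.cast_mul, (CharP.natCast_eq_natCast K p).2 e, Nat.cast_one]

/-- normal form of a braid pair -/
theorem nfb (ha : α ∈ W a) (hb : β ∈ W b) (nc : ¬ c a b) (e : Br α β) :
    ∃ (K : Type) (_ : Field K) (_ : Fintype K) (_ : CharP K p) (π : SL(2, K) →* G), NF π (-1) α β := by
  obtain ⟨K, _, _, _, π, t, N⟩ := h.nf ha hb nc
  obtain rfl := N.br_t (h.two_ne K) e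
  exact ⟨K, _, ‹_›, ‹_›, π, N⟩

include h1

theorem nc (n : a ≠ b) : ¬ c a b := mt (h1 a b) n

theorem pt_eq (ha : α ∈ W a) (hb : β ∈ W b) (e : Commute α β) : a = b := h1 a b ((h.cm ha hb).2 e)

theorem self (ha : α ∈ W a) : α • a = a := h.fix ha (.refl α)

/-- a transvection fixes only its centre -/
theorem only (ha : α ∈ W a) (e : α • b = b) : b = a := by_contra fun n => by
  obtain ⟨β, hb⟩ := h.ne b
  obtain ⟨K, _, _, _, π, t, N⟩ := h.nf ha hb (h.nc h1 (Ne.symm n))
  simpa [upT_coe] using N.lo_norm (h.two_ne K) (g := upT 1) (N.a ▸ h.com (h.conj' hb e) hb (h.refl b))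

end PG

end CF.Tv
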