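import Cfsg.Agent.Tv.B
import Cfsg.Agent.Classical.Dickson

/-! Two elements generating `SL₂(K)`. -/

set_option autoImplicit false

namespace CF.Tv.RF

open CF.Fisch CF.Classical Subgroup Matrix MulAction OnePoint
open scoped MatrixGroups

variable {K : Type} [Field K] {s t l : K} {g : SL(2, K)}

local notation "𝐏" => Matrix.SpecialLinearGroup.toPGL (n := Fin 2) (R := K)

/-- the generators -/
def gs (t s : K) : SL(2, K) := upT s * loT (-(s * t))

theorem gs_eq (t s : K) : gs t s = sl2 (1 - s * s * t) s (-(s * t)) 1 (by ring) := by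
  apply sl2_ext <;> simp [gs, sl2_mul_apply, upT_coe, loT_coe, sl2]
  ring

theorem P_one : 𝐏 g = 1 ↔ g = 1 ∨ g = -1 := by
  refine ⟨fun e => sl2_center_cases (SpecialLinearGroup.toPGL_ker.le e), fun e => SpecialLinearGroup.toPGL_ker.ge ?_⟩
  rcases e with rfl | rfl
  exacts [one_mem _, mem_center_iff.2 fun g => by simp]

theorem tr_pow (hs : s ≠ 0) : (𝐏 (gs t s) ^ 3 = 1 → (2 - s * s * t) ^ 2 = 1) ∧
    (𝐏 (gs t s) ^ 4 = 1 → (2 - s * s * t) * ((2 - s * s * t) ^ 2 - 2) = 0) ∧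
    (𝐏 (gs t s) ^ 5 = 1 → (2 - s * s * t) ^ 4 - 3 * (2 - s * s * t) ^ 2 + 1 = 0) ∧ 𝐏 (gs t s) ≠ 1 := by
  simp only [gs_eq, toPGL_sl2, pow_succ _ 4, pow_succ _ 3, pow_succ _ 2, pow_two, pgl_mul, pgl_eq_one_iff, ne_eq]
  exact ⟨fun e => mul_left_cancel₀ hs (by linear_combination e.1), fun e => mul_left_cancel₀ hs (by linear_combination e.1),
    fun e => mul_left_cancel₀ hs (by linear_combination e.1), fun e => hs e.1⟩

theorem nofix {k : Type} [Field k] [Algebra K k] (t0 : t ≠ 0) (l0 : l ≠ 0) (l1 : l ≠ 1) {x : OnePoint k}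
    (a : 𝐏 (gs t 1) • x = x) (b : 𝐏 (gs t l) • x = x) : False := by
  rw [gs_eq, toPGL_sl2] at a b
  cases x with
  | infty => exact t0 (by simpa using pgl_smul_infty_eq_infty.1 a)
  | coe z =>
    rw [pgl_smul_coe_eq_coe] at a b
    simp only [map_neg, map_mul, map_sub, map_one] at a b
    have h0 := (map_ne_zero (algebraMap K k)).2 l0
    have : z = 0 := (mul_eq_zero.1 (show algebraMap K k (l * (l - 1) * t) * z = 0 by
      simp only [map_mul, map_sub, map_one]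
      linear_combination b - algebraMap K k l * a)).resolve_left ((map_ne_zero _).2 (by simp [*, sub_eq_zero]))
    simp [this] at a

theorem tr_mem {K0 : Subfield K} {c : PGL(2, K)} {a : PGL(2, K0)} (e : subPGL K0 c a = 𝐏 (gs t s)) : (2 - s * s * t) ^ 2 ∈ K0 := by
  obtain ⟨a, b, c', d, h, rfl⟩ := exists_pgl a
  obtain ⟨u, v, w, x, h', rfl⟩ := exists_pgl c
  rw [subPGL_apply, map_pgl, pgl_inv, pgl_mul, pgl_mul, gs_eq, toPGL_sl2, eq_comm, pgl_eq_pgl_iff] at e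
  obtain ⟨y, e1, e2, e3, e4⟩ := e
  simp only [Subfield.coe_subtype] at e1 e2 e3 e4
  have h0 : (a * d - b * c' : K) ≠ 0 := by exact_mod_cast h
  have k1 : y * (2 - s * s * t) = (u * x - v * w) * (a + d) := by linear_combination -e1 - e4
  have k2 : y ^ 2 = (u * x - v * w) ^ 2 * (a * d - b * c') := by
    linear_combination (-(y * 1)) * e1 - ((u * a + v * c') * x + (u * b + v * d) * -w) * e4 + (y * -(s * t)) * e2 +
      ((u * a + v * c') * -v + (u * b + v * d) * u) * e3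
  convert (((a + d) ^ 2 / (a * d - b * c') : K0)).2 using 1
  push_cast
  rw [eq_div_iff h0]
  exact mul_left_cancel₀ (pow_ne_zero 2 h') (by linear_combination (y * (2 - s * s * t) + (u * x - v * w) * (a + d)) * k1 -
    (2 - s * s * t) ^ 2 * k2)

theorem small {X : Type*} [Group X] (h : Nonempty (X ≃* alternatingGroup (Fin 4)) ∨ Nonempty (X ≃* Equiv.Perm (Fin 4)) ∨
    Nonempty (X ≃* alternatingGroup (Fin 5))) (x : X) : x ^ 3 = 1 ∨ x ^ 4 = 1 ∨ x ^ 5 = 1 := by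
  rcases h with ⟨⟨e⟩⟩ | ⟨⟨e⟩⟩ | ⟨⟨e⟩⟩ <;> simp only [← e.map_eq_one_iff, map_pow] <;> generalize e x = y <;> revert y <;>
    decide +kernel

theorem gen [Fintype K] (n7 : (7 : K) ≠ 0) (n11 : (11 : K) ≠ 0) (n2 : (2 : K) ≠ 0) (n3 : (3 : K) ≠ 0) (hl : l * l = -1) (t0 : t ≠ 0)
    (rg : ∀ K0 : Subfield K, t ∈ K0 → ∀ s, s ∈ K0) (o1 : ∀ N, 𝐏 (gs t 1) ^ N = 1 → 𝐏 (gs t l) ^ (2 * N) = 1)
    (o2 : ∀ N, 𝐏 (gs t l) ^ N = 1 → 𝐏 (gs t 1) ^ (2 * N) = 1) (g : SL(2, K)) : g * g ∈ closure {gs t 1, gs t l} := by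
  have l0 : l ≠ 0 := by rintro rfl; simp at hl
  have l1 : l ≠ 1 := by rintro rfl; exact n2 (by linear_combination hl)
  have n4 : (4 : K) ≠ 0 := fun e => mul_ne_zero n2 n2 (by linear_combination e)
  obtain ⟨a3, a4, a5, a1⟩ := tr_pow (t := t) one_ne_zero
  obtain ⟨b3, b4, b5, b1⟩ := tr_pow (t := t) l0
  rw [hl] at b3 b4 b5
  have c4 : 𝐏 (gs t 1) ^ 4 = 1 → 𝐏 (gs t l) ^ 4 = 1 → False := fun a b => by
    rcases mul_eq_zero.1 (a4 a) with a | a <;> rcases mul_eq_zero.1 (b4 b) with b | b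
    · exact n4 (by linear_combination a + b)
    · exact mul_ne_zero n2 n7 (by linear_combination b + (t + 6) * a)
    · exact mul_ne_zero n2 n7 (by linear_combination a + (6 - t) * b)
    · exact mul_ne_zero (mul_ne_zero n2 n4) t0 (by linear_combination b - a)
  have gc : ∀ {x : PGL(2, K)} {i j}, x ^ i = 1 → x ^ j = 1 → x ^ Nat.gcd i j = 1 := fun a b => pow_gcd_eq_one.2 ⟨a, b⟩
  have sm : ¬ ∀ x : (closure {gs t 1, gs t l}).map 𝐏, x ^ 3 = 1 ∨ x ^ 4 = 1 ∨ x ^ 5 = 1 := fun k => by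
    have a := k ⟨_, mem_map_of_mem _ (subset_closure (.inl rfl))⟩
    have b := k ⟨_, mem_map_of_mem _ (subset_closure (.inr rfl))⟩
    simp only [Subtype.ext_iff, SubmonoidClass.coe_pow, OneMemClass.coe_one] at a b
    rcases a with a | a | a <;> rcases b with b | b | b
    · rcases sq_eq_one_iff.1 (a3 a) with a | a <;> rcases sq_eq_one_iff.1 (b3 b) with b | b
      exacts [n2 (by linear_combination a + b), n4 (by linear_combination a + b), n4 (by linear_combination a + b),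
        mul_ne_zero n2 n3 (by linear_combination a + b)]
    · exact a1 (by simpa using gc a (o2 _ (gc (o1 _ a) b)))
    · exact b1 (by simpa using gc (o1 _ a) b)
    · exact b1 (by simpa using gc b (o1 _ (gc (o2 _ b) a)))
    · exact c4 a b
    · exact b1 (by simpa using gc (o1 _ a) b)
    · exact a1 (by simpa using gc (o2 _ b) a)
    · exact a1 (by simpa using gc (o2 _ b) a)
    have k : 2 * t ^ 2 + 5 = 0 := mul_left_cancel₀ (mul_ne_zero (mul_ne_zero n2 n4) t0) (by linear_combination b5 b - a5 a)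
    have k' : (t ^ 2 - 3) * (t ^ 2 - 5) = 0 :=
      mul_left_cancel₀ n2 (by linear_combination (8 + 2 * t ^ 2) * k - a5 a - b5 b)
    rcases mul_eq_zero.1 k' with e | e
    · exact n11 (by linear_combination k - 2 * e)
    · exact mul_ne_zero n3 (pow_ne_zero 2 t0) (by linear_combination k + e)
  have m1 : 𝐏 (gs t 1) ∈ (closure {gs t 1, gs t l}).map 𝐏 := mem_map_of_mem _ (subset_closure (.inl rfl))
  have m2 : 𝐏 (gs t l) ∈ (closure {gs t 1, gs t l}).map 𝐏 := mem_map_of_mem _ (subset_closure (.inr rfl))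
  rcases (isL2_PGL K (AlgebraicClosure K)).dickson ((closure {gs t 1, gs t l}).map 𝐏) with
    ⟨x, e⟩ | ⟨x, y, n, -, e⟩ | ⟨-, e⟩ | ⟨-, e⟩ | ⟨K0, c, H, le, e⟩
  · exact (nofix t0 l0 l1 (e m1) (e m2)).elim
  · rcases mem_pairStab.1 (e m1) with a | a
    · rcases mem_pairStab.1 (e m2) with b | b
      · exact (nofix t0 l0 l1 a.1 b.1).elim
      · have := (pow_two _).trans (mul_self_eq_one_of_swap n b.1 b.2)
        exact (c4 (o2 2 this) (by rw [pow_mul _ 2 2, this, one_pow])).elim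
    · have := (pow_two _).trans (mul_self_eq_one_of_swap n a.1 a.2)
      exact (c4 (by rw [pow_mul _ 2 2, this, one_pow]) (o1 2 this)).elim
  · exact (sm (small e)).elim
  · exact (sm (small (.inr (.inr e)))).elim
  rw [Subgroup.map_id] at e
  obtain ⟨a, -, ha⟩ := e.le m1
  obtain ⟨b, -, hb⟩ := e.le m2
  have k := rg K0 (by
    convert K0.div_mem (sub_mem (tr_mem hb) (tr_mem ha)) (natCast_mem K0 8) using 1
    rw [hl, eq_div_iff (by simpa using fun e => mul_ne_zero n2 n4 (by linear_combination e))]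
    push_cast; ring)
  obtain ⟨u, hu⟩ := instNormalPsl.conj_mem _ (show 𝐏 g ∈ psl K from ⟨g, rfl⟩) c⁻¹
  obtain ⟨a, b, c', d, h, rfl⟩ := exists_sl2 u
  obtain ⟨w, hw, q⟩ := e.ge ⟨_, le ⟨sl2 ⟨a, k a⟩ ⟨b, k b⟩ ⟨c', k c'⟩ ⟨d, k d⟩ (Subtype.ext h), rfl⟩, rfl⟩
  have : 𝐏 (w⁻¹ * g) = 1 := by
    rw [toPGL_sl2] at hu
    rw [map_mul, map_inv, q, subPGL_apply, toPGL_sl2, map_pgl]
    erw [hu]; group
  rcases P_one.1 this with e | e
  · exact inv_mul_eq_one.1 e ▸ mul_mem hw hw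
  · rw [inv_mul_eq_iff_eq_mul.1 e]; simpa using mul_mem hw hw

end CF.Tv.RF
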